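import Cfsg.Agent.Classical.UGen

/-!
A subgroup containing the unipotent radical at one isotropic point and moving that point to a non-orthogonal
one contains every transvection.
-/

set_option autoImplicit false

namespace Cfsg.Agent.SUTwoGen

open Cfsg.Agent.Classical.U

universe u

variable {F : Type u} [Field F] {q n : ℕ} (hF : SqField F q)
include hF

/-- An element of the radical at `e` carrying one normalised vector to another. -/
theorem exists_radical_move {e p z : Fin n → F} (he : herm q e e = 0) (hp : herm q p p = 0)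
    (hz : herm q z z = 0) (hpe : herm q p e = 1) (hze : herm q z e = 1) :
    ∃ hc : UniCond q e (z - p) (herm q p (z - p)), (uni hF hc).1 p = z := by
  have hc : UniCond q e (z - p) (herm q p (z - p)) := by
    refine ⟨he, by rw [herm_sub_left, hze, hpe, sub_self], ?_⟩
    simp only [hF.herm_sub_right, herm_sub_left, hF.sub_pow, hF.herm_symm, hp, hz, zero_pow hF.q_ne_zero]
    ring
  refine ⟨hc, ?_⟩
  rw [uni_apply, hpe, mul_one, one_smul, sub_self, zero_smul, add_zero, add_sub_cancel]

theorem TG_le_of_radical {e : Fin n → F} (he : herm q e e = 0) (G : Subgroup (UG n F q))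
    (hU : ∀ (x : Fin n → F) (a : F) (hx : UniCond q e x a), uni hF hx ∈ G)
    {g : UG n F q} (hgG : g ∈ G) (hg : herm q (g.1 e) e ≠ 0) : TG n F q ≤ G := by
  have he0 : e ≠ 0 := by rintro rfl; exact hg (hF.herm_zero_right _)
  have toOrbit : ∀ z : Fin n → F, herm q z z = 0 → herm q z e ≠ 0 →
      ∃ k ∈ G, ∃ c : F, z = c • k.1 e := by
    intro z hz hze
    set p := g.1 e
    have hp : herm q p p = 0 := by rw [UG_app]; exact he
    obtain ⟨hc, hm⟩ := exists_radical_move hF he (p := (herm q p e)⁻¹ • p) (z := (herm q z e)⁻¹ • z)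
      (by rw [herm_smul_left, herm_smul_right, hp, mul_zero, mul_zero])
      (by rw [herm_smul_left, herm_smul_right, hz, mul_zero, mul_zero])
      (by rw [herm_smul_left]; exact inv_mul_cancel₀ hg)
      (by rw [herm_smul_left]; exact inv_mul_cancel₀ hze)
    refine ⟨uni hF hc * g, G.mul_mem (hU _ _ hc) hgG, herm q z e * (herm q p e)⁻¹, ?_⟩
    rw [map_smul] at hm
    rw [Subgroup.coe_mul, LinearEquiv.mul_apply, mul_smul, hm, smul_smul, mul_inv_cancel₀ hze, one_smul]
  have conjmove : ∀ k ∈ G, ∀ (z : Fin n → F) (s : F), z = s • k.1 e →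
      ∀ (d : F) (hd : TrvCond q z d), trv hF hd ∈ G := by
    intro k hk z s hs d hd
    subst hs
    rcases eq_or_ne s 0 with rfl | hs0
    · convert one_mem G
      ext x i
      simp [trv_apply, hF.herm_zero_right]
    have hd2 : TrvCond q e (s * s ^ q * d) := ⟨he, by
      rw [mul_pow, mul_pow, hF.pow_pow, hd.2]; ring⟩
    have hd3 : TrvCond q (k.1 e) (s * s ^ q * d) := ⟨by rw [UG_app]; exact he, hd2.2⟩
    have := G.mul_mem (G.mul_mem hk (hU _ _ (hd2.uniCond hF))) (G.inv_mem hk)
    convert this using 1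
    rw [trv, uni_conj, uni_smul hF (hd.uniCond hF) (by rw [smul_zero]; exact hd3.uniCond hF)]
    exact uni_congr hF _ _ rfl (by rw [smul_zero, map_zero]) rfl
  rw [TG, Subgroup.closure_le]
  rintro x ⟨z, d, hd, hx⟩
  rw [mem_TG_generator hF hd hx]
  by_cases hze : herm q z e = 0
  · rcases eq_or_ne z 0 with hz0 | hz0
    · exact conjmove 1 (one_mem _) z 0 (by rw [hz0, zero_smul]) d hd
    obtain ⟨y, hy, h1, h2⟩ := exists_isotropic_not_orth hF he0 he hz0 (v := z)
      (by rw [← hF.herm_symm, hze, zero_pow hF.q_ne_zero])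
    obtain ⟨d0, hd0, hd0q⟩ := hF.exists_skew
    have hye : herm q y e ≠ 0 := by rw [← hF.herm_symm]; exact pow_ne_zero _ h1
    obtain ⟨k, hk, c, hc⟩ := toOrbit y hy hye
    have ht : TrvCond q y d0 := ⟨hy, hd0q⟩
    have htG := conjmove k hk y c hc d0 ht
    obtain ⟨k', hk', c', hc'⟩ := toOrbit ((trv hF ht).1 z) (by rw [UG_app]; exact hd.1) (by
      rw [trv_apply, herm_add_left, herm_smul_left, hze, zero_add]
      exact mul_ne_zero (mul_ne_zero hd0 h2) hye)
    refine conjmove ((trv hF ht)⁻¹ * k') (G.mul_mem (G.inv_mem htG) hk') z c' ?_ d hd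
    rw [Subgroup.coe_mul, LinearEquiv.mul_apply, ← map_smul, ← hc']
    simp
  · obtain ⟨k, hk, c, hc⟩ := toOrbit z hd.1 hze
    exact conjmove k hk z c hc d hd

end Cfsg.Agent.SUTwoGen
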