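import Cfsg.Agent.SUTwoGen.FiveRad

/-!
`SU_5(q)` is generated by three conjugate regular unipotent elements.
-/

set_option autoImplicit false
set_option maxHeartbeats 1000000

namespace Cfsg.Agent.SUTwoGen

open Cfsg.Agent.Classical.U

universe u

variable {F : Type u} [Field F]

/-- Three conjugate regular unipotent elements generating the special unitary group. -/
def HasTriple (n : ℕ) (F : Type u) [Field F] (q : ℕ) : Prop :=
  ∃ g h u : UG n F q, g ∈ SUG n F q ∧ h ∈ SUG n F q ∧ u ∈ SUG n F q ∧
    (∃ m : ℕ, ∀ z, (fun x => u.1 x - x)^[m] z = 0) ∧ (∃ z, (fun x => u.1 x - x)^[n - 1] z ≠ 0) ∧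
    SUG n F q ≤ Subgroup.closure {u, g * u * g⁻¹, h * u * h⁻¹}

theorem hasTriple_five {q : ℕ} (hF : SqField F q) : HasTriple 5 F q := by
  obtain ⟨e, w, f, h⟩ := exists_frame hF
  obtain ⟨E1, F1, ht⟩ := exists_top hF
  obtain ⟨b, r, c, hb, hc, hA, hr, hr0, hrad⟩ := exists_params hF h ht
  obtain ⟨ee, ew, ef, we, ww, wf, fe, fw, ff⟩ := frame_vals hF h
  have hq0 := hF.q_ne_zero
  have te := fun y => top_emb hF ht y
  have hEE := ht.pair.1
  have hEF := ht.pair.2.2
  have hFE : herm q F1 E1 = 1 := (ht.pair.symm hF).2.2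
  set U := uni hF hc
  set V := uni hF hb
  set u := uFive hF hA hc with hu_def
  have hUc : ∀ y, U.1 y = (herm q y f + c * herm q y e - herm q y w * r ^ q) • e +
      (herm q y w + herm q y e * r) • w + herm q y e • f := fun y => by
    conv_lhs => rw [expand hF h y]
    exact uni_coords hF h hc _ _ _
  have hue : u.1 E1 = E1 := by
    rw [hu_def, uFive, Subgroup.coe_mul, LinearEquiv.mul_apply, (lift5_top hF ht _).1, uni_apply, hEE,
      (te _).2.1]
    simp
  have hux : ∀ y, u.1 (emb y) = emb (U.1 y) + herm q (U.1 y) f • E1 := by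
    intro y
    rw [hu_def, uFive, Subgroup.coe_mul, LinearEquiv.mul_apply, lift5_emb, uni_apply, (te _).1, herm_emb hF,
      hF.herm_neg_right]
    simp [U]
  have huF : u.1 F1 = F1 - emb f := by
    rw [hu_def, uFive, Subgroup.coe_mul, LinearEquiv.mul_apply, (lift5_top hF ht _).2, uni_apply, hFE,
      (te _).2.2.2, map_neg]
    simp [sub_eq_add_neg]
  set N : (Fin 5 → F) → (Fin 5 → F) := fun x => u.1 x - x
  have hNx : ∀ (y : Fin 3 → F) (t : F), N (emb y + t • E1) = emb (U.1 y - y) + herm q (U.1 y) f • E1 := by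
    intro y t
    simp only [N, map_add, map_smul, hue, hux, map_sub]
    abel
  have hU3 : ∀ y, U.1 (U.1 (U.1 y - y) - (U.1 y - y)) - (U.1 (U.1 y - y) - (U.1 y - y)) = 0 := by
    have hu' : ∀ z, U.1 z - z = (c * herm q z e - herm q z w * r ^ q) • e + (herm q z e * r) • w := fun z => by
      conv_lhs => rw [hUc z]; arg 2; rw [expand hF h z]
      module
    intro y
    simp only [hu', herm_add_left, herm_smul_left, ee, ew, we, ww]
    simp
  have hN5 : ∀ z, N^[5] z = 0 := by
    intro z
    have h1 : herm q (N z) E1 = 0 := by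
      simp only [N, herm_sub_left]
      conv_lhs => arg 1; rw [← hue]
      rw [UG_app, sub_self]
    obtain ⟨y, t, e1⟩ := perp_decomp hF ht h1
    show N (N (N (N (N z)))) = 0
    rw [e1, hNx, hNx, hNx, hU3, hNx]
    simp [herm_zero_left]
  have hN4 : N^[4] F1 ≠ 0 := by
    have e1 : N F1 = emb (-f) + (0 : F) • E1 := by simp only [N, huF, map_neg]; module
    show N (N (N (N F1))) ≠ 0
    rw [e1, hNx, hNx, hNx]
    intro h0
    have h2 := congrArg (herm q · F1) h0
    simp only [herm_add_left, herm_smul_left, hEF, (te _).2.2.1, herm_zero_left] at h2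
    simp [hUc, herm_add_left, herm_neg_left, herm_sub_left, herm_smul_left, ee, ew, ef, we, ww, wf, fe, fw, ff,
      hr0, hq0] at h2
  -- the commutator carrying the unipotent of the middle
  obtain ⟨t, hteq⟩ := exists_skew_split hF (d := b - c / r ^ 2) (by
    have h1 := (cond_iff' hF h).1 hb
    have h2 := (cond_iff hF h).1 hc
    rw [one_pow] at h1
    rw [pow_succ, hr] at h2
    rw [hF.sub_pow, div_pow, ← pow_mul, mul_comm, pow_mul, hr]
    field_simp
    linear_combination r ^ 2 * h1 - h2)
  set s : F := -1 / r with hs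
  set ν := -(s * c) - t with hν
  set d := -(s * c) with hd
  set x : Fin 3 → F := s • f + ν • e
  have hhx : UniCond q E1 (emb x) (-(s * ν ^ q)) := by
    rw [rad_cond hF ht]
    simp only [x, herm_add_left, hF.herm_add_right, herm_smul_left, herm_smul_right, ee, ef, fe, ff,
      hF.neg_pow, mul_pow, hF.pow_pow]
    ring
  have hsq : s ^ q = s := by rw [hs, div_pow, hF.neg_pow, one_pow, hr]
  have hUx : U.1 x = (ν + s * c) • e + (s * r) • w + s • f := by
    rw [hUc]
    simp [x, herm_add_left, herm_smul_left, ee, ew, ef, fe, fw, ff, mul_comm c s]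
  set y0 := w + d • e
  have hy0 : UniCond q E1 (emb y0) b := by
    have h1 := (cond_iff' hF h).1 hb
    rw [one_pow] at h1
    rw [rad_cond hF ht]
    simp only [y0, herm_add_left, hF.herm_add_right, herm_smul_left, herm_smul_right, ee, ew, we, ww]
    linear_combination h1
  set hxe := uni hF hhx
  have hcomm : hxe * u * hxe⁻¹ * u⁻¹ = uni hF hy0 := by
    have hrs : s * r = -1 := by rw [hs]; field_simp
    set ax := -(s * ν ^ q) with hax
    have hc1 : UniCond q E1 (u.1 (emb x)) ax :=
      ⟨hEE, by rw [← hue, UG_app]; exact hhx.2.1, by rw [UG_app]; exact hhx.2.2⟩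
    have hc2 : UniCond q E1 (-u.1 (emb x)) (ax ^ q) := by
      refine ⟨hEE, by rw [herm_neg_left, hc1.2.1, neg_zero], ?_⟩
      rw [herm_neg_left, hF.herm_neg_right, neg_neg, hF.pow_pow]
      linear_combination hc1.2.2
    have e1 : u * hxe * u⁻¹ = uni hF hc1 := by
      rw [uni_conj]; exact uni_congr hF _ _ hue rfl rfl
    have e2 : (uni hF hc1)⁻¹ = uni hF hc2 := by
      refine inv_eq_of_mul_eq_one_right ?_
      rw [uni_mul, ← uni_zero hF hEE]
      refine uni_congr hF _ _ rfl (add_neg_cancel _) ?_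
      rw [herm_neg_left]
      linear_combination hc1.2.2
    have e3 : hxe * u * hxe⁻¹ * u⁻¹ = uni hF hhx * (u * hxe * u⁻¹)⁻¹ := by group; rfl
    rw [e3, e1, e2, uni_mul]
    have hsum : emb x + -u.1 (emb x) = emb y0 + t • E1 := by
      rw [hux, hUx, herm_add_left, herm_add_left, herm_smul_left, herm_smul_left, herm_smul_left, ef, wf, ff,
        hrs]
      simp only [x, y0, map_add, map_smul, hν, hd]
      module
    have hpar : ax + ax ^ q - herm q (-u.1 (emb x)) (emb x) = c * (s * s) := by
      rw [hux, hUx, herm_neg_left, herm_add_left, herm_smul_left, (te _).2.1, mul_zero, add_zero, herm_emb hF]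
      simp only [x, hax, hF.herm_add_right, herm_add_left, herm_smul_left, herm_smul_right, ee, ef, we, wf,
        fe, ff, hF.neg_pow, mul_pow, hF.pow_pow, hsq]
      ring
    refine Subtype.ext (LinearEquiv.ext fun z => ?_)
    rw [uni_apply, uni_apply, hsum, hpar, hF.herm_add_right, herm_smul_right]
    have hb' : c * (s * s) + t - t ^ q = b := by
      have : c * (s * s) = c / r ^ 2 := by rw [hs]; field_simp
      linear_combination this + hteq
    rw [← hb']
    module
  obtain ⟨d0, hd0, hd0q⟩ := hF.exists_skew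
  set zz := F1 + emb e
  have hzz : herm q zz zz = 0 := by
    simp [zz, herm_add_left, hF.herm_add_right, ht.pair.2.1, (te _).2.2.1, (te _).2.2.2, herm_emb hF, ee]
  have hEz : herm q E1 zz = 1 := by simp [zz, hF.herm_add_right, hEF, (te _).2.1]
  have hzf : herm q zz (emb f) = 1 := by simp [zz, herm_add_left, (te _).2.2.2, herm_emb hF, ef]
  obtain ⟨T1, hT1, hT1E, hT1fix⟩ := exists_trv_move hF hEE hzz (b := d0)
    (by rw [hEz, one_mul]; exact pow_ne_zero _ hd0)
    (by rw [hEz, one_mul, hF.pow_pow, hd0q, neg_neg])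
  obtain ⟨T2, hT2, hT2z, hT2fix⟩ := exists_trv_move hF hzz (by rw [herm_emb hF]; exact ff) (v := emb f)
    (b := d0⁻¹) (by rw [hzf, one_mul]; exact pow_ne_zero _ (inv_ne_zero hd0))
    (by rw [hzf, one_mul, hF.pow_pow, inv_pow, hd0q, inv_neg, neg_neg])
  obtain ⟨ak, hak⟩ := hF.exists_trace (c := -((d ^ q) ^ (q + 1))) (by
    rw [hF.neg_pow, pow_succ, mul_pow, hF.pow_pow, hF.pow_pow, mul_comm])
  have hkk : UniCond q e ((d ^ q) • w) ak := by rw [cond_iff hF h, hak, neg_add_cancel]
  set g := T2 * T1 * lift5 F q (uni hF hkk)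
  have hgS : g ∈ SUG 5 F q :=
    mul_mem (mul_mem (TG_le_SUG hF hT2) (TG_le_SUG hF hT1)) (lift5_mem_SUG (det_uni hF _))
  have hgE : g.1 E1 = emb f := by
    rw [Subgroup.coe_mul, Subgroup.coe_mul, LinearEquiv.mul_apply, LinearEquiv.mul_apply,
      (lift5_top hF ht _).1, hT1E, map_smul, hT2z, smul_smul, neg_mul_neg, mul_inv_cancel₀ hd0, one_smul]
  have hgy : g.1 (emb y0) = emb w := by
    have e1 : (uni hF hkk).1 y0 = w := by
      simp only [y0, map_add, map_smul, uni_apply, we, ee, ew, herm_smul_right, ww, hF.pow_pow, hq0]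
      simp [hq0]
    rw [Subgroup.coe_mul, Subgroup.coe_mul, LinearEquiv.mul_apply, LinearEquiv.mul_apply, lift5_emb, e1,
      hT1fix _ (te _).1 (by simp [zz, hF.herm_add_right, (te _).2.2.1, herm_emb hF, we]),
      hT2fix _ (by simp [zz, hF.herm_add_right, (te _).2.2.1, herm_emb hF, we]) (by rw [herm_emb hF]; exact wf)]
  have hLV : g * uni hF hy0 * g⁻¹ = lift5 F q V := by
    obtain ⟨hc', e1⟩ := lift5_uni hF hb
    rw [e1, uni_conj]
    exact uni_congr hF _ _ hgE (by rw [hgy, one_smul]) rfl
  have huS : u ∈ SUG 5 F q := mul_mem (det_uni hF _) (lift5_mem_SUG (det_uni hF _))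
  refine ⟨g, g * hxe, u, hgS, mul_mem hgS (det_uni hF _), huS, ⟨5, hN5⟩, ⟨F1, hN4⟩, ?_⟩
  set G := Subgroup.closure {u, g * u * g⁻¹, g * hxe * u * (g * hxe)⁻¹}
  have huG : u ∈ G := Subgroup.subset_closure (by simp)
  have hvG : g * u * g⁻¹ ∈ G := Subgroup.subset_closure (by simp)
  have h3G : g * hxe * u * (g * hxe)⁻¹ ∈ G := Subgroup.subset_closure (by simp)
  have hVG : lift5 F q V ∈ G := by
    rw [← hLV, ← hcomm]
    convert G.mul_mem h3G (G.inv_mem hvG) using 1
    group
  have hQ := hrad G huG hVG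
  have hUG : lift5 F q U ∈ G := by
    have := G.mul_mem (G.inv_mem (hQ _ _ hA)) huG
    simpa [hu_def, uFive] using this
  rw [SUG_eq_TG hF (by omega) (by omega)]
  set v := g * u * g⁻¹
  set p := v.1 E1
  by_cases hp : herm q p E1 = 0
  swap
  · exact TG_le_of_radical hF hEE G hQ hvG hp
  obtain ⟨y, t', hpy⟩ := perp_decomp hF ht hp
  have hyy : herm q y y = 0 := by
    have : herm q p p = 0 := by rw [UG_app]; exact hEE
    rw [hpy] at this
    simpa [herm_add_left, hF.herm_add_right, herm_smul_left, herm_smul_right, hEE, (te _).1, (te _).2.1,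
      herm_emb hF, hq0] using this
  have hyne : y ≠ 0 := by
    rintro rfl
    rw [map_zero, zero_add] at hpy
    set ρ := (g⁻¹ : UG 5 F q).1 E1
    have hgρ : g.1 ρ = E1 := by simp [ρ]
    have hρ : u.1 ρ = t' • ρ := by
      apply g.1.injective
      rw [map_smul, hgρ, ← hpy]
      simp [p, v, ρ]
    have hρ0 : ρ ≠ 0 := fun h0 => ht.pair.ne_zero (by rw [← hgρ, h0, map_zero])
    have ht1 : t' = 1 := by
      have hk : ∀ m : ℕ, N^[m] ρ = (t' - 1) ^ m • ρ := by
        intro m
        induction m with
        | zero => simp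
        | succ m ih =>
          rw [Function.iterate_succ_apply', ih]
          simp only [N, map_smul, hρ]
          module
      have := hk 5
      rw [hN5, eq_comm, smul_eq_zero] at this
      exact sub_eq_zero.1 (eq_zero_of_pow_eq_zero (this.resolve_right hρ0))
    rw [ht1, one_smul] at hρ
    have hρE : herm q ρ E1 = 0 := by
      have := UG_app u ρ (emb e)
      rw [hρ, hux, hF.herm_add_right, herm_smul_right, hUc, ee, ew, ef] at this
      simpa [herm_add_left, herm_smul_left, ef, fe, ff, wf, hq0] using this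
    obtain ⟨y, s', hy⟩ := perp_decomp hF ht hρE
    have h0 : N ρ = 0 := by simp only [N, hρ, sub_self]
    rw [hy, hNx] at h0
    have hEc := congrArg (herm q · F1) h0
    simp only [herm_add_left, herm_smul_left, hEF, (te _).2.2.1, herm_zero_left, zero_add, mul_one] at hEc
    rw [hEc, zero_smul, add_zero] at h0
    have hUy := sub_eq_zero.1 (emb_eq_zero h0)
    have hfix := fun z => (congrArg (herm q · z) (hUc y)).symm.trans (congrArg (herm q · z) hUy)
    have hZ : herm q y e = 0 := by
      have := hfix w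
      simpa [herm_add_left, herm_smul_left, ew, ww, fw, hr0] using this
    have hW : herm q y w = 0 := by
      have := hfix f
      simpa [herm_add_left, herm_smul_left, ef, wf, ff, hZ, hr0, hq0] using this
    have hy0' : y = 0 := by
      rw [hUy] at hEc
      rw [expand hF h y, hEc, hW, hZ]
      simp
    subst hy0'
    have hh := congrArg (herm q · F1) hgρ
    rw [hy, map_zero, zero_add, map_smul, hgE] at hh
    simp [herm_smul_left, (te _).2.2.1, hEF] at hh
  obtain ⟨k, hkG, hk⟩ : ∃ k : UG 3 F q, lift5 F q k ∈ G ∧ herm q (k.1 y) y ≠ 0 := by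
    by_contra hcon
    push Not at hcon
    have hU0 := hcon U hUG
    have hV0 := hcon V hVG
    have hc' := (cond_iff hF h).1 hc
    have key : herm q y e ^ (q + 1) * c + (herm q y e * r * herm q y w ^ q -
        herm q y w * r ^ q * herm q y e ^ q) = 0 := by
      have hyy' := (congrArg (herm q · y) (expand hF h y)).symm.trans hyy
      rw [hUc] at hU0
      simp only [herm_add_left, herm_smul_left] at hU0 hyy'
      rw [← hF.herm_symm y e, ← hF.herm_symm y w, ← hF.herm_symm y f] at hU0 hyy'
      rw [pow_succ]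
      linear_combination hU0 - hyy'
    have hZ : herm q y e = 0 := by
      have k2 := congrArg (· ^ q) key
      simp only [hF.add_pow, hF.sub_pow, mul_pow, hF.pow_pow, hr, zero_pow hq0, pow_succ] at k2
      rw [pow_succ, hr] at hc'
      simp only [pow_succ, hr] at key
      have : herm q y e ^ (q + 1) * (r * r) = 0 := by
        rw [pow_succ]
        linear_combination herm q y e ^ q * herm q y e * hc' - key - k2
      simpa [hr0] using this
    have hye := perp_expand hF h hZ
    have hW : herm q y w = 0 := by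
      have h1 := hyy
      rw [hye] at h1
      simpa [herm_add_left, hF.herm_add_right, herm_smul_left, herm_smul_right, ee, ew, we, ww, hq0] using h1
    rw [hye, hW, zero_smul, zero_add] at hV0
    rw [map_smul, herm_smul_left, herm_smul_right, show (uni hF hb).1 e = _ from (congrArg (uni hF hb).1
      (show e = (1 : F) • e + (0 : F) • w + (0 : F) • f by simp)).trans (uni_coords' hF h hb 1 0 0)] at hV0
    simp [herm_add_left, herm_smul_left, ee, we, fe, hq0] at hV0
    rcases hV0 with h1 | h1
    · exact hyne (by rw [hye, hW, h1]; simp)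
    · have := (cond_iff' hF h).1 hb
      simp [h1, hq0] at this
  refine TG_le_of_radical hF hEE G hQ (g := v⁻¹ * lift5 F q k * v)
    (G.mul_mem (G.mul_mem (G.inv_mem hvG) hkG) hvG) ?_
  rw [← UG_app v, Subgroup.coe_mul, Subgroup.coe_mul, LinearEquiv.mul_apply, LinearEquiv.mul_apply]
  show herm q (v.1 ((v⁻¹ : UG 5 F q).1 _)) p ≠ 0
  have hvv : ∀ z, v.1 ((v⁻¹ : UG 5 F q).1 z) = z := fun z => by simp
  rw [hvv]
  show herm q ((lift5 F q k).1 p) p ≠ 0
  rw [hpy, map_add, map_smul, lift5_emb, (lift5_top hF ht _).1]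
  simpa [herm_add_left, hF.herm_add_right, herm_smul_left, herm_smul_right, hEE, (te _).1, (te _).2.1,
    herm_emb hF, hq0] using hk

end Cfsg.Agent.SUTwoGen
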