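import Cfsg.Agent.SUTwoGen.BigRegular
import Cfsg.Agent.SUTwoGen.Endgame
import Cfsg.Agent.SUTwoGen.FiveMain

/-!
`SU_n(q)`, odd `n ≥ 7`, is generated by three conjugate regular unipotent elements.
-/

set_option autoImplicit false
set_option maxHeartbeats 1000000

namespace Cfsg.Agent.SUTwoGen

open Cfsg.Agent.Classical.U Matrix Cfsg.Agent.Known.RegUnipConj Cfsg.Agent.Known

universe u

variable {F : Type u} [Field F] {q m : ℕ} (hF : SqField F q)
include hF

theorem levi_sw_E_first {M : ℕ} (H : HFrame F q M) {i j : Fin M} (hij : i ≠ j) {μ : F} (hμ : μ ≠ 0) :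
    (levi hF H (sw hij μ)).1 (H.E i) = (-μ⁻¹) • H.E j := by
  simp only [sw, map_mul, Subgroup.coe_mul, LinearEquiv.mul_apply]
  simp only [levi_transvection_E hF H, map_add, map_smul, ↓reduceIte, if_neg hij, if_neg hij.symm]
  match_scalars <;> field_simp <;> ring

theorem hasTriple_big (m : ℕ) : HasTriple (2 * (m + 3) + 1) F q := by
  classical
  obtain ⟨hfin, hcard⟩ := id hF
  have := Fintype.ofFinite F
  obtain ⟨H⟩ := exists_hframe hF (m + 3)
  set l : Fin (m + 3) := Fin.last (m + 2) with hl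
  set j1 : Fin (m + 3) := ⟨1, by omega⟩
  set j2 : Fin (m + 3) := ⟨2, by omega⟩
  have h01 : (0 : Fin (m + 3)) ≠ j1 := by simp [Fin.ext_iff, j1]
  have h02 : (0 : Fin (m + 3)) ≠ j2 := by simp [Fin.ext_iff, j2]
  have h12 : j1 ≠ j2 := by simp [Fin.ext_iff, j1, j2]
  have hl0 : l ≠ 0 := by simp [Fin.ext_iff, hl]
  have hl1 : l ≠ j1 := by simp [Fin.ext_iff, hl, j1]
  obtain ⟨c, hc0⟩ := hF.exists_trace (c := -1) (by rw [hF.neg_pow, one_pow])
  have hc : UniCond q (H.E l) ((1 : F) • H.W) c := by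
    refine ⟨H.ee _ _, by rw [one_smul]; exact H.we _, ?_⟩
    rw [one_smul, H.ww, hc0]; ring
  set u := uBig hF H hc with hu_def
  have hUE : ∀ i, (uni hF hc).1 (H.E i) = H.E i := by
    intro i
    rw [uni_apply, H.ee, one_smul, H.ew]
    simp
  have hu0 : u.1 (H.E 0) = H.E 0 := by
    rw [hu_def, uBig, Subgroup.coe_mul, LinearEquiv.mul_apply, hUE, levi_E, regU_mulVec_zero, eVec_single,
      one_smul]
  have hu2 : u.1 (H.E j2) = H.E j2 + H.E j1 := by
    have e2 : j2 = (⟨1, by omega⟩ : Fin (m + 2)).succ := Fin.ext rfl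
    rw [hu_def, uBig, Subgroup.coe_mul, LinearEquiv.mul_apply, hUE, levi_E]
    conv_lhs => rw [e2, regU_mulVec_succ]
    rw [map_add, eVec_single, eVec_single, one_smul, one_smul]
    rfl
  obtain ⟨d0, hd0, hd0q⟩ := hF.exists_skew
  have hef : herm q (H.E j1) (H.Fv j1) = 1 := by rw [H.ef, if_pos rfl]
  obtain ⟨S1, hS1, hS1E, hS1fix⟩ := exists_trv_move hF (H.ee j1 j1) (H.ff j1 j1) (b := d0)
    (by rw [hef, one_mul]; exact pow_ne_zero _ hd0)
    (by rw [hef, one_mul, hF.pow_pow, hd0q, neg_neg])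
  have hS1o : ∀ k, k ≠ j1 → S1.1 (H.E k) = H.E k := fun k hk =>
    hS1fix _ (H.ee _ _) (by rw [H.ef, if_neg hk])
  -- the correcting element and the parameter
  obtain ⟨R, s, hRF, hR1, hR2, htop⟩ : ∃ (R : SpecialLinearGroup (Fin (m + 3)) F) (s : F),
      (levi hF H R).1 (H.Fv 0) = H.Fv 0 ∧ (levi hF H R).1 (H.E j1) = H.E j1 ∧
      (m ≠ 0 → (levi hF H R).1 (H.E j2) = H.E j2) ∧
      ∀ G : Subgroup (UG (2 * (m + 3) + 1) F q), u ∈ G →
        levi hF H R * levi hF H (SpecialLinearGroup.transvection hl0 s) * (levi hF H R)⁻¹ ∈ G →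
          ∀ P, levi hF H P ∈ G := by
    by_cases hexc : m = 0 ∧ Fintype.card F = 4
    · obtain ⟨hm, h4⟩ := hexc
      subst hm
      have h2 : (2 : F) = 0 := by
        have := Nat.cast_card_eq_zero F
        rw [h4] at this
        have h' : (2 : F) * 2 = 0 := by rw [← this]; norm_num
        exact mul_self_eq_zero.1 h'
      obtain ⟨w, hw0, hw1⟩ : ∃ w : F, w ≠ 0 ∧ w ≠ 1 := by
        by_contra hcon
        push Not at hcon
        have : (Finset.univ : Finset F) ⊆ {0, 1} := fun x _ => by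
          rcases eq_or_ne x 0 with h | h
          · simp [h]
          · simp [hcon x h]
        have h5 := (Finset.card_le_card this).trans Finset.card_le_two
        rw [Finset.card_univ, h4] at h5
        omega
      have hw : w ^ 2 = w + 1 := by
        have h4' := FiniteField.pow_card w
        rw [h4] at h4'
        have h' : (w - 1) * (w ^ 2 - (w + 1)) = 0 := by
          apply mul_left_cancel₀ hw0
          grind
        exact sub_eq_zero.1 ((mul_eq_zero.1 h').resolve_left (sub_ne_zero.2 hw1))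
      have hcover : ∀ x : F, x = 0 ∨ x = 1 ∨ x = w ∨ x = w + 1 := by
        intro x
        have h4' := FiniteField.pow_card x
        rw [h4] at h4'
        have : x * (x - 1) * (x - w) * (x - (w + 1)) = 0 := by grind
        rcases mul_eq_zero.1 this with h5 | h5
        · rcases mul_eq_zero.1 h5 with h6 | h6
          · rcases mul_eq_zero.1 h6 with h7 | h7
            · exact Or.inl h7
            · exact Or.inr (Or.inl (sub_eq_zero.1 h7))
          · exact Or.inr (Or.inr (Or.inl (sub_eq_zero.1 h6)))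
        · exact Or.inr (Or.inr (Or.inr (sub_eq_zero.1 h5)))
      refine ⟨SpecialLinearGroup.transvection (show (1 : Fin 3) ≠ 2 by decide) (w + 1), w, ?_, ?_,
        fun h => absurd rfl h, fun G hu hG => ?_⟩
      · rw [levi_transvection_F hF H, if_neg (by decide), zero_smul, add_zero]
      · rw [levi_transvection_E hF H, if_neg (by simp [j1, Fin.ext_iff]), zero_smul, add_zero]
      · have hG' := hG
        rw [← map_inv, ← map_mul, ← map_mul] at hG'
        refine levi_top_seven hF hc h2 hw hcover hu ?_ hG'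
        rw [Matrix.SpecialLinearGroup.transvection_inv]
        show Matrix.transvection (1 : Fin 3) 2 (w + 1) * Matrix.transvection (2 : Fin 3) 0 w *
          Matrix.transvection (1 : Fin 3) 2 (-(w + 1)) = _
        ext i j
        fin_cases i <;> fin_cases j <;>
          simp [Matrix.transvection, Matrix.mul_apply, Fin.sum_univ_three, Matrix.one_apply, Matrix.single] <;>
          grind
    · obtain ⟨ζ, hζ⟩ := IsCyclic.exists_generator (α := Fˣ)
      refine ⟨1, (ζ : F), by simp, by simp, fun _ => by simp, fun G hu hG => ?_⟩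
      refine levi_top_of_window hF H hc ζ hζ hexc hu ?_
      rw [map_one, one_mul, inv_one, mul_one] at hG
      rwa [SpRegularBig.T_eq]
  set lam : F := -(s ^ q) / d0
  have hx : UniCond q (H.E 0) (lam • H.E j2) 0 := by
    refine ⟨H.ee _ _, by rw [herm_smul_left, H.ee, mul_zero], ?_⟩
    rw [herm_smul_left, herm_smul_right, H.ee, zero_pow hF.q_ne_zero]; ring
  have hz : UniCond q (H.E 0) (-(lam • H.E j1)) 0 := by
    refine ⟨H.ee _ _, by rw [herm_neg_left, herm_smul_left, H.ee, mul_zero, neg_zero], ?_⟩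
    rw [herm_neg_left, hF.herm_neg_right, herm_smul_left, herm_smul_right, H.ee, zero_pow hF.q_ne_zero]; ring
  set hxe := uni hF hx
  have hcomm : hxe * u * hxe⁻¹ * u⁻¹ = uni hF hz := by
    rw [mul_inv_eq_iff_eq_mul, mul_inv_eq_iff_eq_mul]
    refine Subtype.ext (LinearEquiv.ext fun z => ?_)
    simp only [hxe, Subgroup.coe_mul, LinearEquiv.mul_apply]
    rw [uni_apply hF hx (u.1 z), uni_apply hF hz, uni_apply hF hx z, map_add, map_add, map_smul, map_smul,
      map_smul, hu0, hu2]
    have e1 : herm q (u.1 z) (H.E 0) = herm q z (H.E 0) := by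
      conv_lhs => rw [← hu0]
      rw [UG_app]
    have e2 : herm q z (H.E j2) = herm q (u.1 z) (H.E j2) + herm q (u.1 z) (H.E j1) := by
      rw [← hF.herm_add_right, ← hu2, UG_app]
    rw [herm_smul_right, herm_smul_right, hF.herm_neg_right, herm_smul_right, e2]
    simp only [herm_add_left, herm_smul_left, H.ee, e1, mul_zero, add_zero]
    module
  set P0 := sw hl1 (-1 : F) * sw h01 1
  set g := levi hF H R * levi hF H P0 * S1 with hg_def
  have hgS : g ∈ SUG (2 * (m + 3) + 1) F q :=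
    mul_mem (mul_mem (levi_mem_SUG hF H (by omega) _) (levi_mem_SUG hF H (by omega) _)) (TG_le_SUG hF hS1)
  have hP0E0 : (levi hF H P0).1 (H.E 0) = H.E l := by
    rw [map_mul, Subgroup.coe_mul, LinearEquiv.mul_apply, levi_sw_E_first hF H h01 one_ne_zero, map_smul,
      levi_sw_E hF H hl1 (neg_ne_zero.2 one_ne_zero), smul_smul]
    simp
  have hP0F : (levi hF H P0).1 (H.Fv j1) = H.Fv 0 := by
    rw [map_mul, Subgroup.coe_mul, LinearEquiv.mul_apply, levi_sw_F hF H h01,
      levi_sw_F_other hF H hl1 hl0.symm h01]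
  have hg0 : g.1 (H.E 0) = (levi hF H R).1 (H.E l) := by
    rw [hg_def, Subgroup.coe_mul, Subgroup.coe_mul, LinearEquiv.mul_apply, LinearEquiv.mul_apply,
      hS1o 0 h01, hP0E0]
  have hg1 : g.1 (H.E j1) = (-d0) • H.Fv 0 := by
    rw [hg_def, Subgroup.coe_mul, Subgroup.coe_mul, LinearEquiv.mul_apply, LinearEquiv.mul_apply, hS1E,
      map_smul, hP0F, map_smul, hRF]
  obtain ⟨j', hj', hg2⟩ : ∃ j' : Fin (m + 3), j' ≠ 0 ∧ g.1 (H.E j2) = H.E j' := by
    rw [hg_def, Subgroup.coe_mul, Subgroup.coe_mul, LinearEquiv.mul_apply, LinearEquiv.mul_apply,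
      hS1o _ h12.symm, map_mul, Subgroup.coe_mul, LinearEquiv.mul_apply,
      levi_sw_E_other hF H h01 h02.symm h12.symm]
    by_cases hm : m = 0
    · refine ⟨j1, h01.symm, ?_⟩
      have : j2 = l := Fin.ext (by simp [j2, hl, hm])
      rw [this, levi_sw_E_first hF H hl1 (neg_ne_zero.2 one_ne_zero)]
      simp [hR1]
    · refine ⟨j2, h02.symm, ?_⟩
      rw [levi_sw_E_other hF H hl1 (by simp [Fin.ext_iff, j2, hl]; omega) h12.symm, hR2 hm]
  have huS : u ∈ SUG (2 * (m + 3) + 1) F q := mul_mem (levi_mem_SUG hF H (by omega) _) (det_uni hF _)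
  obtain ⟨hN, hN'⟩ := uBig_regular hF H hc
  refine ⟨g, g * hxe, u, hgS, mul_mem hgS (det_uni hF _), huS, ⟨_, hN⟩,
    (by rw [show 2 * (m + 3) + 1 - 1 = 2 * (m + 3) by omega]; exact hN'), ?_⟩
  set G := Subgroup.closure {u, g * u * g⁻¹, g * hxe * u * (g * hxe)⁻¹}
  have huG : u ∈ G := Subgroup.subset_closure (by simp)
  have hvG : g * u * g⁻¹ ∈ G := Subgroup.subset_closure (by simp)
  have h3G : g * hxe * u * (g * hxe)⁻¹ ∈ G := Subgroup.subset_closure (by simp)
  have hzG : g * uni hF hz * g⁻¹ ∈ G := by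
    rw [← hcomm]
    convert G.mul_mem h3G (G.inv_mem hvG) using 1
    group
  have hL : ∀ P, levi hF H P ∈ G := by
    refine htop G huG ?_
    rw [levi_transvection hF H hl0]
    convert hzG using 1
    rw [uni_conj, uni_conj]
    refine uni_congr hF _ _ hg0.symm ?_ rfl
    rw [map_smul, hRF, map_neg, map_smul, hg1, smul_smul, ← neg_smul]
    congr 1
    simp only [lam]
    field_simp
  have hUG : uni hF hc ∈ G := by
    have := G.mul_mem (G.inv_mem (hL (regU (m + 3)))) huG
    rw [hu_def, uBig, inv_mul_cancel_left] at this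
    exact this
  rw [SUG_eq_TG hF (by omega) (by omega)]
  refine TG_le_of_radical hF (H.ee 0 0) G
    (fun x a hx => radical_of_levi hF H G hL hc hUG (i₀ := 0) hl0.symm x a hx)
    (g := g * u * g⁻¹ * levi hF H (sw hj' 1)) (G.mul_mem hvG (hL _)) ?_
  have hp : (g * u * g⁻¹).1 (H.E j') = H.E j' + (-d0) • H.Fv 0 := by
    have e : (g⁻¹ : UG (2 * (m + 3) + 1) F q).1 (H.E j') = H.E j2 := by
      rw [← hg2]; simp
    rw [Subgroup.coe_mul, Subgroup.coe_mul, LinearEquiv.mul_apply, LinearEquiv.mul_apply, e, hu2, map_add,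
      hg2, hg1]
  rw [Subgroup.coe_mul, LinearEquiv.mul_apply, levi_sw_E hF H hj' one_ne_zero, one_smul, hp, herm_add_left,
    herm_smul_left, H.ee, H.fe, if_pos rfl, zero_add, mul_one]
  exact neg_ne_zero.2 hd0

end Cfsg.Agent.SUTwoGen
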