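import Cfsg.Agent.SUTwoGen.Gen

/-!
The pair of generators for the two fields where the generic parameters fail.
-/

set_option autoImplicit false
set_option maxHeartbeats 1000000

namespace Cfsg.Agent.SUTwoGen

open Cfsg.Agent.Classical.U

universe u

variable {F : Type u} [Field F] {q : ℕ} (hF : SqField F q) {e w f : Fin 3 → F} (h : IsFrame q e w f)
include hF h

theorem stepE {x a : F} (hc : UniCond q e (x • w) a) (E W Z E' W' Z' : F)
    (h1 : E + a * Z - W * x ^ q = E') (h2 : W + Z * x = W') (h3 : Z = Z') :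
    (uni hF hc).1 (E • e + W • w + Z • f) = E' • e + W' • w + Z' • f := by
  rw [uni_coords hF h hc, h1, h2, h3]

theorem stepF {x a : F} (hc : UniCond q f (x • w) a) (E W Z E' W' Z' : F)
    (h1 : E = E') (h2 : W + E * x = W') (h3 : Z + a * E - W * x ^ q = Z') :
    (uni hF hc).1 (E • e + W • w + Z • f) = E' • e + W' • w + Z' • f := by
  subst h1
  rw [uni_coords' hF h hc, h2, h3]

theorem genPair_five (hq5 : q = 5) : GenPair F q e w f hF := by
  subst hq5
  obtain ⟨hfin, hcard⟩ := id hF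
  obtain ⟨p, k, hp, hchar, hqp⟩ := hF.exists_char
  obtain rfl : p = 5 := ((Nat.prime_dvd_prime_iff_eq hp (by norm_num)).1
    (by rw [hqp]; exact dvd_pow_self p (by rintro rfl; simp at hqp)))
  have := hchar
  have h5 : (5 : F) = 0 := by simpa using CharP.cast_eq_zero F 5
  have := Fintype.ofFinite F
  have hc25 : Fintype.card F = 25 := by rw [← Nat.card_eq_fintype_card, hcard]; norm_num
  obtain ⟨s, hs⟩ : IsSquare (3 : F) := by
    rw [FiniteField.isSquare_iff (by rw [ringChar.eq F 5]; norm_num) (by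
      intro h3; exact one_ne_zero (α := F) (by linear_combination (2 : F) * h3 - h5)), hc25]
    norm_num
    linear_combination (106288 : F) * h5
  set θ : F := 3 * (s - 1) with hθdef
  have hθ : θ ^ 2 + θ + 2 = 0 := by rw [hθdef]; grind
  have hθq : θ ^ 5 = -1 - θ := by grind
  have hbq : (3 + 2 * θ : F) ^ 5 = (1 + 3 * θ : F) := by
    simp only [hF.add_pow, mul_pow]; grind
  have hcq : (4 + 4 * θ : F) ^ 5 = (1 * θ : F) := by
    simp only [hF.add_pow, mul_pow]; grind
  have hlq : (3 + 1 * θ : F) ^ 5 = (2 + 4 * θ : F) := by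
    simp only [hF.add_pow, mul_pow]; grind
  have hrq : (1 : F) ^ 5 = (1 : F) := by grind
  have hrnq : (-(1 : F)) ^ 5 = -(1 : F) := by rw [hF.neg_pow, hrq]
  have hneg1 : (-1 : F) ^ 5 = -1 := by rw [hF.neg_pow, one_pow]
  have hr0 : (1 : F) ≠ 0 := by
    intro h0
    exact one_ne_zero (α := F) (by grind)
  have hv : UniCond 5 f ((1 : F) • w) (3 + 2 * θ : F) := by
    rw [cond_iff' hF h, one_pow, hbq]; grind
  have hu : UniCond 5 e ((1 : F) • w) (4 + 4 * θ : F) := by
    rw [cond_iff hF h, hcq, pow_succ (1 : F) 5, hrq]; grind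
  set G : Subgroup (UG 3 F 5) := Subgroup.closure {uni hF hu, uni hF hv}
  have huG : uni hF hu ∈ G := Subgroup.subset_closure (Or.inl rfl)
  have hvG : uni hF hv ∈ G := Subgroup.subset_closure (Or.inr rfl)
  obtain ⟨hv2', hinv⟩ := uni_param_inv hF (frame_symm hF h) hv
  have hv2 : UniCond 5 f ((-1 : F) • w) (1 + 3 * θ : F) := by rw [← hbq]; exact hv2'
  have hvG2 : uni hF hv2 ∈ G := by
    rw [show uni hF hv2 = (uni hF hv)⁻¹ by rw [hinv]; exact uni_congr hF _ _ rfl rfl hbq.symm]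
    exact G.inv_mem hvG
  set g := uni hF hv * uni hF hv * uni hF hu * uni hF hv2 * uni hF hu * uni hF hv
  have hgG : g ∈ G := by
    repeat' first | assumption | apply mul_mem
  have ime : g.1 e = (3 + 1 * θ : F) • e + (0 : F) • w + (0 : F) • f := by
    simp only [g, Subgroup.coe_mul, LinearEquiv.mul_apply]
    refine (congrArg (fun t => (uni hF hv).1 ((uni hF hv).1 ((uni hF hu).1 ((uni hF hv2).1 ((uni hF hu).1 ((uni hF hv).1 (t)))))))
      (show e = (1 : F) • e + (0 : F) • w + (0 : F) • f by simp)).trans ?_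
    rw [stepF hF h hv (1 : F) (0 : F) (0 : F) (1 : F) (1 : F) (3 + 2 * θ : F)
      (by (try simp only [hrq, hrnq, one_pow, hneg1]) <;> grind) (by grind) (by (try simp only [hrq, hrnq, one_pow, hneg1]) <;> grind)]
    rw [stepE hF h hu (1 : F) (1 : F) (3 + 2 * θ : F) (1 + 2 * θ : F) (4 + 2 * θ : F) (3 + 2 * θ : F)
      (by (try simp only [hrq, hrnq, one_pow, hneg1]) <;> grind) (by grind) (by (try simp only [hrq, hrnq, one_pow, hneg1]) <;> grind)]
    rw [stepF hF h hv2 (1 + 2 * θ : F) (4 + 2 * θ : F) (3 + 2 * θ : F) (1 + 2 * θ : F) (3 : F) (1 + 3 * θ : F)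
      (by (try simp only [hrq, hrnq, one_pow, hneg1]) <;> grind) (by grind) (by (try simp only [hrq, hrnq, one_pow, hneg1]) <;> grind)]
    rw [stepE hF h hu (1 + 2 * θ : F) (3 : F) (1 + 3 * θ : F) (3 + 1 * θ : F) (4 + 3 * θ : F) (1 + 3 * θ : F)
      (by (try simp only [hrq, hrnq, one_pow, hneg1]) <;> grind) (by grind) (by (try simp only [hrq, hrnq, one_pow, hneg1]) <;> grind)]
    rw [stepF hF h hv (3 + 1 * θ : F) (4 + 3 * θ : F) (1 + 3 * θ : F) (3 + 1 * θ : F) (2 + 4 * θ : F) (2 + 2 * θ : F)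
      (by (try simp only [hrq, hrnq, one_pow, hneg1]) <;> grind) (by grind) (by (try simp only [hrq, hrnq, one_pow, hneg1]) <;> grind)]
    rw [stepF hF h hv (3 + 1 * θ : F) (2 + 4 * θ : F) (2 + 2 * θ : F) (3 + 1 * θ : F) (0 : F) (0 : F)
      (by (try simp only [hrq, hrnq, one_pow, hneg1]) <;> grind) (by grind) (by (try simp only [hrq, hrnq, one_pow, hneg1]) <;> grind)]
  have imw : g.1 w = (3 + 4 * θ : F) • e + (4 : F) • w + (0 : F) • f := by
    simp only [g, Subgroup.coe_mul, LinearEquiv.mul_apply]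
    refine (congrArg (fun t => (uni hF hv).1 ((uni hF hv).1 ((uni hF hu).1 ((uni hF hv2).1 ((uni hF hu).1 ((uni hF hv).1 (t)))))))
      (show w = (0 : F) • e + (1 : F) • w + (0 : F) • f by simp)).trans ?_
    rw [stepF hF h hv (0 : F) (1 : F) (0 : F) (0 : F) (1 : F) (4 : F)
      (by (try simp only [hrq, hrnq, one_pow, hneg1]) <;> grind) (by grind) (by (try simp only [hrq, hrnq, one_pow, hneg1]) <;> grind)]
    rw [stepE hF h hu (0 : F) (1 : F) (4 : F) (1 * θ : F) (0 : F) (4 : F)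
      (by (try simp only [hrq, hrnq, one_pow, hneg1]) <;> grind) (by grind) (by (try simp only [hrq, hrnq, one_pow, hneg1]) <;> grind)]
    rw [stepF hF h hv2 (1 * θ : F) (0 : F) (4 : F) (1 * θ : F) (4 * θ : F) (3 + 3 * θ : F)
      (by (try simp only [hrq, hrnq, one_pow, hneg1]) <;> grind) (by grind) (by (try simp only [hrq, hrnq, one_pow, hneg1]) <;> grind)]
    rw [stepE hF h hu (1 * θ : F) (4 * θ : F) (3 + 3 * θ : F) (3 + 4 * θ : F) (3 + 2 * θ : F) (3 + 3 * θ : F)
      (by (try simp only [hrq, hrnq, one_pow, hneg1]) <;> grind) (by grind) (by (try simp only [hrq, hrnq, one_pow, hneg1]) <;> grind)]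
    rw [stepF hF h hv (3 + 4 * θ : F) (3 + 2 * θ : F) (3 + 3 * θ : F) (3 + 4 * θ : F) (1 + 1 * θ : F) (3 + 1 * θ : F)
      (by (try simp only [hrq, hrnq, one_pow, hneg1]) <;> grind) (by grind) (by (try simp only [hrq, hrnq, one_pow, hneg1]) <;> grind)]
    rw [stepF hF h hv (3 + 4 * θ : F) (1 + 1 * θ : F) (3 + 1 * θ : F) (3 + 4 * θ : F) (4 : F) (0 : F)
      (by (try simp only [hrq, hrnq, one_pow, hneg1]) <;> grind) (by grind) (by (try simp only [hrq, hrnq, one_pow, hneg1]) <;> grind)]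
  have hge : g.1 e = (3 + 1 * θ : F) • e := by rw [ime]; simp
  obtain ⟨ee, ew, ef, we, ww, wf, fe, fw, ff⟩ := frame_vals hF h
  have hnu : herm 5 (g.1 w) w = (4 : F) := by
    rw [imw]; simp [herm_add_left, herm_smul_left, ew, ww, fw]
  have hne : ∀ Q d : ℕ, 2 ≤ Q → Q ^ d = 5 ^ 2 → (((3 + 1 * θ : F)) ^ Q = (3 + 1 * θ : F)) → d = 1 := by
    intro Q d hQ hQd hfix
    by_contra hd1
    have hd : d ≤ 4 := by
      by_contra hd5
      have := Nat.pow_le_pow_left hQ d
      have : 2 ^ 5 ≤ 2 ^ d := Nat.pow_le_pow_right (by omega) (by omega)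
      omega
    have hQ5 : Q = 5 := by
      interval_cases d
      · simp at hQd
      · exact absurd rfl hd1
      · exact Nat.pow_left_injective (by omega) hQd
      · have : Q ≤ 2 := by by_contra; have := Nat.pow_le_pow_left (show 3 ≤ Q by omega) 3; omega
        interval_cases Q; simp at hQd
      · have : Q ≤ 2 := by by_contra; have := Nat.pow_le_pow_left (show 3 ≤ Q by omega) 4; omega
        interval_cases Q; simp at hQd
    subst hQ5
    exfalso
    have : θ = 2 := by grind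
    exact one_ne_zero (α := F) (by grind)
  refine genPair_of_word hF h (by norm_num) hv hu hrq hr0 hge hgG ?_
  intro K hK
  obtain ⟨Q, d, hQ, hQd, hfix, hd1⟩ := subfield_card hF K
  refine hd1 (hne Q d hQ hQd ?_)
  have e1 : (3 + 1 * θ : F) ^ 5 * herm 5 (g.1 w) w = (3 + 1 * θ : F) := by rw [hnu, hlq]; grind
  rw [← e1]
  exact hfix _ hK

theorem genPair_eight (hq8 : q = 8) : GenPair F q e w f hF := by
  subst hq8
  obtain ⟨hfin, hcard⟩ := id hF
  obtain ⟨p, k, hp, hchar, hqp⟩ := hF.exists_char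
  obtain rfl : p = 2 := ((Nat.prime_dvd_prime_iff_eq hp Nat.prime_two).1
    (hp.dvd_of_dvd_pow (n := 3) (by
      rw [show 2 ^ 3 = p ^ k from hqp]; exact dvd_pow_self p (by rintro rfl; simp at hqp))))
  have := hchar
  have h2 : (2 : F) = 0 := by simpa using CharP.cast_eq_zero F 2
  have := Fintype.ofFinite F
  have hcu : Nat.card Fˣ = 63 := by rw [hF.card_units]
  obtain ⟨z, hz⟩ : ∃ z : F, z ^ 2 = z + 1 := by
    have := Fact.mk Nat.prime_three
    obtain ⟨x, hx⟩ := exists_prime_orderOf_dvd_card' (G := Fˣ) 3 (by rw [hcu]; norm_num)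
    have h1 : (x : F) ^ 3 = 1 := by rw [← Units.val_pow_eq_pow_val, ← hx, pow_orderOf_eq_one]; rfl
    have h2' : (x : F) ≠ 1 := fun e => by
      rw [Units.val_eq_one.1 e, orderOf_one] at hx; omega
    refine ⟨x, ?_⟩
    apply mul_left_cancel₀ (sub_ne_zero.2 h2')
    linear_combination h1 - ((x : F) ^ 2 - 1) * h2
  obtain ⟨y, hy⟩ : ∃ y : F, y ^ 3 = y + 1 := by
    have := Fact.mk (show Nat.Prime 7 by norm_num)
    obtain ⟨x, hx⟩ := exists_prime_orderOf_dvd_card' (G := Fˣ) 7 (by rw [hcu]; norm_num)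
    have h1 : (x : F) ^ 7 = 1 := by rw [← Units.val_pow_eq_pow_val, ← hx, pow_orderOf_eq_one]; rfl
    have h2' : (x : F) ≠ 1 := fun e => by
      rw [Units.val_eq_one.1 e, orderOf_one] at hx; omega
    have h3 : ((x : F) ^ 3 + x + 1) * ((x : F) ^ 3 + (x : F) ^ 2 + 1) = 0 := by
      apply mul_left_cancel₀ (sub_ne_zero.2 h2')
      grind
    rcases mul_eq_zero.1 h3 with h3 | h3
    · exact ⟨x, by grind⟩
    · refine ⟨(x : F) ^ 6, ?_⟩
      grind
  have hzq : z ^ 8 = z + 1 := by grind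
  have hyq : y ^ 8 = y := by grind
  have hbq : (z + y : F) ^ 8 = (1 + z + y : F) := by
    simp only [hF.add_pow, mul_pow]; grind
  have hcq : (y + (z * y) + (z * y ^ 2) : F) ^ 8 = ((z * y) + y ^ 2 + (z * y ^ 2) : F) := by
    simp only [hF.add_pow, mul_pow]; grind
  have hlq : (1 + (z * y) + (z * y ^ 2) : F) ^ 8 = (1 + y + (z * y) + y ^ 2 + (z * y ^ 2) : F) := by
    simp only [hF.add_pow, mul_pow]; grind
  have hrq : (y ^ 2 : F) ^ 8 = (y ^ 2 : F) := by grind
  have hrnq : (-(y ^ 2 : F)) ^ 8 = -(y ^ 2 : F) := by rw [hF.neg_pow, hrq]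
  have hneg1 : (-1 : F) ^ 8 = -1 := by rw [hF.neg_pow, one_pow]
  have hr0 : (y ^ 2 : F) ≠ 0 := by
    intro h0
    exact one_ne_zero (α := F) (by grind)
  have hv : UniCond 8 f ((1 : F) • w) (z + y : F) := by
    rw [cond_iff' hF h, one_pow, hbq]; grind
  have hu : UniCond 8 e ((y ^ 2 : F) • w) (y + (z * y) + (z * y ^ 2) : F) := by
    rw [cond_iff hF h, hcq, pow_succ (y ^ 2 : F) 8, hrq]; grind
  set G : Subgroup (UG 3 F 8) := Subgroup.closure {uni hF hu, uni hF hv}
  have huG : uni hF hu ∈ G := Subgroup.subset_closure (Or.inl rfl)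
  have hvG : uni hF hv ∈ G := Subgroup.subset_closure (Or.inr rfl)
  obtain ⟨hv2', hinv⟩ := uni_param_inv hF (frame_symm hF h) hv
  have hv2 : UniCond 8 f ((-1 : F) • w) (1 + z + y : F) := by rw [← hbq]; exact hv2'
  have hvG2 : uni hF hv2 ∈ G := by
    rw [show uni hF hv2 = (uni hF hv)⁻¹ by rw [hinv]; exact uni_congr hF _ _ rfl rfl hbq.symm]
    exact G.inv_mem hvG
  obtain ⟨hu2', hinv2⟩ := uni_param_inv hF h hu
  have hu2 : UniCond 8 e ((-(y ^ 2 : F)) • w) ((z * y) + y ^ 2 + (z * y ^ 2) : F) := by rw [← hcq]; exact hu2'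
  have huG2 : uni hF hu2 ∈ G := by
    rw [show uni hF hu2 = (uni hF hu)⁻¹ by rw [hinv2]; exact uni_congr hF _ _ rfl rfl hcq.symm]
    exact G.inv_mem huG
  set g := uni hF hv2 * uni hF hu2 * uni hF hv2 * uni hF hu * uni hF hu * uni hF hv
  have hgG : g ∈ G := by
    repeat' first | assumption | apply mul_mem
  have ime : g.1 e = (1 + (z * y) + (z * y ^ 2) : F) • e + (0 : F) • w + (0 : F) • f := by
    simp only [g, Subgroup.coe_mul, LinearEquiv.mul_apply]
    refine (congrArg (fun t => (uni hF hv2).1 ((uni hF hu2).1 ((uni hF hv2).1 ((uni hF hu).1 ((uni hF hu).1 ((uni hF hv).1 (t)))))))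
      (show e = (1 : F) • e + (0 : F) • w + (0 : F) • f by simp)).trans ?_
    rw [stepF hF h hv (1 : F) (0 : F) (0 : F) (1 : F) (1 : F) (z + y : F)
      (by (try simp only [hrq, hrnq, one_pow, hneg1]) <;> grind) (by grind) (by (try simp only [hrq, hrnq, one_pow, hneg1]) <;> grind)]
    rw [stepE hF h hu (1 : F) (1 : F) (z + y : F) (1 + z + y + (z * y) + y ^ 2 : F) (y + (z * y ^ 2) : F) (z + y : F)
      (by (try simp only [hrq, hrnq, one_pow, hneg1]) <;> grind) (by grind) (by (try simp only [hrq, hrnq, one_pow, hneg1]) <;> grind)]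
    rw [stepE hF h hu (1 + z + y + (z * y) + y ^ 2 : F) (y + (z * y ^ 2) : F) (z + y : F) (y + (z * y) + y ^ 2 + (z * y ^ 2) : F) (1 : F) (z + y : F)
      (by (try simp only [hrq, hrnq, one_pow, hneg1]) <;> grind) (by grind) (by (try simp only [hrq, hrnq, one_pow, hneg1]) <;> grind)]
    rw [stepF hF h hv2 (y + (z * y) + y ^ 2 + (z * y ^ 2) : F) (1 : F) (z + y : F) (y + (z * y) + y ^ 2 + (z * y ^ 2) : F) (1 + y + (z * y) + y ^ 2 + (z * y ^ 2) : F) (y ^ 2 : F)
      (by (try simp only [hrq, hrnq, one_pow, hneg1]) <;> grind) (by grind) (by (try simp only [hrq, hrnq, one_pow, hneg1]) <;> grind)]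
    rw [stepE hF h hu2 (y + (z * y) + y ^ 2 + (z * y ^ 2) : F) (1 + y + (z * y) + y ^ 2 + (z * y ^ 2) : F) (y ^ 2 : F) (1 + (z * y) + (z * y ^ 2) : F) (1 + (z * y) + (z * y ^ 2) : F) (y ^ 2 : F)
      (by (try simp only [hrq, hrnq, one_pow, hneg1]) <;> grind) (by grind) (by (try simp only [hrq, hrnq, one_pow, hneg1]) <;> grind)]
    rw [stepF hF h hv2 (1 + (z * y) + (z * y ^ 2) : F) (1 + (z * y) + (z * y ^ 2) : F) (y ^ 2 : F) (1 + (z * y) + (z * y ^ 2) : F) (0 : F) (0 : F)
      (by (try simp only [hrq, hrnq, one_pow, hneg1]) <;> grind) (by grind) (by (try simp only [hrq, hrnq, one_pow, hneg1]) <;> grind)]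
  have imw : g.1 w = (1 + z : F) • e + (y + (z * y ^ 2) : F) • w + (0 : F) • f := by
    simp only [g, Subgroup.coe_mul, LinearEquiv.mul_apply]
    refine (congrArg (fun t => (uni hF hv2).1 ((uni hF hu2).1 ((uni hF hv2).1 ((uni hF hu).1 ((uni hF hu).1 ((uni hF hv).1 (t)))))))
      (show w = (0 : F) • e + (1 : F) • w + (0 : F) • f by simp)).trans ?_
    rw [stepF hF h hv (0 : F) (1 : F) (0 : F) (0 : F) (1 : F) (1 : F)
      (by (try simp only [hrq, hrnq, one_pow, hneg1]) <;> grind) (by grind) (by (try simp only [hrq, hrnq, one_pow, hneg1]) <;> grind)]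
    rw [stepE hF h hu (0 : F) (1 : F) (1 : F) (y + (z * y) + y ^ 2 + (z * y ^ 2) : F) (1 + y ^ 2 : F) (1 : F)
      (by (try simp only [hrq, hrnq, one_pow, hneg1]) <;> grind) (by grind) (by (try simp only [hrq, hrnq, one_pow, hneg1]) <;> grind)]
    rw [stepE hF h hu (y + (z * y) + y ^ 2 + (z * y ^ 2) : F) (1 + y ^ 2 : F) (1 : F) (y + y ^ 2 : F) (1 : F) (1 : F)
      (by (try simp only [hrq, hrnq, one_pow, hneg1]) <;> grind) (by grind) (by (try simp only [hrq, hrnq, one_pow, hneg1]) <;> grind)]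
    rw [stepF hF h hv2 (y + y ^ 2 : F) (1 : F) (1 : F) (y + y ^ 2 : F) (1 + y + y ^ 2 : F) (1 + (z * y) + (z * y ^ 2) : F)
      (by (try simp only [hrq, hrnq, one_pow, hneg1]) <;> grind) (by grind) (by (try simp only [hrq, hrnq, one_pow, hneg1]) <;> grind)]
    rw [stepE hF h hu2 (y + y ^ 2 : F) (1 + y + y ^ 2 : F) (1 + (z * y) + (z * y ^ 2) : F) (1 + z : F) (1 + z + y + (z * y ^ 2) : F) (1 + (z * y) + (z * y ^ 2) : F)
      (by (try simp only [hrq, hrnq, one_pow, hneg1]) <;> grind) (by grind) (by (try simp only [hrq, hrnq, one_pow, hneg1]) <;> grind)]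
    rw [stepF hF h hv2 (1 + z : F) (1 + z + y + (z * y ^ 2) : F) (1 + (z * y) + (z * y ^ 2) : F) (1 + z : F) (y + (z * y ^ 2) : F) (0 : F)
      (by (try simp only [hrq, hrnq, one_pow, hneg1]) <;> grind) (by grind) (by (try simp only [hrq, hrnq, one_pow, hneg1]) <;> grind)]
  have hge : g.1 e = (1 + (z * y) + (z * y ^ 2) : F) • e := by rw [ime]; simp
  obtain ⟨ee, ew, ef, we, ww, wf, fe, fw, ff⟩ := frame_vals hF h
  have hnu : herm 8 (g.1 w) w = (y + (z * y ^ 2) : F) := by
    rw [imw]; simp [herm_add_left, herm_smul_left, ew, ww, fw]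
  have hne : ∀ Q d : ℕ, 2 ≤ Q → Q ^ d = 8 ^ 2 → (((z + (z * y) : F)) ^ Q = (z + (z * y) : F)) → d = 1 := by
    intro Q d hQ hQd hfix
    by_contra hd1
    have hd : d ≤ 6 := by
      by_contra hd5
      have := Nat.pow_le_pow_left hQ d
      have : 2 ^ 7 ≤ 2 ^ d := Nat.pow_le_pow_right (by omega) (by omega)
      omega
    have hQ8 : Q = 8 ∨ Q = 4 ∨ Q = 2 := by
      interval_cases d
      · simp at hQd
      · exact absurd rfl hd1
      · exact Or.inl (Nat.pow_left_injective (by omega) hQd)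
      · exact Or.inr (Or.inl (Nat.pow_left_injective (n := 3) (by omega) (hQd.trans (by norm_num))))
      · have : Q ≤ 3 := by by_contra; have := Nat.pow_le_pow_left (show 4 ≤ Q by omega) 4; omega
        interval_cases Q <;> simp at hQd
      · have : Q ≤ 3 := by by_contra; have := Nat.pow_le_pow_left (show 4 ≤ Q by omega) 5; omega
        interval_cases Q <;> simp at hQd
      · exact Or.inr (Or.inr (Nat.pow_left_injective (n := 6) (by omega) (hQd.trans (by norm_num))))
    rcases hQ8 with rfl | rfl | rfl <;> exact one_ne_zero (α := F) (by grind)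
  refine genPair_of_word hF h (by norm_num) hv hu hrq hr0 hge hgG ?_
  intro K hK
  obtain ⟨Q, d, hQ, hQd, hfix, hd1⟩ := subfield_card hF K
  refine hd1 (hne Q d hQ hQd ?_)
  have e1 : (1 + (z * y) + (z * y ^ 2) : F) ^ 8 * herm 8 (g.1 w) w = (z + (z * y) : F) := by rw [hnu, hlq]; grind
  rw [← e1]
  exact hfix _ hK

theorem hasPair_five (hq5 : q = 5) : HasPair F q := (genPair_five hF h hq5).hasPair hF h

theorem hasPair_eight (hq8 : q = 8) : HasPair F q := (genPair_eight hF h hq8).hasPair hF h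

/-- A generating pair exists for every `q ≥ 3`. -/
theorem exists_genPair (hq : 3 ≤ q) : GenPair F q e w f hF := by
  by_cases h5 : q = 5
  · exact genPair_five hF h h5
  by_cases h8 : q = 8
  · exact genPair_eight hF h h8
  exact genPair_generic hF h hq h5 h8

end Cfsg.Agent.SUTwoGen
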