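import Cfsg.Agent.Classical.UGen
import Cfsg.Agent.Linear.Transvection

/-!
Hyperbolic frames of the odd-dimensional unitary space and the Levi subgroup `SL_M(q²)` of the stabiliser of
a maximal totally isotropic subspace.
-/

set_option autoImplicit false
set_option maxHeartbeats 1000000

namespace Cfsg.Agent.SUTwoGen

open Cfsg.Agent.Classical.U Matrix

universe u

variable {F : Type u} [Field F] {q M : ℕ}

/-- `M` hyperbolic pairs and a unit vector. -/
structure HFrame (F : Type u) [Field F] (q M : ℕ) where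
  E : Fin M → (Fin (2 * M + 1) → F)
  Fv : Fin M → (Fin (2 * M + 1) → F)
  W : Fin (2 * M + 1) → F
  ee : ∀ i j, herm q (E i) (E j) = 0
  ff : ∀ i j, herm q (Fv i) (Fv j) = 0
  ef : ∀ i j, herm q (E i) (Fv j) = if i = j then 1 else 0
  fe : ∀ i j, herm q (Fv i) (E j) = if i = j then 1 else 0
  ew : ∀ i, herm q (E i) W = 0
  we : ∀ i, herm q W (E i) = 0
  fw : ∀ i, herm q (Fv i) W = 0
  wf : ∀ i, herm q W (Fv i) = 0
  ww : herm q W W = 1
  complete : ∀ z, (∀ i, herm q z (E i) = 0) → (∀ i, herm q z (Fv i) = 0) → herm q z W = 0 → z = 0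

variable (hF : SqField F q)
include hF

theorem exists_hframe (M : ℕ) : Nonempty (HFrame F q M) := by
  have hq := hF.q_ne_zero
  obtain ⟨θ, hθ⟩ := hF.exists_norm (c := -1) (by rw [hF.neg_pow, one_pow])
  obtain ⟨k, hk⟩ := hF.exists_trace (c := -1) (by rw [hF.neg_pow, one_pow])
  have hθ0 : θ ≠ 0 := by rintro rfl; simp at hθ
  rw [pow_succ'] at hθ
  let a : Fin M → Fin (2 * M + 1) := fun i => ⟨2 * i.1, by omega⟩
  let b : Fin M → Fin (2 * M + 1) := fun i => ⟨2 * i.1 + 1, by omega⟩
  let l : Fin (2 * M + 1) := Fin.last (2 * M)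
  let ε : Fin (2 * M + 1) → (Fin (2 * M + 1) → F) := fun i => Pi.single i 1
  have hε : ∀ i j, herm q (ε i) (ε j) = if i = j then 1 else 0 := fun i j => by
    rw [herm_one_single]
    by_cases hij : i = j
    · subst hij; simp [ε]
    · simp [ε, hij, Ne.symm hij, hq]
  let E : Fin M → (Fin (2 * M + 1) → F) := fun i => ε (a i) + θ • ε (b i)
  let G : Fin M → (Fin (2 * M + 1) → F) := fun i => ε (a i) + k • E i
  have eaa : ∀ i j, herm q (ε (a i)) (ε (a j)) = if i = j then 1 else 0 := fun i j => by
    rw [hε]; exact if_congr (by simp [a, Fin.ext_iff]) rfl rfl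
  have ebb : ∀ i j, herm q (ε (b i)) (ε (b j)) = if i = j then 1 else 0 := fun i j => by
    rw [hε]; exact if_congr (by simp [b, Fin.ext_iff]) rfl rfl
  have eab : ∀ i j, herm q (ε (a i)) (ε (b j)) = 0 := fun i j => by
    rw [hε, if_neg]; simp [a, b, Fin.ext_iff]; omega
  have eba : ∀ i j, herm q (ε (b i)) (ε (a j)) = 0 := fun i j => by
    rw [hε, if_neg]; simp [a, b, Fin.ext_iff]; omega
  have eal : ∀ i, herm q (ε (a i)) (ε l) = 0 ∧ herm q (ε (b i)) (ε l) = 0 ∧ herm q (ε l) (ε (a i)) = 0 ∧
      herm q (ε l) (ε (b i)) = 0 := fun i => by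
    refine ⟨?_, ?_, ?_, ?_⟩ <;> rw [hε, if_neg] <;> simp [a, b, l, Fin.ext_iff] <;> omega
  have ee : ∀ i j, herm q (E i) (E j) = 0 := fun i j => by
    simp only [E, herm_add_left, hF.herm_add_right, herm_smul_left, herm_smul_right, eaa, ebb, eab, eba]
    split_ifs <;> first | ring1 | linear_combination hθ
  have eE : ∀ i j, herm q (E i) (ε (a j)) = if i = j then 1 else 0 := fun i j => by
    simp only [E, herm_add_left, herm_smul_left, eaa, eba]
    ring
  have Ee : ∀ i j, herm q (ε (a i)) (E j) = if i = j then 1 else 0 := fun i j => by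
    simp only [E, hF.herm_add_right, herm_smul_right, eaa, eab]
    ring
  refine ⟨⟨E, G, ε l, ee, ?_, ?_, ?_, ?_, ?_, ?_, ?_, ?_, ?_⟩⟩
  · intro i j
    simp only [G, herm_add_left, hF.herm_add_right, herm_smul_left, herm_smul_right, eaa, ee, eE, Ee]
    split_ifs <;> first | ring1 | linear_combination hk
  · intro i j
    simp only [G, hF.herm_add_right, herm_smul_right, eE, ee]
    ring
  · intro i j
    simp only [G, herm_add_left, herm_smul_left, Ee, ee]
    ring
  · intro i
    simp only [E, herm_add_left, herm_smul_left, (eal i).1, (eal i).2.1]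
    ring
  · intro i
    simp only [E, hF.herm_add_right, herm_smul_right, (eal i).2.2.1, (eal i).2.2.2]
    ring
  · intro i
    simp only [G, E, herm_add_left, herm_smul_left, (eal i).1, (eal i).2.1]
    ring
  · intro i
    simp only [G, E, hF.herm_add_right, herm_smul_right, (eal i).2.2.1, (eal i).2.2.2]
    ring
  · rw [hε, if_pos rfl]
  · intro z hE hG hW
    have hza : ∀ i, herm q z (ε (a i)) = 0 := fun i => by
      have := hG i
      rwa [hF.herm_add_right, herm_smul_right, hE i, mul_zero, add_zero] at this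
    have hzb : ∀ i, herm q z (ε (b i)) = 0 := fun i => by
      have := hE i
      rw [hF.herm_add_right, herm_smul_right, hza i, zero_add, mul_eq_zero] at this
      exact this.resolve_left (pow_ne_zero _ hθ0)
    have coord : ∀ x, herm q z (ε x) = z x := fun x => by rw [herm_single_one _ hq]
    funext x
    rw [Pi.zero_apply, ← coord x]
    by_cases hx : x.1 = 2 * M
    · rwa [show x = l from Fin.ext hx]
    · have := x.2
      rcases Nat.even_or_odd x.1 with ⟨i, hi⟩ | ⟨i, hi⟩
      · rw [show x = a ⟨i, by omega⟩ from Fin.ext (by simp [a]; omega)]; exact hza _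
      · rw [show x = b ⟨i, by omega⟩ from Fin.ext (by simp [b]; omega)]; exact hzb _

variable (H : HFrame F q M)

omit hF in
/-- Combination of the first halves. -/
def HFrame.eVec : (Fin M → F) →ₗ[F] (Fin (2 * M + 1) → F) := Fintype.linearCombination F H.E

omit hF in
/-- Combination of the second halves. -/
def HFrame.fVec : (Fin M → F) →ₗ[F] (Fin (2 * M + 1) → F) := Fintype.linearCombination F H.Fv

omit hF in
/-- The coordinates along the `E`. -/
def HFrame.cE (z : Fin (2 * M + 1) → F) : Fin M → F := fun i => herm q z (H.Fv i)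

omit hF in
/-- The coordinates along the `Fv`. -/
def HFrame.cF (z : Fin (2 * M + 1) → F) : Fin M → F := fun i => herm q z (H.E i)

omit hF in
theorem eVec_apply (a : Fin M → F) : H.eVec a = ∑ i, a i • H.E i := by
  simp [HFrame.eVec, Fintype.linearCombination_apply]

omit hF in
theorem fVec_apply (a : Fin M → F) : H.fVec a = ∑ i, a i • H.Fv i := by
  simp [HFrame.fVec, Fintype.linearCombination_apply]

omit hF in
theorem eVec_single (i : Fin M) (c : F) : H.eVec (Pi.single i c) = c • H.E i := by
  simp [HFrame.eVec, Fintype.linearCombination_apply_single]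

omit hF in
theorem fVec_single (i : Fin M) (c : F) : H.fVec (Pi.single i c) = c • H.Fv i := by
  simp [HFrame.fVec, Fintype.linearCombination_apply_single]

omit hF in
theorem herm_sum_left {n : ℕ} {ι : Type*} (s : Finset ι) (g : ι → (Fin n → F)) (v : Fin n → F) :
    herm q (∑ i ∈ s, g i) v = ∑ i ∈ s, herm q (g i) v := by
  classical
  induction s using Finset.induction_on with
  | empty => simp [herm_zero_left]
  | insert i s hi ih => rw [Finset.sum_insert hi, Finset.sum_insert hi, herm_add_left, ih]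

omit hF in
theorem herm_eVec (a : Fin M → F) : (∀ j, herm q (H.eVec a) (H.E j) = 0) ∧
    (∀ j, herm q (H.eVec a) (H.Fv j) = a j) ∧ herm q (H.eVec a) H.W = 0 := by
  refine ⟨fun j => ?_, fun j => ?_, ?_⟩ <;> rw [eVec_apply, herm_sum_left] <;>
    simp [herm_smul_left, H.ee, H.ef, H.ew]

omit hF in
theorem herm_fVec (a : Fin M → F) : (∀ j, herm q (H.fVec a) (H.E j) = a j) ∧
    (∀ j, herm q (H.fVec a) (H.Fv j) = 0) ∧ herm q (H.fVec a) H.W = 0 := by
  refine ⟨fun j => ?_, fun j => ?_, ?_⟩ <;> rw [fVec_apply, herm_sum_left] <;>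
    simp [herm_smul_left, H.fe, H.ff, H.fw]

omit hF in
theorem herm_comb (a b : Fin M → F) (γ : F) :
    H.cE (H.eVec a + H.fVec b + γ • H.W) = a ∧ H.cF (H.eVec a + H.fVec b + γ • H.W) = b ∧
      herm q (H.eVec a + H.fVec b + γ • H.W) H.W = γ := by
  refine ⟨funext fun j => ?_, funext fun j => ?_, ?_⟩
  · simp [HFrame.cE, herm_add_left, herm_smul_left, (herm_eVec H a).2.1 j, (herm_fVec H b).2.1 j, H.wf]
  · simp [HFrame.cF, herm_add_left, herm_smul_left, (herm_eVec H a).1 j, (herm_fVec H b).1 j, H.we]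
  · simp [herm_add_left, herm_smul_left, (herm_eVec H a).2.2, (herm_fVec H b).2.2, H.ww]

omit hF in
theorem decomp (z : Fin (2 * M + 1) → F) :
    z = H.eVec (H.cE z) + H.fVec (H.cF z) + herm q z H.W • H.W := by
  obtain ⟨h1, h2, h3⟩ := herm_comb H (H.cE z) (H.cF z) (herm q z H.W)
  refine sub_eq_zero.1 (H.complete _ (fun i => ?_) (fun i => ?_) ?_)
  · rw [herm_sub_left, show herm q (_ + _ + _) (H.E i) = H.cF _ i from rfl, h2]; exact sub_self _
  · rw [herm_sub_left, show herm q (_ + _ + _) (H.Fv i) = H.cE _ i from rfl, h1]; exact sub_self _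
  · rw [herm_sub_left, h3, sub_self]

/-- The conjugation of the field as a ring homomorphism. -/
noncomputable def frob : F →+* F where
  toFun x := x ^ q
  map_one' := one_pow q
  map_mul' x y := mul_pow x y q
  map_zero' := zero_pow hF.q_ne_zero
  map_add' := hF.add_pow

theorem frob_apply (x : F) : frob hF x = x ^ q := rfl

theorem herm_comb_comb (a b a' b' : Fin M → F) (γ γ' : F) :
    herm q (H.eVec a + H.fVec b + γ • H.W) (H.eVec a' + H.fVec b' + γ' • H.W) =
      a ⬝ᵥ (frob hF ∘ b') + b ⬝ᵥ (frob hF ∘ a') + γ * γ' ^ q := by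
  obtain ⟨h1, h2, h3⟩ := herm_comb H a' b' γ'
  set z' := H.eVec a' + H.fVec b' + γ' • H.W
  rw [herm_add_left, herm_add_left, herm_smul_left, eVec_apply, fVec_apply, herm_sum_left, herm_sum_left]
  simp only [herm_smul_left, dotProduct, Function.comp_apply, frob_apply hF]
  rw [show herm q H.W z' = γ' ^ q by rw [← hF.herm_symm, h3]]
  congr 1
  congr 1
  · refine Finset.sum_congr rfl fun i _ => ?_
    rw [← hF.herm_symm, ← congrFun h2 i]
    rfl
  · refine Finset.sum_congr rfl fun i _ => ?_
    rw [← hF.herm_symm, ← congrFun h1 i]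
    rfl

/-- The contragredient matrix of the Levi action on the second halves. -/
noncomputable def contra (P : SpecialLinearGroup (Fin M) F) : Matrix (Fin M) (Fin M) F :=
  ((P⁻¹ : SpecialLinearGroup (Fin M) F).1)ᵀ.map (frob hF)

theorem contra_mul (P Q : SpecialLinearGroup (Fin M) F) : contra hF (P * Q) = contra hF P * contra hF Q := by
  rw [contra, contra, contra, ← Matrix.map_mul, ← transpose_mul, _root_.mul_inv_rev]
  rfl

theorem contra_one : contra hF (1 : SpecialLinearGroup (Fin M) F) = 1 := by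
  rw [contra, inv_one, show (1 : SpecialLinearGroup (Fin M) F).1 = (1 : Matrix (Fin M) (Fin M) F) from rfl, transpose_one, Matrix.map_one _ (map_zero _) (map_one _)]

/-- The Levi map as a linear map. -/
noncomputable def leviLin (P : SpecialLinearGroup (Fin M) F) :
    (Fin (2 * M + 1) → F) →ₗ[F] (Fin (2 * M + 1) → F) where
  toFun z := H.eVec (P.1 *ᵥ H.cE z) + H.fVec (contra hF P *ᵥ H.cF z) + herm q z H.W • H.W
  map_add' x y := by
    rw [show H.cE (x + y) = H.cE x + H.cE y from funext fun i => herm_add_left _ _ _,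
      show H.cF (x + y) = H.cF x + H.cF y from funext fun i => herm_add_left _ _ _, mulVec_add, mulVec_add,
      map_add, map_add, herm_add_left, add_smul]
    abel
  map_smul' c x := by
    rw [show H.cE (c • x) = c • H.cE x from funext fun i => herm_smul_left _ _ _,
      show H.cF (c • x) = c • H.cF x from funext fun i => herm_smul_left _ _ _, mulVec_smul, mulVec_smul,
      map_smul, map_smul, herm_smul_left, RingHom.id_apply, smul_add, smul_add, smul_smul]

theorem leviLin_herm (P : SpecialLinearGroup (Fin M) F) (x y : Fin (2 * M + 1) → F) :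
    herm q (leviLin hF H P x) (leviLin hF H P y) = herm q x y := by
  conv_rhs => rw [decomp H x, decomp H y, herm_comb_comb hF]
  show herm q (H.eVec _ + H.fVec _ + _ • H.W) (H.eVec _ + H.fVec _ + _ • H.W) = _
  rw [herm_comb_comb hF]
  have hinv : (P⁻¹).1 * P.1 = (1 : Matrix (Fin M) (Fin M) F) := congrArg Subtype.val (inv_mul_cancel P)
  have hff : ∀ z : F, frob hF (frob hF z) = z := fun z => hF.pow_pow z
  have e1 : ∀ b : Fin M → F, frob hF ∘ (contra hF P *ᵥ b) = (P⁻¹).1ᵀ *ᵥ (frob hF ∘ b) := by
    intro b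
    funext i
    rw [Function.comp_apply, RingHom.map_mulVec, contra, Matrix.map_map]
    rw [show ((P⁻¹).1ᵀ.map (⇑(frob hF) ∘ ⇑(frob hF))) = (P⁻¹).1ᵀ from Matrix.ext fun i j => hff _]
  have e2 : ∀ a : Fin M → F, frob hF ∘ (P.1 *ᵥ a) = P.1.map (frob hF) *ᵥ (frob hF ∘ a) := fun a =>
    funext fun i => RingHom.map_mulVec _ _ _ i
  rw [e1, e2]
  congr 1
  congr 1
  · rw [dotProduct_mulVec, vecMul_transpose, mulVec_mulVec, hinv, one_mulVec]
  · rw [dotProduct_mulVec, contra, ← vecMul_transpose, transpose_map, transpose_transpose, vecMul_vecMul,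
      ← Matrix.map_mul, hinv, Matrix.map_one _ (map_zero _) (map_one _), vecMul_one]

/-- The Levi element. -/
noncomputable def leviElt (P : SpecialLinearGroup (Fin M) F) : UG (2 * M + 1) F q :=
  ⟨LinearEquiv.ofInjectiveEndo (leviLin hF H P) (fun u v huv => sub_eq_zero.1
    (hF.eq_zero_of_herm _ fun w => by
      rw [herm_sub_left, ← leviLin_herm hF H P u w, ← leviLin_herm hF H P v w, huv, sub_self])),
    leviLin_herm hF H P⟩

theorem leviElt_apply (P : SpecialLinearGroup (Fin M) F) (z : Fin (2 * M + 1) → F) :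
    (leviElt hF H P).1 z =
      H.eVec (P.1 *ᵥ H.cE z) + H.fVec (contra hF P *ᵥ H.cF z) + herm q z H.W • H.W := rfl

/-- The Levi homomorphism. -/
noncomputable def levi : SpecialLinearGroup (Fin M) F →* UG (2 * M + 1) F q where
  toFun := leviElt hF H
  map_one' := by
    refine Subtype.ext (LinearEquiv.ext fun z => ?_)
    rw [leviElt_apply, show (1 : SpecialLinearGroup (Fin M) F).1 = (1 : Matrix (Fin M) (Fin M) F) from rfl, one_mulVec, contra_one, one_mulVec, ← decomp]
    rfl
  map_mul' P Q := by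
    refine Subtype.ext (LinearEquiv.ext fun z => ?_)
    rw [Subgroup.coe_mul, LinearEquiv.mul_apply, leviElt_apply, leviElt_apply, leviElt_apply]
    obtain ⟨h1, h2, h3⟩ := herm_comb H (Q.1 *ᵥ H.cE z) (contra hF Q *ᵥ H.cF z) (herm q z H.W)
    rw [h1, h2, h3, mulVec_mulVec, mulVec_mulVec, contra_mul]
    rfl

theorem levi_apply (P : SpecialLinearGroup (Fin M) F) (z : Fin (2 * M + 1) → F) :
    (levi hF H P).1 z =
      H.eVec (P.1 *ᵥ H.cE z) + H.fVec (contra hF P *ᵥ H.cF z) + herm q z H.W • H.W := rfl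

theorem levi_eVec (P : SpecialLinearGroup (Fin M) F) (a : Fin M → F) :
    (levi hF H P).1 (H.eVec a) = H.eVec (P.1 *ᵥ a) := by
  obtain ⟨h1, h2, h3⟩ := herm_comb H a 0 0
  rw [map_zero, zero_smul, add_zero, add_zero] at h1 h2 h3
  rw [levi_apply, h1, h2, h3, mulVec_zero, map_zero, zero_smul, add_zero, add_zero]

theorem levi_fVec (P : SpecialLinearGroup (Fin M) F) (b : Fin M → F) :
    (levi hF H P).1 (H.fVec b) = H.fVec (contra hF P *ᵥ b) := by
  obtain ⟨h1, h2, h3⟩ := herm_comb H 0 b 0
  rw [map_zero, zero_smul, zero_add, add_zero] at h1 h2 h3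
  rw [levi_apply, h1, h2, h3, mulVec_zero, map_zero, zero_smul, zero_add, add_zero]

theorem levi_W (P : SpecialLinearGroup (Fin M) F) : (levi hF H P).1 H.W = H.W := by
  obtain ⟨h1, h2, h3⟩ := herm_comb H 0 0 1
  rw [map_zero, map_zero, one_smul, zero_add, zero_add] at h1 h2 h3
  rw [levi_apply, h1, h2, h3, mulVec_zero, mulVec_zero, map_zero, map_zero, one_smul, zero_add, zero_add]

theorem levi_E (P : SpecialLinearGroup (Fin M) F) (i : Fin M) :
    (levi hF H P).1 (H.E i) = H.eVec (P.1 *ᵥ Pi.single i 1) := by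
  have := levi_eVec hF H P (Pi.single i 1)
  rwa [eVec_single, one_smul] at this

theorem levi_transvection_cond {i j : Fin M} (hij : i ≠ j) (s : F) :
    UniCond q (H.E i) (-(s ^ q) • H.Fv j) 0 := by
  refine ⟨H.ee _ _, ?_, ?_⟩
  · rw [herm_smul_left, H.fe, if_neg (Ne.symm hij), mul_zero]
  · rw [herm_smul_left, herm_smul_right, H.ff, mul_zero, mul_zero, zero_pow hF.q_ne_zero, add_zero, add_zero]

/-- The Levi transvections are unipotent elements. -/
theorem levi_transvection {i j : Fin M} (hij : i ≠ j) (s : F) :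
    levi hF H (SpecialLinearGroup.transvection hij s) = uni hF (levi_transvection_cond hF H hij s) := by
  refine Subtype.ext (LinearEquiv.ext fun z => ?_)
  rw [levi_apply, uni_apply, zero_mul, zero_sub, herm_smul_right]
  have hinv : ((SpecialLinearGroup.transvection hij s)⁻¹ : SpecialLinearGroup (Fin M) F).1 =
      Matrix.transvection i j (-s) := by
    rw [Matrix.SpecialLinearGroup.transvection_inv hij s]; rfl
  have hP : (SpecialLinearGroup.transvection hij s).1 = Matrix.transvection i j s := rfl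
  rw [hP, contra, hinv, Matrix.transvection, Matrix.transvection, transpose_add, transpose_one,
    transpose_single, Matrix.map_add _ (map_add _), Matrix.map_one _ (map_zero _) (map_one _),
    Matrix.map_single, add_mulVec, one_mulVec, add_mulVec, one_mulVec, frob_apply, hF.neg_pow]
  have e1 : ∀ (a b : Fin M) (c : F) (v : Fin M → F), Matrix.single a b c *ᵥ v = Pi.single a (c * v b) := by
    intro a b c v; ext x; by_cases hx : a = x <;> simp [Matrix.mulVec, dotProduct, Matrix.single_apply, Pi.single_apply, hx, eq_comm]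
  rw [e1, e1, map_add, map_add, eVec_single, fVec_single]
  simp only [hF.neg_pow, hF.pow_pow]
  rw [show H.cE z j = herm q z (H.Fv j) from rfl, show H.cF z i = herm q z (H.E i) from rfl]
  conv_rhs => arg 1; arg 1; rw [decomp H z]
  module

theorem levi_mem_SUG (hM : 2 ≤ M) (P : SpecialLinearGroup (Fin M) F) : levi hF H P ∈ SUG (2 * M + 1) F q := by
  have : Nontrivial (Fin M) := Fin.nontrivial_iff_two_le.2 hM
  have h : (SUG (2 * M + 1) F q).comap (levi hF H) = ⊤ :=
    Cfsg.Agent.Linear.eq_top_of_transvection_mem _ fun i j hij c => by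
      rw [Subgroup.mem_comap, levi_transvection hF H hij]
      exact det_uni hF _
  exact Subgroup.mem_comap.1 (h ▸ Subgroup.mem_top P)

end Cfsg.Agent.SUTwoGen
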