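import Cfsg.Agent.SUTwoGen.BigFrame

/-!
The radical at `E 0` from the Levi subgroup and one short root element.
-/

set_option autoImplicit false
set_option maxHeartbeats 1000000

namespace Cfsg.Agent.SUTwoGen

open Cfsg.Agent.Classical.U Matrix

universe u

variable {F : Type u} [Field F] {q M : ℕ} (hF : SqField F q) (H : HFrame F q M)
include hF

/-- `T i j (μ) T j i (-1/μ) T i j (μ)`. -/
noncomputable def sw {i j : Fin M} (hij : i ≠ j) (μ : F) : SpecialLinearGroup (Fin M) F :=
  SpecialLinearGroup.transvection hij μ * SpecialLinearGroup.transvection hij.symm (-μ⁻¹) *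
    SpecialLinearGroup.transvection hij μ

theorem levi_transvection_E {i j : Fin M} (hij : i ≠ j) (s : F) (k : Fin M) :
    (levi hF H (SpecialLinearGroup.transvection hij s)).1 (H.E k) =
      H.E k + (if k = j then s else 0) • H.E i := by
  rw [levi_transvection hF H hij, uni_apply, H.ee, herm_smul_right, H.ef, hF.neg_pow, hF.pow_pow]
  by_cases h : k = j
  · rw [if_pos h, if_pos h]; module
  · rw [if_neg h, if_neg h]; module

theorem levi_transvection_F {i j : Fin M} (hij : i ≠ j) (s : F) (k : Fin M) :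
    (levi hF H (SpecialLinearGroup.transvection hij s)).1 (H.Fv k) =
      H.Fv k + (if k = i then -(s ^ q) else 0) • H.Fv j := by
  rw [levi_transvection hF H hij, uni_apply, herm_smul_right, H.ff, H.fe]
  by_cases h : k = i
  · rw [if_pos h, if_pos h]; module
  · rw [if_neg h, if_neg h]; module

theorem levi_sw_E {i j : Fin M} (hij : i ≠ j) {μ : F} (hμ : μ ≠ 0) :
    (levi hF H (sw hij μ)).1 (H.E j) = μ • H.E i := by
  simp only [sw, map_mul, Subgroup.coe_mul, LinearEquiv.mul_apply]
  simp only [levi_transvection_E hF H, map_add, map_smul, ↓reduceIte, if_neg hij, if_neg hij.symm]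
  match_scalars <;> field_simp <;> ring

theorem levi_sw_E_other {i j k : Fin M} (hij : i ≠ j) (hi : k ≠ i) (hj : k ≠ j) (μ : F) :
    (levi hF H (sw hij μ)).1 (H.E k) = H.E k := by
  simp only [sw, map_mul, Subgroup.coe_mul, LinearEquiv.mul_apply]
  simp only [levi_transvection_E hF H, map_add, map_smul, if_neg hi, if_neg hj]
  module

theorem levi_sw_F {i j : Fin M} (hij : i ≠ j) :
    (levi hF H (sw hij 1)).1 (H.Fv j) = H.Fv i := by
  simp only [sw, map_mul, Subgroup.coe_mul, LinearEquiv.mul_apply]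
  simp only [levi_transvection_F hF H, map_add, map_smul, ↓reduceIte, if_neg hij, if_neg hij.symm,
    inv_one, hF.neg_pow, one_pow]
  module

theorem levi_sw_F_other {i j k : Fin M} (hij : i ≠ j) (hi : k ≠ i) (hj : k ≠ j) (μ : F) :
    (levi hF H (sw hij μ)).1 (H.Fv k) = H.Fv k := by
  simp only [sw, map_mul, Subgroup.coe_mul, LinearEquiv.mul_apply]
  simp only [levi_transvection_F hF H, map_add, map_smul, if_neg hi, if_neg hj]
  module

theorem levi_conj_uni (P : SpecialLinearGroup (Fin M) F) {i : Fin M} {μ γ a : F}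
    {j : Fin M} (hP : (levi hF H P).1 (H.E j) = μ • H.E i) (hc : UniCond q (H.E j) (γ • H.W) a) :
    ∃ hc' : UniCond q (H.E i) ((μ ^ q * γ) • H.W) (μ * μ ^ q * a),
      levi hF H P * uni hF hc * (levi hF H P)⁻¹ = uni hF hc' := by
  have hc1 : UniCond q (μ • H.E i) (γ • H.W) a := by
    refine ⟨by rw [herm_smul_left, herm_smul_right, H.ee, mul_zero, mul_zero],
      by rw [herm_smul_left, herm_smul_right, H.we, mul_zero, mul_zero], hc.2.2⟩
  have hc' : UniCond q (H.E i) ((μ ^ q * γ) • H.W) (μ * μ ^ q * a) := by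
    refine ⟨H.ee _ _, by rw [herm_smul_left, H.we, mul_zero], ?_⟩
    have := hc.2.2
    simp only [herm_smul_left, herm_smul_right, H.ww, mul_pow, hF.pow_pow, mul_one] at this ⊢
    linear_combination μ * μ ^ q * this
  refine ⟨hc', ?_⟩
  rw [uni_conj, uni_congr hF _ hc1 hP (by rw [map_smul, levi_W]) rfl,
    uni_smul hF hc1 (by rw [smul_smul]; exact hc')]
  exact uni_congr hF _ _ rfl (by rw [smul_smul]) rfl

/-- The whole radical at `E i₀`. -/
theorem radical_of_levi (G : Subgroup (UG (2 * M + 1) F q)) (hL : ∀ P, levi hF H P ∈ G) {l : Fin M} {c : F}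
    (hc : UniCond q (H.E l) ((1 : F) • H.W) c) (hU : uni hF hc ∈ G) {i₀ : Fin M} (hl : i₀ ≠ l)
    (x : Fin (2 * M + 1) → F) (a : F) (hx : UniCond q (H.E i₀) x a) : uni hF hx ∈ G := by
  have hee := H.ee i₀ i₀
  -- multiples of `W`
  have hWall : ∀ γ : F, ∃ (a : F) (h : UniCond q (H.E i₀) (γ • H.W) a), uni hF h ∈ G := by
    intro γ
    rcases eq_or_ne γ 0 with rfl | hγ
    · refine ⟨0, by rw [zero_smul]; exact uniCond_zero hF hee, ?_⟩
      rw [uni_congr hF _ (uniCond_zero hF hee) rfl (zero_smul F H.W) rfl, uni_zero hF hee]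
      exact G.one_mem
    obtain ⟨hc', e1⟩ := levi_conj_uni hF H _ (levi_sw_E hF H hl (pow_ne_zero q hγ)) hc
    have := G.mul_mem (G.mul_mem (hL (sw hl (γ ^ q))) hU) (G.inv_mem (hL (sw hl (γ ^ q))))
    rw [e1] at this
    refine ⟨_, (by rw [hF.pow_pow, mul_one] at hc'; exact hc'), ?_⟩
    convert this using 1
    exact uni_congr hF _ _ rfl (by rw [hF.pow_pow, mul_one]) (by rw [hF.pow_pow])
  have hcen : ∀ (d : F) (hd : UniCond q (H.E i₀) 0 d), uni hF hd ∈ G := by
    intro d hd
    have hd' : d ^ q = -d := by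
      have := hd.2.2
      rw [herm_zero_left] at this
      linear_combination this
    obtain ⟨d0, hd0, hd0q⟩ := hF.exists_skew
    obtain ⟨z, hz⟩ := hF.exists_trace (c := d / d0) (by rw [div_pow, hd', hd0q, neg_div_neg_eq])
    obtain ⟨a, ha, haG⟩ := hWall (d0 * z)
    obtain ⟨b, hb, hbG⟩ := hWall 1
    have hG := G.mul_mem (G.mul_mem haG hbG) (G.inv_mem (G.mul_mem hbG haG))
    convert hG using 1
    rw [uni_mul, uni_mul, eq_mul_inv_iff_mul_eq, uni_mul]
    refine uni_congr hF _ _ rfl (by rw [zero_add]; exact add_comm _ _) ?_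
    simp only [hF.herm_zero_right, herm_smul_left, herm_smul_right, H.ww, mul_pow, hd0q, one_pow]
    field_simp at hz
    linear_combination -hz
  let S : AddSubgroup (Fin (2 * M + 1) → F) :=
    { carrier := {x | ∃ (a : F) (h : UniCond q (H.E i₀) x a), uni hF h ∈ G}
      zero_mem' := ⟨0, uniCond_zero hF hee, by rw [uni_zero hF hee]; exact G.one_mem⟩
      add_mem' := by
        rintro x y ⟨a, hx, hxG⟩ ⟨b, hy, hyG⟩
        exact ⟨_, uniCond_mul hF hx hy, by rw [← uni_mul hF hx hy]; exact G.mul_mem hxG hyG⟩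
      neg_mem' := by
        rintro x ⟨a, hx, hxG⟩
        have hn : UniCond q (H.E i₀) (-x) (a ^ q) := by
          refine ⟨hee, by rw [herm_neg_left, hx.2.1, neg_zero], ?_⟩
          rw [herm_neg_left, hF.herm_neg_right, neg_neg, hF.pow_pow]
          linear_combination hx.2.2
        refine ⟨_, hn, ?_⟩
        convert G.inv_mem hxG using 1
        rw [eq_inv_iff_mul_eq_one, uni_mul, ← uni_zero hF hee]
        refine uni_congr hF _ _ rfl (neg_add_cancel x) ?_
        rw [hF.herm_neg_right]
        linear_combination hx.2.2 }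
  have hself : ∀ t : F, t • H.E i₀ ∈ S := by
    intro t
    have hc1 : UniCond q (H.E i₀) (t • H.E i₀) 0 := ⟨hee, by rw [herm_smul_left, hee, mul_zero],
      by rw [herm_smul_left, herm_smul_right, hee, zero_pow hF.q_ne_zero]; ring⟩
    have hc2 : UniCond q (H.E i₀) 0 (t - t ^ q) := by
      refine ⟨hee, herm_zero_left _, ?_⟩
      rw [hF.sub_pow, hF.pow_pow, herm_zero_left]; ring
    refine ⟨0, hc1, ?_⟩
    convert hcen _ hc2 using 1
    refine Subtype.ext (LinearEquiv.ext fun z => ?_)
    rw [uni_apply, uni_apply, herm_smul_right, hF.herm_zero_right]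
    module
  have hEj : ∀ (j : Fin M) (t : F), t • H.E j ∈ S := by
    intro j t
    by_cases hj : j = i₀
    · rw [hj]; exact hself t
    obtain ⟨b, hb, hbG⟩ : ∃ (b : F) (h : UniCond q (H.E j) ((1 : F) • H.W) b), uni hF h ∈ G := by
      by_cases hjl : j = l
      · subst hjl; exact ⟨c, hc, hU⟩
      obtain ⟨hc', e1⟩ := levi_conj_uni hF H _ (levi_sw_E hF H hjl one_ne_zero) hc
      have := G.mul_mem (G.mul_mem (hL (sw hjl 1)) hU) (G.inv_mem (hL (sw hjl 1)))
      rw [e1] at this
      refine ⟨_, (by rw [one_pow, one_mul] at hc'; exact hc'), ?_⟩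
      convert this using 1
      exact uni_congr hF _ _ rfl (by rw [one_pow, one_mul]) (by simp)
    obtain ⟨a, ha, haG⟩ := hWall t
    have hn : UniCond q (H.E i₀) (t • H.E j) 0 := by
      refine ⟨hee, by rw [herm_smul_left, H.ee, mul_zero], ?_⟩
      rw [herm_smul_left, herm_smul_right, H.ee, zero_pow hF.q_ne_zero]; ring
    refine ⟨0, hn, ?_⟩
    have hG := G.mul_mem (G.mul_mem (G.mul_mem haG hbG) (G.inv_mem haG)) (G.inv_mem hbG)
    have hX : (uni hF ha).1 (H.E j) = H.E j := by
      rw [uni_apply, H.ee, herm_smul_right, H.ew]; simp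
    have hXW : (uni hF ha).1 ((1 : F) • H.W) = (1 : F) • H.W + (-(t ^ q)) • H.E i₀ := by
      rw [one_smul, uni_apply, H.we, herm_smul_right, H.ww]; module
    convert hG using 1
    rw [uni_conj, eq_mul_inv_iff_mul_eq]
    refine Subtype.ext (LinearEquiv.ext fun z => ?_)
    rw [Subgroup.coe_mul, LinearEquiv.mul_apply, uni_apply, uni_apply, uni_apply, hX, hXW]
    simp only [hF.herm_add_right, herm_add_left, herm_smul_left, herm_smul_right, H.ee, H.we, H.ew, one_smul,
      one_pow, hF.neg_pow, hF.pow_pow, smul_zero, mul_zero, add_zero, zero_add, sub_zero]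
    module
  have hFj : ∀ (j : Fin M), j ≠ i₀ → ∀ t : F, t • H.Fv j ∈ S := by
    intro j hj t
    refine ⟨0, ?_, ?_⟩
    · have := levi_transvection_cond hF H (Ne.symm hj) ((-t) ^ q)
      rwa [hF.pow_pow, neg_neg] at this
    · convert hL (SpecialLinearGroup.transvection (Ne.symm hj) ((-t) ^ q)) using 1
      rw [levi_transvection hF H (Ne.symm hj)]
      exact uni_congr hF _ _ rfl (by rw [hF.pow_pow, neg_neg]) rfl
  have hxS : x ∈ S := by
    rw [decomp H x, eVec_apply, fVec_apply]
    refine S.add_mem (S.add_mem (S.sum_mem fun j _ => hEj j _) (S.sum_mem fun j _ => ?_)) ?_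
    · by_cases hj : j = i₀
      · subst hj
        rw [show H.cF x j = 0 from hx.2.1, zero_smul]
        exact S.zero_mem
      · exact hFj j hj _
    · obtain ⟨a, ha, haG⟩ := hWall (herm q x H.W)
      exact ⟨a, ha, haG⟩
  obtain ⟨b, hb, hbG⟩ := hxS
  have hd : UniCond q (H.E i₀) 0 (a - b) := by
    refine ⟨hee, herm_zero_left _, ?_⟩
    rw [hF.sub_pow, herm_zero_left]
    linear_combination hx.2.2 - hb.2.2
  convert G.mul_mem (hcen _ hd) hbG using 1
  rw [uni_mul]
  exact uni_congr hF _ _ rfl (by rw [zero_add]) (by rw [hF.herm_zero_right]; ring)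

end Cfsg.Agent.SUTwoGen
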