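import Cfsg.Agent.SUTwoGen.BigWindow

/-!
The element `uBig` is regular unipotent.
-/

set_option autoImplicit false
set_option maxHeartbeats 1000000

namespace Cfsg.Agent.SUTwoGen

open Cfsg.Agent.Classical.U Matrix Cfsg.Agent.Known Cfsg.Agent.Known.SpRegular

universe u

variable {F : Type u} [Field F] {q m : ℕ} (hF : SqField F q) (H : HFrame F q (m + 3))
include hF

/-- The step of `u⁻¹ - 1` in coordinates. -/
def step' (q : ℕ) (c : F) (x : (Fin (m + 3) → F) × (Fin (m + 3) → F) × F) :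
    (Fin (m + 3) → F) × (Fin (m + 3) → F) × F :=
  (((regU (m + 3))⁻¹).1 *ᵥ x.1 - x.1 +
      Pi.single (Fin.last (m + 2)) (c ^ q * (((regU (m + 3)).1)ᵀ *ᵥ x.2.1) (Fin.last (m + 2)) + x.2.2),
    (shiftN (m + 3))ᵀ *ᵥ x.2.1, -((((regU (m + 3)).1)ᵀ *ᵥ x.2.1) (Fin.last (m + 2))))

theorem contra_inv_regU : contra hF ((regU (m + 3))⁻¹ : SpecialLinearGroup (Fin (m + 3)) F) =
    ((regU (m + 3)).1)ᵀ := by
  rw [contra, inv_inv]
  ext i j
  simp only [Matrix.map_apply, transpose_apply, frob_apply hF, val_regU, Matrix.add_apply, Matrix.one_apply,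
    shiftN, Matrix.of_apply]
  split_ifs <;> simp [hF.q_ne_zero, hF.add_pow]

theorem uBig_inv_sub {c : F} (hc : UniCond q (H.E (Fin.last (m + 2))) ((1 : F) • H.W) c)
    (a b : Fin (m + 3) → F) (γ : F) :
    ((uBig hF H hc)⁻¹ : UG (2 * (m + 3) + 1) F q).1 (H.eVec a + H.fVec b + γ • H.W) -
        (H.eVec a + H.fVec b + γ • H.W) =
      H.eVec (step' q c (a, b, γ)).1 + H.fVec (step' q c (a, b, γ)).2.1 + (step' q c (a, b, γ)).2.2 • H.W := by
  have hn : UniCond q (H.E (Fin.last (m + 2))) (-((1 : F) • H.W)) (c ^ q) := by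
    refine ⟨H.ee _ _, by rw [herm_neg_left, hc.2.1, neg_zero], ?_⟩
    rw [herm_neg_left, hF.herm_neg_right, neg_neg, hF.pow_pow]
    linear_combination hc.2.2
  have hinv : (uni hF hc)⁻¹ = uni hF hn := by
    refine inv_eq_of_mul_eq_one_right ?_
    rw [uni_mul, ← uni_zero hF (H.ee _ _)]
    refine uni_congr hF _ _ rfl (add_neg_cancel _) ?_
    rw [herm_neg_left]
    linear_combination hc.2.2
  rw [uBig, _root_.mul_inv_rev, hinv, ← map_inv, Subgroup.coe_mul, LinearEquiv.mul_apply]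
  conv_lhs => arg 1; arg 2; rw [map_add, map_add, map_smul, levi_eVec, levi_fVec, levi_W, contra_inv_regU]
  rw [uni_apply]
  obtain ⟨h1, h2, h3⟩ := herm_comb H (((regU (m + 3))⁻¹).1 *ᵥ a) (((regU (m + 3)).1)ᵀ *ᵥ b) γ
  rw [show herm q (H.eVec _ + H.fVec _ + γ • H.W) (H.E (Fin.last (m + 2))) = _ from congrFun h2 _,
    hF.herm_neg_right, one_smul, h3]
  have hb : ((regU (m + 3)).1)ᵀ *ᵥ b = b + (shiftN (m + 3))ᵀ *ᵥ b := by
    rw [val_regU, transpose_add, transpose_one, add_mulVec, one_mulVec]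
  simp only [step', map_add, map_sub, eVec_single]
  conv_lhs => arg 1; arg 1; arg 1; arg 1; arg 2; arg 2; rw [hb]
  rw [map_add]
  module

theorem step'_iterate {c : F} (hc : UniCond q (H.E (Fin.last (m + 2))) ((1 : F) • H.W) c)
    (x : (Fin (m + 3) → F) × (Fin (m + 3) → F) × F) (k : ℕ) :
    (fun z => ((uBig hF H hc)⁻¹ : UG (2 * (m + 3) + 1) F q).1 z - z)^[k]
        (H.eVec x.1 + H.fVec x.2.1 + x.2.2 • H.W) =
      H.eVec ((step' q c)^[k] x).1 + H.fVec ((step' q c)^[k] x).2.1 + ((step' q c)^[k] x).2.2 • H.W := by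
  induction k with
  | zero => rfl
  | succ k ih =>
    rw [Function.iterate_succ_apply', ih, Function.iterate_succ_apply']
    exact uBig_inv_sub hF H hc _ _ _

omit hF in
theorem step'_b (c : F) (x : (Fin (m + 3) → F) × (Fin (m + 3) → F) × F) (k : ℕ) :
    ((step' q c)^[k] x).2.1 = (shiftN (m + 3))ᵀ ^ k *ᵥ x.2.1 := by
  induction k with
  | zero => simp
  | succ k ih => rw [Function.iterate_succ_apply', pow_succ', ← mulVec_mulVec, ← ih]; rfl

omit hF in
theorem step'_a (c : F) (a : Fin (m + 3) → F) (k : ℕ) :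
    (step' q c)^[k] (a, 0, 0) = ((((regU (m + 3))⁻¹).1 - 1) ^ k *ᵥ a, 0, 0) := by
  induction k with
  | zero => simp
  | succ k ih =>
    rw [Function.iterate_succ_apply', ih, pow_succ', ← mulVec_mulVec]
    generalize (((((regU (m + 3))⁻¹ : SpecialLinearGroup (Fin (m + 3)) F)).1 - 1) ^ k *ᵥ a) = v
    rw [sub_mulVec, one_mulVec]
    refine Prod.ext ?_ (by simp [step'])
    show ((regU (m + 3))⁻¹ : SpecialLinearGroup (Fin (m + 3)) F).1 *ᵥ v - v + _ = _
    simp [mulVec_zero]

omit hF in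
theorem inv_sub_one_pow (k : ℕ) :
    ((((regU (m + 3))⁻¹ : SpecialLinearGroup (Fin (m + 3)) F)).1 - 1) ^ k =
      (-1 : F) ^ k • ((((regU (m + 3))⁻¹ : SpecialLinearGroup (Fin (m + 3)) F)).1 ^ k * shiftN (m + 3) ^ k) := by
  set A := (regU (m + 3) : SpecialLinearGroup (Fin (m + 3)) F).1
  set Ai := ((regU (m + 3))⁻¹ : SpecialLinearGroup (Fin (m + 3)) F).1
  have h1 : Ai * A = 1 := congrArg Subtype.val (inv_mul_cancel (regU (m + 3) : SpecialLinearGroup (Fin (m + 3)) F))
  have h2 : A * Ai = 1 := congrArg Subtype.val (mul_inv_cancel (regU (m + 3) : SpecialLinearGroup (Fin (m + 3)) F))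
  have hN : shiftN (m + 3) = A - 1 := by rw [show A = 1 + shiftN (m + 3) from rfl, add_sub_cancel_left]
  have hcomm : Commute Ai (shiftN (m + 3)) := by
    rw [hN]; show _ * _ = _ * _
    rw [mul_sub, sub_mul, h1, h2, one_mul, mul_one]
  rw [← hcomm.mul_pow, ← smul_pow, neg_one_smul]
  congr 1
  rw [hN, mul_sub, h1, mul_one, neg_sub]

/-- Regularity. -/
theorem uBig_regular {c : F} (hc : UniCond q (H.E (Fin.last (m + 2))) ((1 : F) • H.W) c) :
    (∀ z, (fun x => (uBig hF H hc).1 x - x)^[2 * (m + 3) + 1] z = 0) ∧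
      ∃ z, (fun x => (uBig hF H hc).1 x - x)^[2 * (m + 3)] z ≠ 0 := by
  set u := uBig hF H hc
  have hrel : ∀ (k : ℕ) z, (fun x => u.1 x - x)^[k] z =
      (-1 : F) ^ k • (u ^ k).1 ((fun x => (u⁻¹ : UG (2 * (m + 3) + 1) F q).1 x - x)^[k] z) := by
    intro k z
    induction k with
    | zero => simp
    | succ k ih =>
      rw [Function.iterate_succ_apply', ih, Function.iterate_succ_apply']
      generalize (fun x => (u⁻¹ : UG (2 * (m + 3) + 1) F q).1 x - x)^[k] z = y
      have e1 : ∀ y, u.1 ((u ^ k).1 y) = (u ^ (k + 1)).1 y := fun y => by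
        rw [← LinearEquiv.mul_apply, ← Subgroup.coe_mul, ← pow_succ']
      have e2 : (u ^ (k + 1)).1 ((u⁻¹ : UG (2 * (m + 3) + 1) F q).1 y) = (u ^ k).1 y := by
        rw [← LinearEquiv.mul_apply, ← Subgroup.coe_mul, pow_succ, mul_inv_cancel_right]
      rw [map_smul, e1, map_sub, e2, pow_succ (-1 : F)]
      module
  have hzero : (shiftN (m + 3) : Matrix (Fin (m + 3)) (Fin (m + 3)) F) ^ (m + 3) = 0 := shift_pow_n
  refine ⟨fun z => ?_, H.Fv 0, ?_⟩
  · rw [hrel, decomp H z, step'_iterate hF H hc (_, _, _)]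
    have e0 : ∀ x, (step' q c)^[2 * (m + 3) + 1] x =
        ((0, 0, 0) : (Fin (m + 3) → F) × (Fin (m + 3) → F) × F) := by
      intro x
      rw [show 2 * (m + 3) + 1 = (m + 3) + (1 + (m + 3)) by omega, Function.iterate_add_apply,
        Function.iterate_add_apply (f := step' q c) 1]
      obtain ⟨y, hy⟩ : ∃ y, (step' q c)^[1] ((step' q c)^[m + 3] x) = (y, 0, 0) := by
        have hb := step'_b (q := q) c x (m + 3)
        rw [← transpose_pow, hzero, transpose_zero, zero_mulVec] at hb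
        generalize (step' q c)^[m + 3] x = z at hb
        refine ⟨((step' q c) z).1, Prod.ext rfl ?_⟩
        simp [step', hb]
      rw [hy, step'_a, inv_sub_one_pow, hzero]
      simp
    rw [e0]
    simp
  · rw [hrel]
    intro h0
    rw [smul_eq_zero, LinearEquiv.map_eq_zero_iff] at h0
    have h0' := h0.resolve_left (pow_ne_zero _ (neg_ne_zero.2 one_ne_zero))
    set x0 : (Fin (m + 3) → F) × (Fin (m + 3) → F) × F := (0, Pi.single 0 1, 0)
    have hF0 : H.Fv 0 = H.eVec x0.1 + H.fVec x0.2.1 + x0.2.2 • H.W := by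
      simp [x0, fVec_single]
    have e : (step' q c)^[2 * (m + 3)] x0 =
        (step' q c)^[m + 2] ((step' q c)^[1] ((step' q c)^[1] ((step' q c)^[m + 2] x0))) := by
      rw [← Function.iterate_add_apply, ← Function.iterate_add_apply, ← Function.iterate_add_apply]
      congr 2
      omega
    rw [hF0, step'_iterate hF H hc, e] at h0'
    set x1 := (step' q c)^[m + 2] x0
    have hb1 : x1.2.1 = Pi.single (Fin.last (m + 2)) 1 := by
      rw [step'_b, ← transpose_pow, shift_pow_top, transpose_single]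
      ext i
      simp [x0, Pi.single_apply, Matrix.single_apply, mulVec, dotProduct, eq_comm]
    have hAT : (((regU (m + 3)).1)ᵀ *ᵥ (Pi.single (Fin.last (m + 2)) 1 : Fin (m + 3) → F)) (Fin.last (m + 2)) = 1 := by
      simp [val_regU, shiftN]
    have hshift : ((shiftN (m + 3))ᵀ *ᵥ (Pi.single (Fin.last (m + 2)) 1 : Fin (m + 3) → F)) = 0 := by
      ext i; simp [shiftN]; omega
    obtain ⟨y, hy, hyl⟩ : ∃ y, (step' q c)^[1] ((step' q c)^[1] x1) = (y, 0, 0) ∧ y (Fin.last (m + 2)) = -1 := by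
      set x2 := (step' q c)^[1] x1
      have hb2 : x2.2.1 = 0 := by simp [x2, step', hb1, hshift]
      have hg2 : x2.2.2 = -1 := by simp [x2, step', hb1, hAT]
      refine ⟨((step' q c) x2).1, Prod.ext rfl (by simp [step', hb2]), ?_⟩
      have hlast : (((regU (m + 3))⁻¹).1 *ᵥ x2.1) (Fin.last (m + 2)) = x2.1 (Fin.last (m + 2)) := by
        set v := ((regU (m + 3))⁻¹).1 *ᵥ x2.1
        have e : (regU (m + 3)).1 *ᵥ v = x2.1 := by
          rw [mulVec_mulVec, show (regU (m + 3)).1 * ((regU (m + 3))⁻¹).1 = (1 : Matrix (Fin (m + 3)) (Fin (m + 3)) F)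
            from congrArg Subtype.val (mul_inv_cancel (regU (m + 3) : SpecialLinearGroup (Fin (m + 3)) F)), one_mulVec]
        rw [← e, val_regU, add_mulVec, one_mulVec, Pi.add_apply]
        have : (shiftN (m + 3) *ᵥ v) (Fin.last (m + 2)) = 0 := by
          simp [mulVec, dotProduct, shiftN]
          refine Finset.sum_eq_zero fun i _ => if_neg ?_
          omega
        rw [this, add_zero]
      show ((((regU (m + 3))⁻¹).1 *ᵥ x2.1 - x2.1) + _ : Fin (m + 3) → F) (Fin.last (m + 2)) = -1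
      rw [Pi.add_apply, Pi.sub_apply, hlast, sub_self, zero_add]
      simp [hb2, hg2]
    rw [hy, step'_a, inv_sub_one_pow, shift_pow_top] at h0'
    simp only [map_zero, zero_smul, add_zero] at h0'
    have h1 := congrArg H.cE h0'
    rw [show H.cE (H.eVec _) = _ from funext fun i => (herm_eVec H _).2.1 i] at h1
    have h2 : ∀ k : ℕ, ((regU (m + 3))⁻¹).1 ^ k *ᵥ (Pi.single 0 (-1) : Fin (m + 3) → F) = Pi.single 0 (-1) := by
      intro k
      induction k with
      | zero => rw [pow_zero, one_mulVec]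
      | succ k ih =>
        rw [pow_succ', ← mulVec_mulVec, ih]
        have e : (regU (m + 3)).1 *ᵥ (Pi.single 0 (-1) : Fin (m + 3) → F) = Pi.single 0 (-1) := by
          rw [show (Pi.single 0 (-1) : Fin (m + 3) → F) = (-1 : F) • Pi.single 0 1 by
            rw [← Pi.single_smul]; simp, mulVec_smul, regU_mulVec_zero]
        conv_lhs => rw [← e]
        rw [mulVec_mulVec, show ((regU (m + 3))⁻¹).1 * (regU (m + 3)).1 = (1 : Matrix (Fin (m + 3)) (Fin (m + 3)) F)
          from congrArg Subtype.val (inv_mul_cancel (regU (m + 3) : SpecialLinearGroup (Fin (m + 3)) F)), one_mulVec]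
    rw [smul_mulVec, ← mulVec_mulVec, single_mulVec] at h1
    have h3 := congrFun h1 0
    rw [Pi.smul_apply, show Function.update (0 : Fin (m + 3) → F) 0 (1 * y (Fin.last (m + 2))) = Pi.single 0 (-1) by
      rw [one_mul, hyl]; rfl, h2] at h3
    simp [HFrame.cE, herm_zero_left] at h3

end Cfsg.Agent.SUTwoGen
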