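import Cfsg.Agent.Linear.Transvection

/-!
Three translates of a transvection generating `SL_3(4)`.
-/

set_option autoImplicit false
set_option maxHeartbeats 1000000

namespace Cfsg.Agent.SUTwoGen.Seven

open Matrix
open scoped commutatorElement

universe u

variable {F : Type u} [Field F]

/-- The matrix lies in the subgroup. -/
def Mem3 (G : Subgroup (SpecialLinearGroup (Fin 3) F)) (M : Matrix (Fin 3) (Fin 3) F) : Prop :=
  ∃ A ∈ G, A.1 = M

theorem mem3_mul {G : Subgroup (SpecialLinearGroup (Fin 3) F)} {M N P : Matrix (Fin 3) (Fin 3) F}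
    (hM : Mem3 G M) (hN : Mem3 G N) (h : M * N = P) : Mem3 G P := by
  obtain ⟨A, hA, rfl⟩ := hM
  obtain ⟨B, hB, rfl⟩ := hN
  exact ⟨A * B, G.mul_mem hA hB, h⟩

theorem mem3_transvection {G : Subgroup (SpecialLinearGroup (Fin 3) F)} {i j : Fin 3} (hij : i ≠ j) (c : F)
    {M : Matrix (Fin 3) (Fin 3) F} (hM : Mem3 G M) (h : M = Matrix.transvection i j c) :
    SpecialLinearGroup.transvection hij c ∈ G := by
  obtain ⟨A, hA, rfl⟩ := hM
  rwa [show SpecialLinearGroup.transvection hij c = A from Subtype.ext h.symm]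

theorem eq_top_of_window (G : Subgroup (SpecialLinearGroup (Fin 3) F)) {w : F} (h2 : (2 : F) = 0)
    (hw : w ^ 2 = w + 1) (hcover : ∀ x : F, x = 0 ∨ x = 1 ∨ x = w ∨ x = w + 1)
    (Ma : Mem3 G !![(w : F), w + 1, 0; w + 1, w, 0; w, w, 1])
    (Mb : Mem3 G !![(1 : F), 0, 0; 1, 1, 0; w, 0, 1])
    (Mc : Mem3 G !![(0 : F), 1, 1; w + 1, w, w + 1; w, w, w + 1]) : G = ⊤ := by
  have Mac : Mem3 G !![(w : F), w + 1, 0; 1, 0, w; w + 1, w + 1, 0] := mem3_mul Ma Mc (by ext x y; fin_cases x <;> fin_cases y <;> simp [Matrix.mul_apply, Fin.sum_univ_three, Matrix.transvection, Matrix.single] <;> grind)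
  have Maca : Mem3 G !![(1 : F), 0, 0; 1, 0, w; w + 1, w + 1, 0] := mem3_mul Mac Ma (by ext x y; fin_cases x <;> fin_cases y <;> simp [Matrix.mul_apply, Fin.sum_univ_three, Matrix.transvection, Matrix.single] <;> grind)
  have Macac : Mem3 G !![(0 : F), 1, 1; w + 1, w, 0; w, w, 1] := mem3_mul Maca Mc (by ext x y; fin_cases x <;> fin_cases y <;> simp [Matrix.mul_apply, Fin.sum_univ_three, Matrix.transvection, Matrix.single] <;> grind)
  have Macaca : Mem3 G !![(1 : F), 0, 1; 0, 1, 0; 0, 0, 1] := mem3_mul Macac Ma (by ext x y; fin_cases x <;> fin_cases y <;> simp [Matrix.mul_apply, Fin.sum_univ_three, Matrix.transvection, Matrix.single] <;> grind)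
  have t02 : SpecialLinearGroup.transvection (show (0 : Fin 3) ≠ 2 by decide) (1 : F) ∈ G := mem3_transvection _ _ Macaca (by ext x y; fin_cases x <;> fin_cases y <;> simp [Matrix.mul_apply, Fin.sum_univ_three, Matrix.transvection, Matrix.single] <;> grind)
  have Mab : Mem3 G !![(1 : F), w + 1, 0; 1, w, 0; w, w, 1] := mem3_mul Ma Mb (by ext x y; fin_cases x <;> fin_cases y <;> simp [Matrix.mul_apply, Fin.sum_univ_three, Matrix.transvection, Matrix.single] <;> grind)
  have Mabc : Mem3 G !![(w : F), 0, w + 1; 1, w, 0; w + 1, w + 1, 0] := mem3_mul Mab Mc (by ext x y; fin_cases x <;> fin_cases y <;> simp [Matrix.mul_apply, Fin.sum_univ_three, Matrix.transvection, Matrix.single] <;> grind)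
  have Mabca : Mem3 G !![(w : F), 0, w + 1; w + 1, 0, 0; w + 1, w + 1, 0] := mem3_mul Mabc Ma (by ext x y; fin_cases x <;> fin_cases y <;> simp [Matrix.mul_apply, Fin.sum_univ_three, Matrix.transvection, Matrix.single] <;> grind)
  have Mabcac : Mem3 G !![(1 : F), w + 1, 0; 0, w + 1, w + 1; w, w, 1] := mem3_mul Mabca Mc (by ext x y; fin_cases x <;> fin_cases y <;> simp [Matrix.mul_apply, Fin.sum_univ_three, Matrix.transvection, Matrix.single] <;> grind)
  have Mabcacb : Mem3 G !![(w : F), w + 1, 0; w, w + 1, w + 1; w, w, 1] := mem3_mul Mabcac Mb (by ext x y; fin_cases x <;> fin_cases y <;> simp [Matrix.mul_apply, Fin.sum_univ_three, Matrix.transvection, Matrix.single] <;> grind)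
  have Mabcacba : Mem3 G !![(1 : F), 0, 0; 0, 1, w + 1; 0, 0, 1] := mem3_mul Mabcacb Ma (by ext x y; fin_cases x <;> fin_cases y <;> simp [Matrix.mul_apply, Fin.sum_univ_three, Matrix.transvection, Matrix.single] <;> grind)
  have t12 : SpecialLinearGroup.transvection (show (1 : Fin 3) ≠ 2 by decide) (w + 1 : F) ∈ G := mem3_transvection _ _ Mabcacba (by ext x y; fin_cases x <;> fin_cases y <;> simp [Matrix.mul_apply, Fin.sum_univ_three, Matrix.transvection, Matrix.single] <;> grind)
  have Mbc : Mem3 G !![(0 : F), 1, 1; w + 1, w + 1, w; w, 0, 1] := mem3_mul Mb Mc (by ext x y; fin_cases x <;> fin_cases y <;> simp [Matrix.mul_apply, Fin.sum_univ_three, Matrix.transvection, Matrix.single] <;> grind)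
  have Mbcb : Mem3 G !![(w + 1 : F), 1, 1; w + 1, w + 1, w; 0, 0, 1] := mem3_mul Mbc Mb (by ext x y; fin_cases x <;> fin_cases y <;> simp [Matrix.mul_apply, Fin.sum_univ_three, Matrix.transvection, Matrix.single] <;> grind)
  have Mbcbc : Mem3 G !![(1 : F), w + 1, w + 1; 1, 1, 0; w, w, w + 1] := mem3_mul Mbcb Mc (by ext x y; fin_cases x <;> fin_cases y <;> simp [Matrix.mul_apply, Fin.sum_univ_three, Matrix.transvection, Matrix.single] <;> grind)
  have Mbcbca : Mem3 G !![(1 : F), w + 1, w + 1; 1, 1, 0; w + 1, w + 1, w + 1] := mem3_mul Mbcbc Ma (by ext x y; fin_cases x <;> fin_cases y <;> simp [Matrix.mul_apply, Fin.sum_univ_three, Matrix.transvection, Matrix.single] <;> grind)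
  have Mbcbcac : Mem3 G !![(w + 1 : F), 1, 1; w + 1, w + 1, w; w + 1, w + 1, w + 1] := mem3_mul Mbcbca Mc (by ext x y; fin_cases x <;> fin_cases y <;> simp [Matrix.mul_apply, Fin.sum_univ_three, Matrix.transvection, Matrix.single] <;> grind)
  have Mbcbcacb : Mem3 G !![(0 : F), 1, 1; w + 1, w + 1, w; 1, w + 1, w + 1] := mem3_mul Mbcbcac Mb (by ext x y; fin_cases x <;> fin_cases y <;> simp [Matrix.mul_apply, Fin.sum_univ_three, Matrix.transvection, Matrix.single] <;> grind)
  have Mbcbcacbc : Mem3 G !![(1 : F), 0, 0; 1, 1, 0; w + 1, 1, 1] := mem3_mul Mbcbcacb Mc (by ext x y; fin_cases x <;> fin_cases y <;> simp [Matrix.mul_apply, Fin.sum_univ_three, Matrix.transvection, Matrix.single] <;> grind)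
  have Mbcbcacbcb : Mem3 G !![(1 : F), 0, 0; 0, 1, 0; 0, 1, 1] := mem3_mul Mbcbcacbc Mb (by ext x y; fin_cases x <;> fin_cases y <;> simp [Matrix.mul_apply, Fin.sum_univ_three, Matrix.transvection, Matrix.single] <;> grind)
  have t21 : SpecialLinearGroup.transvection (show (2 : Fin 3) ≠ 1 by decide) (1 : F) ∈ G := mem3_transvection _ _ Mbcbcacbcb (by ext x y; fin_cases x <;> fin_cases y <;> simp [Matrix.mul_apply, Fin.sum_univ_three, Matrix.transvection, Matrix.single] <;> grind)
  have Mbcbcab : Mem3 G !![(w + 1 : F), w + 1, w + 1; 0, 1, 0; 1, w + 1, w + 1] := mem3_mul Mbcbca Mb (by ext x y; fin_cases x <;> fin_cases y <;> simp [Matrix.mul_apply, Fin.sum_univ_three, Matrix.transvection, Matrix.single] <;> grind)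
  have Mbcbcabc : Mem3 G !![(w + 1 : F), w + 1, w + 1; w + 1, w, w + 1; w + 1, 1, 1] := mem3_mul Mbcbcab Mc (by ext x y; fin_cases x <;> fin_cases y <;> simp [Matrix.mul_apply, Fin.sum_univ_three, Matrix.transvection, Matrix.single] <;> grind)
  have Mbcbcabcb : Mem3 G !![(1 : F), w + 1, w + 1; 0, w, w + 1; 0, 1, 1] := mem3_mul Mbcbcabc Mb (by ext x y; fin_cases x <;> fin_cases y <;> simp [Matrix.mul_apply, Fin.sum_univ_three, Matrix.transvection, Matrix.single] <;> grind)
  have Mbcbcabcba : Mem3 G !![(1 : F), w + 1, w + 1; 0, w, w + 1; 1, 0, 1] := mem3_mul Mbcbcabcb Ma (by ext x y; fin_cases x <;> fin_cases y <;> simp [Matrix.mul_apply, Fin.sum_univ_three, Matrix.transvection, Matrix.single] <;> grind)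
  have Mbcbcabcbac : Mem3 G !![(w + 1 : F), 1, 1; 0, w, w + 1; w, w + 1, w] := mem3_mul Mbcbcabcba Mc (by ext x y; fin_cases x <;> fin_cases y <;> simp [Matrix.mul_apply, Fin.sum_univ_three, Matrix.transvection, Matrix.single] <;> grind)
  have Mbcbcabcbacb : Mem3 G !![(0 : F), 1, 1; w + 1, w, w + 1; w, w + 1, w] := mem3_mul Mbcbcabcbac Mb (by ext x y; fin_cases x <;> fin_cases y <;> simp [Matrix.mul_apply, Fin.sum_univ_three, Matrix.transvection, Matrix.single] <;> grind)
  have Mbcbcabcbacbc : Mem3 G !![(1 : F), 0, 0; 0, 1, 0; 1, 0, 1] := mem3_mul Mbcbcabcbacb Mc (by ext x y; fin_cases x <;> fin_cases y <;> simp [Matrix.mul_apply, Fin.sum_univ_three, Matrix.transvection, Matrix.single] <;> grind)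
  have t20 : SpecialLinearGroup.transvection (show (2 : Fin 3) ≠ 0 by decide) (1 : F) ∈ G := mem3_transvection _ _ Mbcbcabcbacbc (by ext x y; fin_cases x <;> fin_cases y <;> simp [Matrix.mul_apply, Fin.sum_univ_three, Matrix.transvection, Matrix.single] <;> grind)
  have hcm : ∀ {i j k : Fin 3} (hij : i ≠ j) (hik : i ≠ k) (hkj : k ≠ j) (a b c : F),
      SpecialLinearGroup.transvection hik a ∈ G → SpecialLinearGroup.transvection hkj b ∈ G → a * b = c →
        SpecialLinearGroup.transvection hij c ∈ G := by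
    intro i j k hij hik hkj a b c ha hb e
    rw [← e, ← Cfsg.Agent.Linear.transvection_commutator hij hik hkj a b, commutatorElement_def]
    exact G.mul_mem (G.mul_mem (G.mul_mem ha hb) (G.inv_mem ha)) (G.inv_mem hb)
  have n01 : (0 : Fin 3) ≠ 1 := by decide
  have n02 : (0 : Fin 3) ≠ 2 := by decide
  have n10 : (1 : Fin 3) ≠ 0 := by decide
  have n12 : (1 : Fin 3) ≠ 2 := by decide
  have n20 : (2 : Fin 3) ≠ 0 := by decide
  have n21 : (2 : Fin 3) ≠ 1 := by decide
  have a01 : SpecialLinearGroup.transvection n01 (1 : F) ∈ G := hcm n01 n02 n21 _ _ _ t02 t21 (one_mul _)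
  have a10 : SpecialLinearGroup.transvection n10 (w + 1) ∈ G := hcm n10 n12 n20 _ _ _ t12 t20 (mul_one _)
  have a02 : SpecialLinearGroup.transvection n02 (w + 1) ∈ G := hcm n02 n01 n12 _ _ _ a01 t12 (one_mul _)
  have b01 : SpecialLinearGroup.transvection n01 (w + 1) ∈ G := hcm n01 n02 n21 _ _ _ a02 t21 (mul_one _)
  have b21 : SpecialLinearGroup.transvection n21 (w + 1) ∈ G := hcm n21 n20 n01 _ _ _ t20 b01 (one_mul _)
  have c01 : SpecialLinearGroup.transvection n01 w ∈ G :=
    hcm n01 n02 n21 _ _ _ a02 b21 (by grind)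
  have f01 : ∀ c : F, SpecialLinearGroup.transvection n01 c ∈ G := by
    intro c
    rcases hcover c with rfl | rfl | rfl | rfl
    · rw [show SpecialLinearGroup.transvection n01 (0 : F) = 1 from Subtype.ext (Matrix.transvection_zero _ _)]
      exact G.one_mem
    · exact a01
    · exact c01
    · exact b01
  have f02 : ∀ c : F, SpecialLinearGroup.transvection n02 c ∈ G := fun c =>
    hcm n02 n01 n12 _ _ _ (f01 (c * w)) t12 (by grind)
  have f12 : ∀ c : F, SpecialLinearGroup.transvection n12 c ∈ G := fun c =>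
    hcm n12 n10 n02 _ _ _ a10 (f02 (c * w)) (by grind)
  have f21 : ∀ c : F, SpecialLinearGroup.transvection n21 c ∈ G := fun c =>
    hcm n21 n20 n01 _ _ _ t20 (f01 c) (one_mul _)
  have f10 : ∀ c : F, SpecialLinearGroup.transvection n10 c ∈ G := fun c =>
    hcm n10 n12 n20 _ _ _ (f12 c) t20 (mul_one _)
  have f20 : ∀ c : F, SpecialLinearGroup.transvection n20 c ∈ G := fun c =>
    hcm n20 n21 n10 _ _ _ (f21 c) (f10 1) (mul_one _)
  refine Cfsg.Agent.Linear.eq_top_of_transvection_mem _ fun i j hij c => ?_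
  fin_cases i <;> fin_cases j <;>
    first
    | exact absurd rfl hij
    | exact f01 c | exact f02 c | exact f10 c | exact f12 c | exact f20 c | exact f21 c

end Cfsg.Agent.SUTwoGen.Seven
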