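import Cfsg.Agent.SUTwoGen.BigRad
import Cfsg.Agent.SUTwoGen.Seven
import Cfsg.Agent.Known.SpRegularBig

/-!
The whole Levi subgroup from the regular unipotent element and one transvection.
-/

set_option autoImplicit false
set_option maxHeartbeats 1000000

namespace Cfsg.Agent.SUTwoGen

open Cfsg.Agent.Classical.U Matrix Cfsg.Agent.Known.RegUnipConj Cfsg.Agent.Known.SpRegularBig Cfsg.Agent.Known

universe u

variable {F : Type u} [Field F] {q m : ℕ} (hF : SqField F q) (H : HFrame F q (m + 3))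
include hF

/-- The regular unipotent element of `SU_{2m+7}`. -/
noncomputable def uBig {c : F} (hc : UniCond q (H.E (Fin.last (m + 2))) ((1 : F) • H.W) c) :
    UG (2 * (m + 3) + 1) F q :=
  levi hF H (regU (m + 3)) * uni hF hc

theorem u_conj_levi {c : F} (hc : UniCond q (H.E (Fin.last (m + 2))) ((1 : F) • H.W) c)
    {P : SpecialLinearGroup (Fin (m + 3)) F}
    (hP : P.1 *ᵥ Pi.single (Fin.last (m + 2)) 1 = Pi.single (Fin.last (m + 2)) 1) :
    uBig hF H hc * levi hF H P * (uBig hF H hc)⁻¹ = levi hF H (regU (m + 3) * P * (regU (m + 3))⁻¹) := by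
  have e1 : levi hF H P * uni hF hc * (levi hF H P)⁻¹ = uni hF hc := by
    rw [uni_conj]
    exact uni_congr hF _ _ (by rw [levi_E, hP, eVec_single, one_smul]) (by rw [map_smul, levi_W]) rfl
  have e2 : Commute (uni hF hc) (levi hF H P) := (mul_inv_eq_iff_eq_mul.1 e1).symm
  rw [uBig, map_mul, map_mul, map_inv]
  calc levi hF H (regU (m + 3)) * uni hF hc * levi hF H P * (levi hF H (regU (m + 3)) * uni hF hc)⁻¹
      = levi hF H (regU (m + 3)) * (uni hF hc * levi hF H P * (uni hF hc)⁻¹) *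
          (levi hF H (regU (m + 3)))⁻¹ := by group
    _ = _ := by rw [e2.eq, mul_inv_cancel_right]

variable {G : Subgroup (UG (2 * (m + 3) + 1) F q)} {c : F}

theorem u_inv_conj_levi (hc : UniCond q (H.E (Fin.last (m + 2))) ((1 : F) • H.W) c) (hu : uBig hF H hc ∈ G)
    {P Q : SpecialLinearGroup (Fin (m + 3)) F}
    (hQ : Q.1 *ᵥ Pi.single (Fin.last (m + 2)) 1 = Pi.single (Fin.last (m + 2)) 1)
    (hPQ : regU (m + 3) * Q * (regU (m + 3))⁻¹ = P) (h : levi hF H P ∈ G) : levi hF H Q ∈ G := by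
  have h1 := G.mul_mem (G.mul_mem (G.inv_mem hu) h) hu
  rw [← hPQ, ← u_conj_levi hF H hc hQ] at h1
  simpa [mul_assoc] using h1

theorem pure_window' (hc : UniCond q (H.E (Fin.last (m + 2))) ((1 : F) • H.W) c) {lam : F}
    (hu : uBig hF H hc ∈ G) (h0 : levi hF H (T lam 0) ∈ G) :
    levi hF H (T lam 1) ∈ G ∧ ∀ i : ℕ, i ≤ m + 1 → levi hF H (T lam (-(i : ℤ))) ∈ G := by
  constructor
  · have h := G.mul_mem (G.mul_mem hu h0) (G.inv_mem hu)
    rw [u_conj_levi hF H hc (T_fix lam (by rw [neg_zero]; exact S_zero le_rfl (by omega)))] at h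
    have e := T_shift (m := m) lam 0 1
    rw [zpow_one, zero_add] at e
    rwa [e] at h
  · intro i
    induction i with
    | zero => intro _; rw [Nat.cast_zero, neg_zero]; exact h0
    | succ i ih =>
      intro hi
      refine u_inv_conj_levi hF H hc hu (T_fix (m := m) lam (k := -((i + 1 : ℕ) : ℤ))
        (by rw [neg_neg]; exact S_zero (by omega) (by omega))) ?_ (ih (by omega))
      have e := T_shift (m := m) lam (-((i + 1 : ℕ) : ℤ)) 1
      rw [zpow_one, show -((i + 1 : ℕ) : ℤ) + 1 = -(i : ℤ) by omega] at e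
      exact e

theorem levi_top_of_window [Fintype F] (hc : UniCond q (H.E (Fin.last (m + 2))) ((1 : F) • H.W) c)
    (ζ : Fˣ) (hζ : ∀ x : Fˣ, x ∈ Subgroup.zpowers ζ) (hexc : ¬ (m = 0 ∧ Fintype.card F = 4))
    (hu : uBig hF H hc ∈ G) (h0 : levi hF H (T (ζ : F) 0) ∈ G) : ∀ P, levi hF H P ∈ G := by
  obtain ⟨hT1, hTn⟩ := pure_window' hF H hc hu h0
  intro P
  set Hs := G.comap (levi hF H) with hHs
  have hH : Hs.comap (MulAut.conj ((regU (m + 3) : SpecialLinearGroup (Fin (m + 3)) F) ^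
      (-((m + 1 : ℕ) : ℤ)))).toMonoidHom = ⊤ := by
    refine SLWindow.window_generates ζ hζ hexc fun k hk0 hk => ?_
    rw [Subgroup.mem_comap, MulEquiv.coe_toMonoidHom, MulAut.conj_apply, hHs, Subgroup.mem_comap, T_shift]
    rcases eq_or_lt_of_le hk with e | hlt
    · rwa [e, show ((m + 2 : ℕ) : ℤ) + -((m + 1 : ℕ) : ℤ) = 1 by omega]
    · obtain ⟨i, hi⟩ : ∃ i : ℕ, k + -((m + 1 : ℕ) : ℤ) = -(i : ℤ) :=
        ⟨(((m + 1 : ℕ) : ℤ) - k).toNat, by omega⟩
      rw [hi]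
      exact hTn i (by omega)
  have hP := Subgroup.mem_top ((regU (m + 3) ^ (-((m + 1 : ℕ) : ℤ)))⁻¹ * P *
    (regU (m + 3) ^ (-((m + 1 : ℕ) : ℤ))) : SpecialLinearGroup (Fin (m + 3)) F)
  rw [← hH, Subgroup.mem_comap, MulEquiv.coe_toMonoidHom, MulAut.conj_apply] at hP
  simpa [hHs, mul_assoc] using hP

omit m H G c in
/-- The exceptional case `SU_7(2)`. -/
theorem levi_top_seven {H : HFrame F q (0 + 3)} {G : Subgroup (UG (2 * (0 + 3) + 1) F q)} {c : F}
    (hc : UniCond q (H.E (Fin.last (0 + 2))) ((1 : F) • H.W) c) {w : F} (h2 : (2 : F) = 0)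
    (hw : w ^ 2 = w + 1) (hcover : ∀ x : F, x = 0 ∨ x = 1 ∨ x = w ∨ x = w + 1) (hu : uBig hF H hc ∈ G)
    {S : SpecialLinearGroup (Fin 3) F} (hS : S.1 = !![(1 : F), 0, 0; 1, 1, 0; w, 0, 1])
    (h0 : levi hF H S ∈ G) : ∀ P, levi hF H P ∈ G := by
  set A : SpecialLinearGroup (Fin 3) F := regU 3
  have hA : A.1 = !![(1 : F), 1, 0; 0, 1, 1; 0, 0, 1] := by
    ext i j; fin_cases i <;> fin_cases j <;> simp [A, val_regU, shiftN, Matrix.one_apply]
  have hlast : (Pi.single (Fin.last 2) 1 : Fin 3 → F) = ![0, 0, 1] := by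
    ext i; fin_cases i <;> simp [Pi.single_apply, Fin.ext_iff]
  have hfix : S.1 *ᵥ Pi.single (Fin.last 2) 1 = Pi.single (Fin.last 2) 1 := by
    rw [hS, hlast]; ext i; fin_cases i <;> simp
  obtain ⟨Q, hQ⟩ : ∃ Q : SpecialLinearGroup (Fin 3) F, A * Q * A⁻¹ = S := ⟨A⁻¹ * S * A, by group⟩
  have hQ' : A.1 * Q.1 = S.1 * A.1 := by
    have e : A * Q = S * A := by rw [← hQ, inv_mul_cancel_right]
    exact congrArg Subtype.val e
  have hQv : Q.1 = !![(w : F), w + 1, 0; w + 1, w, 0; w, w, 1] := by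
    have hAi : (A⁻¹ : SpecialLinearGroup (Fin 3) F).1 * A.1 = 1 := congrArg Subtype.val (inv_mul_cancel A)
    have e : A.1 * !![(w : F), w + 1, 0; w + 1, w, 0; w, w, 1] = S.1 * A.1 := by
      rw [hS, hA]; ext i j; fin_cases i <;> fin_cases j <;> simp [Matrix.mul_apply, Fin.sum_univ_three] <;> grind
    have := congrArg ((A⁻¹ : SpecialLinearGroup (Fin 3) F).1 * ·) (hQ'.trans e.symm)
    simp only [← Matrix.mul_assoc, hAi, Matrix.one_mul] at this; exact this
  have hQfix : Q.1 *ᵥ Pi.single (Fin.last 2) 1 = Pi.single (Fin.last 2) 1 := by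
    rw [hQv, hlast]; ext i; fin_cases i <;> simp
  have hC := G.mul_mem (G.mul_mem hu h0) (G.inv_mem hu)
  rw [u_conj_levi hF H hc hfix] at hC
  have hCv : (regU (0 + 3) * S * (regU (0 + 3))⁻¹ : SpecialLinearGroup (Fin 3) F).1 =
      !![(0 : F), 1, 1; w + 1, w, w + 1; w, w, w + 1] := by
    have hAi : A.1 * (A⁻¹ : SpecialLinearGroup (Fin 3) F).1 = 1 := congrArg Subtype.val (mul_inv_cancel A)
    have e : A.1 * S.1 = !![(0 : F), 1, 1; w + 1, w, w + 1; w, w, w + 1] * A.1 := by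
      rw [hS, hA]; ext i j; fin_cases i <;> fin_cases j <;> simp [Matrix.mul_apply, Fin.sum_univ_three] <;> grind
    show A.1 * S.1 * (A⁻¹ : SpecialLinearGroup (Fin 3) F).1 = _
    rw [e, Matrix.mul_assoc, hAi, Matrix.mul_one]
  have := Seven.eq_top_of_window (G.comap (levi hF H)) h2 hw hcover
    ⟨Q, u_inv_conj_levi hF H hc hu hQfix hQ h0, hQv⟩ ⟨S, h0, hS⟩ ⟨_, hC, hCv⟩
  intro P
  exact Subgroup.mem_comap.1 (this ▸ Subgroup.mem_top P)

end Cfsg.Agent.SUTwoGen
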