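import Cfsg.Agent.Classical.UGen

/-!
Generation of `SU_3(q)` by two unipotent elements fixing different isotropic lines.
-/

set_option autoImplicit false

namespace Cfsg.Agent.SUTwoGen

open Cfsg.Agent.Classical.U

universe u

variable {F : Type u} [Field F] {q : ℕ}

/-- An isotropic pair and a unit vector orthogonal to it. -/
structure IsFrame (q : ℕ) (e w f : Fin 3 → F) : Prop where
  pair : IsUPair q e f
  we : herm q w e = 0
  wf : herm q w f = 0
  ww : herm q w w = 1

variable (hF : SqField F q)
include hF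

theorem exists_frame : ∃ e w f : Fin 3 → F, IsFrame q e w f := by
  obtain ⟨θ, k, hp, -⟩ := exists_std_pair hF 1
  obtain ⟨h1, h2, h3⟩ := std_third (n := 0) hF.q_ne_zero θ k hF
  exact ⟨_, _, _, hp, h1, h2, h3⟩

variable {e w f : Fin 3 → F} (h : IsFrame q e w f)
include h

theorem frame_symm : IsFrame q f w e := ⟨h.pair.symm hF, h.wf, h.we, h.ww⟩

theorem frame_vals : herm q e e = 0 ∧ herm q e w = 0 ∧ herm q e f = 1 ∧ herm q w e = 0 ∧
    herm q w w = 1 ∧ herm q w f = 0 ∧ herm q f e = 1 ∧ herm q f w = 0 ∧ herm q f f = 0 := by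
  refine ⟨h.pair.1, ?_, h.pair.2.2, h.we, h.ww, h.wf, (h.pair.symm hF).2.2, ?_, h.pair.2.1⟩
  · rw [← hF.herm_symm, h.we, zero_pow hF.q_ne_zero]
  · rw [← hF.herm_symm, h.wf, zero_pow hF.q_ne_zero]

theorem expand (z : Fin 3 → F) : z = herm q z f • e + herm q z w • w + herm q z e • f := by
  obtain ⟨ee, ew, ef, we, ww, wf, fe, fw, ff⟩ := frame_vals hF h
  have hli : LinearIndependent F ![e, w, f] := by
    rw [Fintype.linearIndependent_iff]
    intro g hg
    simp only [Fin.sum_univ_three, Matrix.cons_val_zero, Matrix.cons_val_one, Matrix.cons_val] at hg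
    have e1 := congrArg (herm q · f) hg
    have e2 := congrArg (herm q · w) hg
    have e3 := congrArg (herm q · e) hg
    simp [herm_add_left, herm_smul_left, herm_zero_left, ee, ew, ef, we, ww, wf, fe, fw, ff] at e1 e2 e3
    intro i; fin_cases i <;> assumption
  obtain ⟨c, hc⟩ := (Submodule.mem_span_range_iff_exists_fun F).1
    (show z ∈ Submodule.span F (Set.range ![e, w, f]) by
      rw [hli.span_eq_top_of_card_eq_finrank (by simp)]; exact Submodule.mem_top)
  simp only [Fin.sum_univ_three, Matrix.cons_val_zero, Matrix.cons_val_one, Matrix.cons_val] at hc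
  subst hc
  simp [herm_add_left, herm_smul_left, ee, ew, ef, we, ww, wf, fe, fw, ff]

/-- Coordinates of the image under a unipotent element fixing `e`. -/
theorem uni_coords {x a : F} (hc : UniCond q e (x • w) a) (E W Z : F) :
    (uni hF hc).1 (E • e + W • w + Z • f) =
      (E + a * Z - W * x ^ q) • e + (W + Z * x) • w + Z • f := by
  obtain ⟨ee, ew, ef, we, ww, wf, fe, fw, ff⟩ := frame_vals hF h
  rw [uni_apply]
  simp only [herm_add_left, herm_smul_left, herm_smul_right, ee, ew, ef, we, ww, wf, fe, fw, ff]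
  module

theorem cond_iff {x a : F} : UniCond q e (x • w) a ↔ a + a ^ q + x ^ (q + 1) = 0 := by
  simp [UniCond, h.pair.1, herm_smul_left, herm_smul_right, h.we, h.ww, pow_succ', mul_comm]

/-- A vector orthogonal to `e`, up to the line of `e`. -/
theorem perp_expand {z : Fin 3 → F} (hz : herm q z e = 0) :
    z = herm q z w • w + herm q z f • e := by
  conv_lhs => rw [expand hF h z, hz, zero_smul, add_zero, add_comm]

omit h in
theorem uni_shift {y : Fin 3 → F} {t a : F} (hc : UniCond q e (y + t • e) a)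
    (hc' : UniCond q e y (a + t - t ^ q)) : uni hF hc = uni hF hc' := by
  refine Subtype.ext (LinearEquiv.ext fun z => ?_)
  rw [uni_apply, uni_apply, hF.herm_add_right, herm_smul_right]
  module

/-- The unipotent group at `e`, in the parameters `x, a`. -/
theorem uni_param_mul {x y a b : F} (hx : UniCond q e (x • w) a) (hy : UniCond q e (y • w) b) :
    ∃ hxy : UniCond q e ((x + y) • w) (a + b - y * x ^ q),
      uni hF hx * uni hF hy = uni hF hxy := by
  have e1 : a + b - herm q (y • w) (x • w) = a + b - y * x ^ q := by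
    rw [herm_smul_left, herm_smul_right, h.ww, mul_one]
  have hh := uniCond_mul hF hx hy
  rw [← add_smul, e1] at hh
  exact ⟨hh, (uni_mul hF hx hy).trans (uni_congr hF _ _ rfl (add_smul x y w).symm e1)⟩

theorem uni_param_inv {x a : F} (hx : UniCond q e (x • w) a) :
    ∃ hx' : UniCond q e ((-x) • w) (a ^ q), (uni hF hx)⁻¹ = uni hF hx' := by
  have hx' : UniCond q e ((-x) • w) (a ^ q) := by
    rw [cond_iff hF h] at hx ⊢
    rw [hF.pow_pow, pow_succ, hF.neg_pow, neg_mul_neg, ← pow_succ]
    linear_combination hx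
  obtain ⟨hz, e1⟩ := uni_param_mul hF h hx hx'
  refine ⟨hx', inv_eq_of_mul_eq_one_right ?_⟩
  rw [e1, ← uni_zero hF h.pair.1]
  refine uni_congr hF _ _ rfl (by rw [add_neg_cancel, zero_smul]) ?_
  have := (cond_iff hF h).1 hx
  rw [pow_succ] at this
  linear_combination this

/-- Conjugation by an element fixing the line of `e`. -/
theorem conj_param {g : UG 3 F q} {lam : F} (hg : g.1 e = lam • e) {x a : F}
    (hx : UniCond q e (x • w) a) :
    ∃ (a' : F) (hx' : UniCond q e ((lam ^ q * herm q (g.1 w) w * x) • w) a'),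
      g * uni hF hx * g⁻¹ = uni hF hx' := by
  have hl : lam ≠ 0 := by
    rintro rfl
    rw [zero_smul, ← map_zero g.1] at hg
    exact h.pair.ne_zero (g.1.injective hg)
  have hperp : herm q (g.1 w) e = 0 := by
    have := UG_app g w e
    rw [h.we, hg, herm_smul_right, mul_eq_zero] at this
    exact this.resolve_left (pow_ne_zero _ hl)
  have hgx : g.1 (x • w) = (x * herm q (g.1 w) w) • w + (x * herm q (g.1 w) f) • e := by
    rw [map_smul]
    conv_lhs => rw [perp_expand hF h hperp, smul_add, smul_smul, smul_smul]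
  have hc1 : UniCond q (lam • e) (g.1 (x • w)) a := by
    rw [← hg]
    exact ⟨by rw [UG_app]; exact hx.1, by rw [UG_app]; exact hx.2.1, by rw [UG_app]; exact hx.2.2⟩
  have hc2 : UniCond q e (lam ^ q • g.1 (x • w)) (lam * lam ^ q * a) := by
    refine ⟨h.pair.1, ?_, ?_⟩
    · rw [herm_smul_left, map_smul, herm_smul_left, hperp, mul_zero, mul_zero]
    · rw [herm_smul_left, herm_smul_right, hF.pow_pow, mul_pow, mul_pow, hF.pow_pow]
      linear_combination lam * lam ^ q * hc1.2.2
  set t := lam ^ q * (x * herm q (g.1 w) f)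
  have e1 : lam ^ q • g.1 (x • w) = (lam ^ q * herm q (g.1 w) w * x) • w + t • e := by
    rw [hgx, smul_add, smul_smul, smul_smul]
    congr 2
    ring
  have hc3 : UniCond q e ((lam ^ q * herm q (g.1 w) w * x) • w + t • e) (lam * lam ^ q * a) :=
    e1 ▸ hc2
  have hc4 : UniCond q e ((lam ^ q * herm q (g.1 w) w * x) • w) (lam * lam ^ q * a + t - t ^ q) := by
    have := hc3.2.2
    obtain ⟨ee, ew, ef, we, ww, wf, fe, fw, ff⟩ := frame_vals hF h
    rw [cond_iff hF h]
    simp only [herm_add_left, hF.herm_add_right, herm_smul_left, herm_smul_right, ee, ew, we, ww] at this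
    rw [pow_succ', hF.sub_pow, hF.add_pow, hF.pow_pow]
    linear_combination this
  refine ⟨_, hc4, ?_⟩
  rw [uni_conj, uni_congr hF _ hc1 hg rfl rfl, uni_smul hF hc1 hc2,
    uni_congr hF _ hc3 rfl e1 rfl, uni_shift hF hc3 hc4]

omit h in
theorem exists_skew_split {d : F} (hd : d ^ q = -d) : ∃ z : F, z - z ^ q = d := by
  obtain ⟨d0, h0, h0q⟩ := hF.exists_skew
  obtain ⟨y, hy⟩ := hF.exists_trace (c := d / d0) (by rw [div_pow, hd, h0q, neg_div_neg_eq])
  refine ⟨d0 * y, ?_⟩
  rw [mul_pow, h0q, neg_mul, sub_neg_eq_add, ← mul_add, hy, mul_div_cancel₀ _ h0]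

/-- The whole unipotent group at `e` from one regular element and one element fixing the line. -/
theorem root_group_le (G : Subgroup (UG 3 F q)) {r c : F} (hr0 : r ≠ 0)
    (hr : UniCond q e (r • w) c) (hru : uni hF hr ∈ G) {g : UG 3 F q} {lam : F} (hg : g.1 e = lam • e)
    (hgG : g ∈ G) (hgen : ∀ K : Subfield F, lam ^ q * herm q (g.1 w) w ∈ K → K = ⊤) :
    ∀ (x a : F) (hx : UniCond q e (x • w) a), uni hF hx ∈ G := by
  obtain ⟨hfin, -⟩ := id hF
  set mu := lam ^ q * herm q (g.1 w) w
  let A : AddSubgroup F :=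
    { carrier := {y | ∃ (a : F) (hy : UniCond q e ((r * y) • w) a), uni hF hy ∈ G}
      zero_mem' := ⟨0, by rw [mul_zero, zero_smul]; exact uniCond_zero hF h.pair.1, by
        rw [uni_congr hF _ (uniCond_zero hF h.pair.1) rfl (by rw [mul_zero, zero_smul]) rfl, uni_zero hF h.pair.1]
        exact one_mem _⟩
      add_mem' := by
        rintro x y ⟨a, hx, hxG⟩ ⟨b, hy, hyG⟩
        obtain ⟨hxy, e1⟩ := uni_param_mul hF h hx hy
        refine ⟨_, (by rw [mul_add]; exact hxy), ?_⟩
        have := G.mul_mem hxG hyG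
        rw [e1] at this
        convert this using 1
        exact uni_congr hF _ _ rfl (by rw [mul_add]) rfl
      neg_mem' := by
        rintro x ⟨a, hx, hxG⟩
        obtain ⟨hx', e1⟩ := uni_param_inv hF h hx
        refine ⟨_, (by rw [mul_neg]; exact hx'), ?_⟩
        have := G.inv_mem hxG
        rw [e1] at this
        convert this using 1
        exact uni_congr hF _ _ rfl (by rw [mul_neg]) rfl }
  have hmu : ∀ y ∈ A, mu * y ∈ A := by
    rintro y ⟨a, hy, hyG⟩
    obtain ⟨a', hy', e1⟩ := conj_param hF h hg hy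
    refine ⟨a', (by rwa [show r * (mu * y) = mu * (r * y) by ring]), ?_⟩
    have := G.mul_mem (G.mul_mem hgG hyG) (G.inv_mem hgG)
    rw [e1] at this
    convert this using 1
    exact uni_congr hF _ _ rfl (by rw [show r * (mu * y) = mu * (r * y) by ring]) rfl
  have h1 : (1 : F) ∈ A := ⟨c, by rw [mul_one]; exact hr, by
    convert hru using 1; exact uni_congr hF _ _ rfl (by rw [mul_one]) rfl⟩
  let R : Subring F :=
    { carrier := {z | ∀ y ∈ A, z * y ∈ A}
      one_mem' := fun y hy => by rwa [one_mul]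
      mul_mem' := fun {a b} ha hb y hy => by rw [mul_assoc]; exact ha _ (hb y hy)
      zero_mem' := fun y _ => by rw [zero_mul]; exact A.zero_mem
      add_mem' := fun {a b} ha hb y hy => by rw [add_mul]; exact A.add_mem (ha y hy) (hb y hy)
      neg_mem' := fun {a} ha y hy => by rw [neg_mul]; exact A.neg_mem (ha y hy) }
  let K : Subfield F :=
    { R with
      inv_mem' := fun x hx => by
        rcases eq_or_ne x 0 with rfl | hx0
        · simpa using R.zero_mem
        obtain ⟨n, hn, hxn⟩ : ∃ n, 0 < n ∧ x ^ n = 1 := by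
          have : Finite Fˣ := inferInstance
          exact ⟨orderOf (Units.mk0 x hx0), orderOf_pos _,
            (Units.val_pow_eq_pow_val (Units.mk0 x hx0) _).symm.trans
              (congrArg Units.val (pow_orderOf_eq_one _))⟩
        have : x⁻¹ = x ^ (n - 1) := inv_eq_of_mul_eq_one_right (by
          rw [← pow_succ', Nat.sub_add_cancel hn, hxn])
        show x⁻¹ ∈ R
        rw [this]
        exact R.pow_mem hx _ }
  have hK : K = ⊤ := hgen K hmu
  have hall : ∀ x : F, ∃ (a : F) (hx : UniCond q e (x • w) a), uni hF hx ∈ G := by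
    intro x
    have h2 : x / r ∈ A := by
      have := (show x / r ∈ K by rw [hK]; trivial) 1 h1
      rwa [mul_one] at this
    obtain ⟨a, ha, haG⟩ := h2
    have e1 : r * (x / r) = x := by field_simp
    exact ⟨a, by rwa [e1] at ha, by
      convert haG using 1; exact uni_congr hF _ _ rfl (by rw [e1]) rfl⟩
  have hcen : ∀ (d : F) (hd : UniCond q e ((0 : F) • w) d), uni hF hd ∈ G := by
    intro d hd
    have hd' : d ^ q = -d := by
      have := (cond_iff hF h).1 hd
      rw [zero_pow (by omega)] at this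
      linear_combination this
    obtain ⟨z, hz⟩ := exists_skew_split hF hd'
    obtain ⟨a, ha, haG⟩ := hall z
    obtain ⟨b, hb, hbG⟩ := hall 1
    obtain ⟨h3, e3⟩ := uni_param_mul hF h ha hb
    obtain ⟨h4, e4⟩ := uni_param_mul hF h hb ha
    obtain ⟨h5, e5⟩ := uni_param_inv hF h h4
    obtain ⟨h6, e6⟩ := uni_param_mul hF h h3 h5
    have := G.mul_mem (G.mul_mem haG hbG) (G.inv_mem (G.mul_mem hbG haG))
    rw [e3, e4, e5, e6] at this
    convert this using 1
    refine uni_congr hF _ _ rfl (by congr 1; ring) ?_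
    have c4 := (cond_iff hF h).1 h4
    rw [pow_succ] at c4
    simp only [hF.add_pow, one_pow] at c4 ⊢
    linear_combination (-1 : F) * hz - c4
  intro x a hx
  obtain ⟨b, hb, hbG⟩ := hall x
  have hd : UniCond q e ((0 : F) • w) (a - b) := by
    rw [cond_iff hF h] at hx hb ⊢
    rw [hF.sub_pow, zero_pow (by omega)]
    linear_combination hx - hb
  obtain ⟨h6, e6⟩ := uni_param_mul hF h hd hb
  have := G.mul_mem (hcen _ hd) hbG
  rw [e6] at this
  convert this using 1
  exact uni_congr hF _ _ rfl (by rw [zero_add]) (by rw [zero_pow hF.q_ne_zero]; ring)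

/-- A subgroup containing the unipotent group at `e` and moving the line of `e` contains `TG`. -/
theorem TG_le_of_root_group (G : Subgroup (UG 3 F q))
    (hU : ∀ (x a : F) (hx : UniCond q e (x • w) a), uni hF hx ∈ G)
    {g : UG 3 F q} (hgG : g ∈ G) (hg : herm q (g.1 e) e ≠ 0) : TG 3 F q ≤ G := by
  obtain ⟨ee, ew, ef, we, ww, wf, fe, fw, ff⟩ := frame_vals hF h
  have toF : ∀ z : Fin 3 → F, herm q z z = 0 → herm q z e ≠ 0 → ∃ t ∈ G, ∃ c : F, z = c • t.1 f := by
    intro z hz hze
    set Z := herm q z e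
    set z' := Z⁻¹ • z
    have hz' : herm q z' z' = 0 := by rw [herm_smul_left, herm_smul_right, hz, mul_zero, mul_zero]
    have hz'e : herm q z' e = 1 := by rw [herm_smul_left]; exact inv_mul_cancel₀ hze
    have hx : UniCond q e (herm q z' w • w) (herm q z' f) := by
      rw [cond_iff hF h]
      rw [expand hF h z'] at hz'
      simp only [herm_add_left, hF.herm_add_right, herm_smul_left, herm_smul_right, ee, ew, ef, we, ww,
        wf, fe, fw, ff, hz'e, one_pow] at hz'
      rw [pow_succ']
      linear_combination hz'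
    refine ⟨uni hF hx, hU _ _ hx, Z, ?_⟩
    have := uni_coords hF h hx 0 0 1
    simp only [zero_smul, zero_add, one_smul, mul_one, one_mul, zero_mul, sub_zero] at this
    rw [this]
    have h2 := expand hF h z'
    rw [hz'e, one_smul] at h2
    rw [← h2, smul_smul, mul_inv_cancel₀ hze, one_smul]
  have he : ∀ d : F, ∀ hd : TrvCond q e d, trv hF hd ∈ G := by
    intro d hd
    have hd0 : UniCond q e ((0 : F) • w) d := by rw [zero_smul]; exact hd.uniCond hF
    convert hU 0 d hd0 using 1
    exact uni_congr hF _ _ rfl (zero_smul F w).symm rfl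
  obtain ⟨t, ht, c, hc⟩ := toF (g.1 e) (by rw [UG_app]; exact ee) hg
  have hc0 : c ≠ 0 := by
    rintro rfl
    rw [hc, zero_smul, herm_zero_left] at hg
    exact hg rfl
  -- conjugates of the transvection group at `e`
  have conjmove : ∀ (k : UG 3 F q), k ∈ G → ∀ (z : Fin 3 → F) (s : F), s • k.1 e = z →
      ∀ (d : F) (hd : TrvCond q z d), trv hF hd ∈ G := by
    intro k hk z s hs d hd
    subst hs
    rcases eq_or_ne s 0 with rfl | hs0
    · convert one_mem G
      ext x i
      simp [trv_apply, hF.herm_zero_right]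
    have hd2 : TrvCond q e (s * s ^ q * d) := ⟨ee, by
      rw [mul_pow, mul_pow, hF.pow_pow, hd.2]; ring⟩
    have hd3 : TrvCond q (k.1 e) (s * s ^ q * d) := ⟨by rw [UG_app]; exact ee, hd2.2⟩
    have := G.mul_mem (G.mul_mem hk (he _ hd2)) (G.inv_mem hk)
    convert this using 1
    rw [trv, trv, uni_conj, uni_smul hF (hd.uniCond hF) (by
      rw [smul_zero]; exact hd3.uniCond hF)]
    exact uni_congr hF _ _ rfl (by rw [smul_zero, map_zero]) rfl
  rw [TG, Subgroup.closure_le]
  rintro x ⟨z, d, hd, hx⟩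
  rw [mem_TG_generator hF hd hx]
  by_cases hze : herm q z e = 0
  · refine conjmove 1 (one_mem _) z (herm q z f) ?_ d hd
    have hzw : herm q z w = 0 := by
      have h1 := hd.1
      rw [perp_expand hF h hze] at h1
      simp only [herm_add_left, hF.herm_add_right, herm_smul_left, herm_smul_right, ee, ew, we, ww,
        mul_zero, mul_one, add_zero] at h1
      rcases mul_eq_zero.1 h1 with h1 | h1
      · exact (pow_eq_zero_iff hF.q_ne_zero).1 h1
      · exact h1
    conv_rhs => rw [perp_expand hF h hze, hzw, zero_smul, zero_add]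
    rfl
  · obtain ⟨t', ht', c', hc'⟩ := toF z hd.1 hze
    refine conjmove (t' * t⁻¹ * g) (G.mul_mem (G.mul_mem ht' (G.inv_mem ht)) hgG) z (c' / c) ?_ d hd
    rw [hc', Subgroup.coe_mul, LinearEquiv.mul_apply, hc, map_smul, smul_smul, Subgroup.coe_mul,
      LinearEquiv.mul_apply, div_mul_cancel₀ _ hc0]
    simp

end Cfsg.Agent.SUTwoGen
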