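import Cfsg.Agent.SUTwoGen.Exc
import Cfsg.Agent.SUTwoGen.Endgame

/-!
`SU_5(q)` by three conjugate regular unipotent elements: the group generated by a regular unipotent `u` and
a unipotent of the middle `SU_3` contains the radical at the fixed point of `u`.
-/

set_option autoImplicit false
set_option maxHeartbeats 1000000

namespace Cfsg.Agent.SUTwoGen

open Cfsg.Agent.Classical.U

universe u

variable {F : Type u} [Field F] {q : ℕ}

/-- The inclusion of the last three coordinates. -/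
def emb : (Fin 3 → F) →ₗ[F] (Fin 5 → F) where
  toFun y := Fin.cons 0 (Fin.cons 0 y)
  map_add' x y := by
    ext i; refine Fin.cases ?_ (fun j => ?_) i
    · simp
    · refine Fin.cases ?_ (fun l => ?_) j <;> simp
  map_smul' c y := by
    ext i; refine Fin.cases ?_ (fun j => ?_) i
    · simp
    · refine Fin.cases ?_ (fun l => ?_) j <;> simp

theorem emb_apply (y : Fin 3 → F) : emb y = Fin.cons 0 (Fin.cons 0 y) := rfl

theorem emb_eq_zero {y : Fin 3 → F} (hy : emb y = 0) : y = 0 := by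
  ext i
  simpa [emb_apply] using congrFun hy i.succ.succ

/-- The first two coordinates. -/
def two (a b : F) : Fin 5 → F := Fin.cons a (Fin.cons b 0)

/-- The middle `SU_3`. -/
noncomputable def lift5 (F : Type u) [Field F] (q : ℕ) : UG 3 F q →* UG 5 F q :=
  (tailLift 4 F q).comp (tailLift 3 F q)

theorem lift5_apply (k : UG 3 F q) (v : Fin 5 → F) :
    (lift5 F q k).1 v = Fin.cons (v 0) (Fin.cons (v 1) (k.1 (Fin.tail (Fin.tail v)))) := by
  rw [lift5, MonoidHom.comp_apply, tailLift_apply, tailLift_apply]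
  rfl

theorem lift5_emb (k : UG 3 F q) (y : Fin 3 → F) : (lift5 F q k).1 (emb y) = emb (k.1 y) := by
  rw [lift5_apply]; simp [emb_apply]

theorem lift5_two (k : UG 3 F q) (a b : F) : (lift5 F q k).1 (two a b) = two a b := by
  rw [lift5_apply]; simp [two]

theorem lift5_mem_SUG {k : UG 3 F q} (hk : k ∈ SUG 3 F q) : lift5 F q k ∈ SUG 5 F q :=
  tailLift_mem_SUG.2 (tailLift_mem_SUG.2 hk)

variable (hF : SqField F q)
include hF

theorem herm_cons2 (a b c d : F) (x y : Fin 3 → F) :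
    herm q (Fin.cons a (Fin.cons b x) : Fin 5 → F) (Fin.cons c (Fin.cons d y)) =
      a * c ^ q + (b * d ^ q + herm q x y) := by
  rw [herm_succ, Fin.cons_zero, Fin.cons_zero, Fin.tail_cons, Fin.tail_cons, herm_succ, Fin.cons_zero,
    Fin.cons_zero, Fin.tail_cons, Fin.tail_cons]

theorem herm_emb (x y : Fin 3 → F) : herm q (emb x) (emb y) = herm q x y := by
  simp [emb_apply, herm_cons2 hF, hF.q_ne_zero]

theorem herm_emb_two (x : Fin 3 → F) (a b : F) :
    herm q (emb x) (two a b) = 0 ∧ herm q (two a b) (emb x) = 0 := by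
  constructor <;> simp [emb_apply, two, herm_cons2 hF, hF.q_ne_zero, herm_zero_left, hF.herm_zero_right]

theorem lift5_uni {e x : Fin 3 → F} {a : F} (hc : UniCond q e x a) :
    ∃ hc' : UniCond q (emb e) (emb x) a, lift5 F q (uni hF hc) = uni hF hc' := by
  have hc' : UniCond q (emb e) (emb x) a :=
    ⟨by rw [herm_emb hF]; exact hc.1, by rw [herm_emb hF]; exact hc.2.1, by rw [herm_emb hF]; exact hc.2.2⟩
  refine ⟨hc', Subtype.ext (LinearEquiv.ext fun v => ?_)⟩
  rw [lift5_apply, uni_apply, uni_apply]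
  ext i
  refine Fin.cases ?_ (fun j => ?_) i
  · simp [emb_apply]
  · have hh : ∀ y : Fin 3 → F, herm q v (emb y) = herm q (Fin.tail (Fin.tail v)) y := fun y => by
      rw [emb_apply, herm_succ, Fin.cons_zero, Fin.tail_cons, herm_succ, Fin.cons_zero, Fin.tail_cons]
      simp [hF.q_ne_zero]
    refine Fin.cases ?_ (fun l => ?_) j <;> simp [emb_apply, uni_apply, hh, Fin.tail] <;> simp [← emb_apply, hh]

/-- The isotropic pair in the first two coordinates. -/
structure IsTop (q : ℕ) (E1 F1 : Fin 5 → F) : Prop where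
  pair : IsUPair q E1 F1
  ex : ∃ θ k : F, θ ^ (q + 1) = -1 ∧ E1 = two 1 θ ∧ F1 = two (1 + k) (k * θ)

theorem exists_top : ∃ E1 F1 : Fin 5 → F, IsTop q E1 F1 := by
  obtain ⟨θ, k, hp, -⟩ := exists_std_pair hF 3
  have e1 : (Pi.single 0 1 + θ • Pi.single 1 1 : Fin 5 → F) = two 1 θ := by
    ext i; fin_cases i <;> simp [two] <;> rfl
  have f1 : (Pi.single 0 1 + k • (Pi.single 0 1 + θ • Pi.single 1 1) : Fin 5 → F) =
      two (1 + k) (k * θ) := by
    ext i; fin_cases i <;> simp [two] <;> rfl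
  rw [f1, e1] at hp
  have h0 := hp.1
  refine ⟨_, _, hp, θ, k, ?_, rfl, rfl⟩
  simp [two, herm_cons2 hF, hF.herm_zero_right] at h0
  rw [pow_succ']
  linear_combination h0

variable {E1 F1 : Fin 5 → F} (ht : IsTop q E1 F1)
include ht

theorem top_emb (y : Fin 3 → F) : herm q (emb y) E1 = 0 ∧ herm q E1 (emb y) = 0 ∧
    herm q (emb y) F1 = 0 ∧ herm q F1 (emb y) = 0 := by
  obtain ⟨θ, k, -, rfl, rfl⟩ := ht.ex
  exact ⟨(herm_emb_two hF y _ _).1, (herm_emb_two hF y _ _).2, (herm_emb_two hF y _ _).1,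
    (herm_emb_two hF y _ _).2⟩

theorem lift5_top (k : UG 3 F q) : (lift5 F q k).1 E1 = E1 ∧ (lift5 F q k).1 F1 = F1 := by
  obtain ⟨θ, c, -, rfl, rfl⟩ := ht.ex
  exact ⟨lift5_two k _ _, lift5_two k _ _⟩

theorem perp_decomp {x : Fin 5 → F} (hx : herm q x E1 = 0) :
    ∃ (y : Fin 3 → F) (t : F), x = emb y + t • E1 := by
  obtain ⟨θ, k, hθ, rfl, -⟩ := ht.ex
  have hθ0 : θ ≠ 0 := by rintro rfl; simp at hθ
  refine ⟨Fin.tail (Fin.tail x), x 1 / θ, ?_⟩
  rw [two, herm_succ, Fin.cons_zero, Fin.tail_cons, herm_succ, Fin.cons_zero, Fin.tail_cons,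
    hF.herm_zero_right] at hx
  simp [Fin.tail] at hx
  ext i
  refine Fin.cases ?_ (fun j => ?_) i
  · simp [emb_apply, two]
    rw [eq_div_iff hθ0]
    rw [pow_succ'] at hθ
    linear_combination θ * hx - x 1 * hθ
  · refine Fin.cases ?_ (fun l => ?_) j <;>
      simp [emb_apply, two, Fin.tail, hθ0]

theorem rad_cond {y : Fin 3 → F} {a : F} :
    UniCond q E1 (emb y) a ↔ a + a ^ q + herm q y y = 0 := by
  simp [UniCond, ht.pair.1, (top_emb hF ht y).1, herm_emb hF]

theorem exists_rad (y : Fin 3 → F) : ∃ a : F, UniCond q E1 (emb y) a := by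
  obtain ⟨a, ha⟩ := hF.exists_trace (c := -herm q y y) (by rw [hF.neg_pow, hF.herm_symm])
  exact ⟨a, (rad_cond hF ht).2 (by rw [ha, neg_add_cancel])⟩

theorem rad_mul {y z : Fin 3 → F} {a b : F} (hy : UniCond q E1 (emb y) a) (hz : UniCond q E1 (emb z) b) :
    ∃ h' : UniCond q E1 (emb (y + z)) (a + b - herm q z y), uni hF hy * uni hF hz = uni hF h' := by
  have hh := uniCond_mul hF hy hz
  rw [← map_add, herm_emb hF] at hh
  exact ⟨hh, (uni_mul hF hy hz).trans (uni_congr hF _ _ rfl (map_add _ _ _).symm (by rw [herm_emb hF]))⟩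

theorem rad_inv {y : Fin 3 → F} {a : F} (hy : UniCond q E1 (emb y) a) :
    ∃ h' : UniCond q E1 (emb (-y)) (a ^ q), (uni hF hy)⁻¹ = uni hF h' := by
  have h' : UniCond q E1 (emb (-y)) (a ^ q) := by
    have := (rad_cond hF ht).1 hy
    rw [rad_cond hF ht, hF.pow_pow, herm_neg_left, hF.herm_neg_right, neg_neg]
    linear_combination this
  obtain ⟨h2, e2⟩ := rad_mul hF ht hy h'
  refine ⟨h', inv_eq_of_mul_eq_one_right ?_⟩
  rw [e2, ← uni_zero hF ht.pair.1]
  refine uni_congr hF _ _ rfl (by rw [add_neg_cancel, map_zero]) ?_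
  have := (rad_cond hF ht).1 hy
  rw [herm_neg_left]
  linear_combination this

theorem rad_conj (k : UG 3 F q) {y : Fin 3 → F} {a : F} (hy : UniCond q E1 (emb y) a) :
    ∃ h' : UniCond q E1 (emb (k.1 y)) a, lift5 F q k * uni hF hy * (lift5 F q k)⁻¹ = uni hF h' := by
  have h' : UniCond q E1 (emb (k.1 y)) a := by
    rw [rad_cond hF ht, UG_app]; exact (rad_cond hF ht).1 hy
  refine ⟨h', ?_⟩
  rw [uni_conj]
  exact uni_congr hF _ _ (lift5_top hF ht k).1 (lift5_emb k y) rfl

omit hF ht in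
/-- `k` has a lift in `G` through the radical at `E1`, with translation part `y`. -/
def HasLift (hF : SqField F q) (G : Subgroup (UG 5 F q)) (E1 : Fin 5 → F) (k : UG 3 F q) (y : Fin 3 → F) :
    Prop :=
  ∃ (a : F) (hy : UniCond q E1 (emb y) a), uni hF hy * lift5 F q k ∈ G

variable {G : Subgroup (UG 5 F q)}

theorem HasLift.mul {k l : UG 3 F q} {y z : Fin 3 → F} (h1 : HasLift hF G E1 k y)
    (h2 : HasLift hF G E1 l z) : HasLift hF G E1 (k * l) (y + k.1 z) := by
  obtain ⟨a, hy, h1⟩ := h1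
  obtain ⟨b, hz, h2⟩ := h2
  obtain ⟨hz', e1⟩ := rad_conj hF ht k hz
  obtain ⟨h3, e2⟩ := rad_mul hF ht hy hz'
  refine ⟨_, h3, ?_⟩
  rw [← e2, map_mul, ← e1]
  simpa [mul_assoc] using G.mul_mem h1 h2

theorem HasLift.inv {k : UG 3 F q} {y : Fin 3 → F} (h1 : HasLift hF G E1 k y) :
    HasLift hF G E1 k⁻¹ (-(k⁻¹ : UG 3 F q).1 y) := by
  obtain ⟨a, hy, h1⟩ := h1
  obtain ⟨hy', e1⟩ := rad_inv hF ht hy
  obtain ⟨hy'', e2⟩ := rad_conj hF ht k⁻¹ hy'
  refine ⟨_, (by rw [← map_neg]; exact hy''), ?_⟩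
  have := G.inv_mem h1
  rw [mul_inv_rev, e1, ← map_inv] at this
  convert this using 1
  rw [uni_congr hF _ hy'' rfl (by rw [map_neg (k⁻¹ : UG 3 F q).1]) rfl, ← e2]
  simp [mul_assoc]

theorem HasLift.one : HasLift hF G E1 1 0 := by
  refine ⟨0, by rw [map_zero]; exact uniCond_zero hF ht.pair.1, ?_⟩
  rw [uni_congr hF _ (uniCond_zero hF ht.pair.1) rfl (map_zero _) rfl, uni_zero hF ht.pair.1, map_one, one_mul]
  exact G.one_mem

/-- The translations in `G`. -/
def modM (G : Subgroup (UG 5 F q)) : AddSubgroup (Fin 3 → F) where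
  carrier := {y | HasLift hF G E1 1 y}
  zero_mem' := HasLift.one hF ht
  add_mem' {x y} hx hy := by
    have := HasLift.mul hF ht hx hy
    simpa using this
  neg_mem' {x} hx := by
    have := HasLift.inv hF ht hx
    simpa using this

theorem modM_stable {k : UG 3 F q} {y z : Fin 3 → F} (hk : HasLift hF G E1 k y)
    (hz : z ∈ modM hF ht G) : k.1 z ∈ modM hF ht G := by
  have := HasLift.mul hF ht (HasLift.mul hF ht hk hz) (HasLift.inv hF ht hk)
  simp at this
  exact this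

theorem exists_lift {U V : UG 3 F q} {yU yV : Fin 3 → F} (hU : HasLift hF G E1 U yU)
    (hV : HasLift hF G E1 V yV) {k : UG 3 F q} (hk : k ∈ Subgroup.closure {U, V}) :
    ∃ y, HasLift hF G E1 k y := by
  induction hk using Subgroup.closure_induction with
  | mem x hx => rcases hx with rfl | rfl <;> [exact ⟨_, hU⟩; exact ⟨_, hV⟩]
  | one => exact ⟨_, HasLift.one hF ht⟩
  | mul x y _ _ hx hy => exact ⟨_, HasLift.mul hF ht hx.choose_spec hy.choose_spec⟩
  | inv x _ hx => exact ⟨_, HasLift.inv hF ht hx.choose_spec⟩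

variable {e w f : Fin 3 → F} (h : IsFrame q e w f)
include h

/-- Some translation lies in `G`. -/
theorem exists_modM_ne_zero {r c : F} (hc : UniCond q e (r • w) c)
    (hU : HasLift hF G E1 (uni hF hc) (-f)) {hh : UG 3 F q} {yh : Fin 3 → F}
    (hhl : HasLift hF G E1 hh yh) (hfpf : ∀ y : Fin 3 → F, hh.1 y = y → y = 0) {d : F} (hd : TrvCond q e d)
    (hd0 : d ≠ 0) {yt : Fin 3 → F} (htl : HasLift hF G E1 (trv hF hd) yt)
    (hcomm : hh * trv hF hd = trv hF hd * hh) : ∃ y ∈ modM hF ht G, y ≠ 0 := by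
  by_contra hcon
  push Not at hcon
  have uniq : ∀ (k : UG 3 F q) (y z : Fin 3 → F), HasLift hF G E1 k y → HasLift hF G E1 k z → y = z := by
    intro k y z hy hz
    have := HasLift.mul hF ht hy (HasLift.inv hF ht hz)
    rw [mul_inv_cancel] at this
    have := hcon _ this
    simpa [sub_eq_zero, ← sub_eq_add_neg] using this
  set T := trv hF hd
  set U := uni hF hc
  have hUT : U * T = T * U := by
    have h0 : UniCond q e ((0 : F) • w) d := by rw [zero_smul]; exact hd.uniCond hF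
    have eT : T = uni hF h0 := uni_congr hF _ _ rfl (zero_smul F w).symm rfl
    obtain ⟨p1, e1⟩ := uni_param_mul hF h hc h0
    obtain ⟨p2, e2⟩ := uni_param_mul hF h h0 hc
    rw [eT, e1, e2]
    exact uni_congr hF _ _ rfl (by rw [add_comm]) (by rw [zero_mul, zero_pow hF.q_ne_zero, mul_zero]; ring)
  have k1 : yh + hh.1 yt = yt + T.1 yh :=
    uniq _ _ _ (HasLift.mul hF ht hhl htl) (hcomm ▸ HasLift.mul hF ht htl hhl)
  have k2 : -f + U.1 yt = yt + T.1 (-f) :=
    uniq _ _ _ (HasLift.mul hF ht hU htl) (hUT ▸ HasLift.mul hF ht htl hU)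
  have hinj : Function.Injective (hh.1.toLinearMap - LinearMap.id : (Fin 3 → F) →ₗ[F] (Fin 3 → F)) := by
    rw [← LinearMap.ker_eq_bot, LinearMap.ker_eq_bot']
    intro y hy
    exact hfpf y (sub_eq_zero.1 hy)
  obtain ⟨ξ, hξ⟩ := LinearMap.injective_iff_surjective.1 hinj yh
  simp at hξ
  have hyt : yt = T.1 ξ - ξ := by
    have hc' : hh.1 (T.1 ξ) = T.1 (hh.1 ξ) := congrArg (fun z : UG 3 F q => z.1 ξ) hcomm
    apply sub_eq_zero.1
    apply hfpf
    rw [map_sub, map_sub, hc']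
    rw [← hξ, map_sub] at k1
    linear_combination (norm := module) k1
  have hη : T.1 (-f - (U.1 ξ - ξ)) = -f - (U.1 ξ - ξ) := by
    have hc' : U.1 (T.1 ξ) = T.1 (U.1 ξ) := congrArg (fun z : UG 3 F q => z.1 ξ) hUT
    rw [hyt, map_sub, hc'] at k2
    rw [map_sub, map_sub]
    linear_combination (norm := module) (-1 : F) • k2
  rw [show T.1 (-f - (U.1 ξ - ξ)) = _ from trv_apply hF hd _, add_eq_left] at hη
  obtain ⟨ee, ew, ef, we, ww, wf, fe, fw, ff⟩ := frame_vals hF h
  have hUe : U.1 e = e := by rw [uni_apply, ee, herm_smul_right, ew]; simp [hF.q_ne_zero]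
  have hz : herm q (U.1 ξ - ξ) e = 0 := by
    conv_lhs => rw [herm_sub_left]; arg 1; rw [← hUe]
    rw [UG_app, sub_self]
  have h2 : d * herm q (-f - (U.1 ξ - ξ)) e = 0 := (smul_eq_zero.1 hη).resolve_right h.pair.ne_zero
  rw [herm_sub_left, hz, herm_neg_left, fe] at h2
  simp [hd0] at h2

end Cfsg.Agent.SUTwoGen
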