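import Cfsg.Agent.SUTwoGen.Gen

/-!
An element of the generated group fixing the line of `e` without fixed vectors.
-/

set_option autoImplicit false

namespace Cfsg.Agent.SUTwoGen

open Cfsg.Agent.Classical.U

universe u

variable {F : Type u} [Field F] {q : ℕ} (hF : SqField F q) {e w f : Fin 3 → F} (h : IsFrame q e w f)
include hF h

theorem exists_turn : ∃ (b r c k : F) (hv : UniCond q f ((1 : F) • w) b) (hu : UniCond q e (r • w) c)
    (g : UG 3 F q), r ^ q = r ∧ r ≠ 0 ∧ g ∈ Subgroup.closure {uni hF hu, uni hF hv} ∧ g ∈ SUG 3 F q ∧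
      g.1 e = k • e ∧ herm q (g.1 w) w * k ^ 2 = 1 ∧ k ^ (q + 1) = 1 ∧ k ≠ 1 ∧ k ^ 2 ≠ 1 := by
  have hq := hF.one_lt
  obtain ⟨hfin, hcard⟩ := id hF
  obtain ⟨γ, hγ⟩ := IsCyclic.exists_generator (α := Fˣ)
  have hord : orderOf γ = (q - 1) * (q + 1) := by
    rw [orderOf_eq_card_of_forall_mem_zpowers hγ, hF.card_units]
  set g0 : F := (γ : F)
  have hg0 : g0 ≠ 0 := γ.ne_zero
  have hT : g0 + g0 ^ q ≠ 0 := by
    intro hh
    have h1 : g0 ^ q = -g0 := by linear_combination hh
    have h2 : g0 ^ (2 * (q - 1)) = 1 := by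
      have h3 : g0 ^ (q - 1) * g0 = -g0 := by rw [← pow_succ, Nat.sub_add_cancel (by omega)]; exact h1
      have h4 : g0 ^ (q - 1) = -1 := mul_right_cancel₀ hg0 (by rw [h3, neg_one_mul])
      rw [mul_comm, pow_mul, h4]; ring
    have h3 : orderOf γ ∣ 2 * (q - 1) := orderOf_dvd_of_pow_eq_one (Units.ext (by simpa using h2))
    have h4 := Nat.le_of_dvd (by omega) h3
    rw [hord] at h4
    have : (q - 1) * 2 < (q - 1) * (q + 1) := Nat.mul_lt_mul_of_pos_left (by omega) (by omega)
    omega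
  set T := g0 + g0 ^ q
  have hTq : T ^ q = T := hF.trace_fixed g0
  set b := -g0 / T
  have hb0 : b ≠ 0 := div_ne_zero (neg_ne_zero.2 hg0) hT
  set b' := b ^ q with hb'def
  have hb'0 : b' ≠ 0 := pow_ne_zero _ hb0
  have hbb : b' = -1 - b := by
    simp only [hb'def, b, div_pow, hF.neg_pow, hTq]
    field_simp
    ring
  have hbq : b' ^ q = b := hF.pow_pow b
  set k := b / b'
  have hk0 : k ≠ 0 := div_ne_zero hb0 hb'0
  set r := 1 / (b * b')
  have hr : r ^ q = r := by
    simp only [r, div_pow, one_pow, mul_pow, hbq, ← hb'def]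
    rw [mul_comm]
  have hr0 : r ≠ 0 := one_div_ne_zero (mul_ne_zero hb0 hb'0)
  set c := (k - 1 + r) / b
  have hv : UniCond q f ((1 : F) • w) b := by
    rw [cond_iff' hF h, one_pow, ← hb'def, hbb]; ring
  have hu : UniCond q e (r • w) c := by
    have hkq : k ^ q = b' / b := by rw [div_pow, hbq]
    rw [cond_iff hF h, pow_succ, hr]
    simp only [c, div_pow, hF.add_pow, hF.sub_pow, one_pow, hr, hkq, ← hb'def]
    simp only [r, k]
    field_simp
    rw [hbb]
    ring
  set G : Subgroup (UG 3 F q) := Subgroup.closure {uni hF hu, uni hF hv}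
  set g := uni hF hv * uni hF hu * uni hF hv
  have hgG : g ∈ G := mul_mem (mul_mem (Subgroup.subset_closure (Or.inr rfl))
    (Subgroup.subset_closure (Or.inl rfl))) (Subgroup.subset_closure (Or.inr rfl))
  have hge : g.1 e = k • e := by
    simp only [g, Subgroup.coe_mul, LinearEquiv.mul_apply]
    refine (congrArg (fun z => (uni hF hv).1 ((uni hF hu).1 ((uni hF hv).1 z)))
      (show e = (1 : F) • e + (0 : F) • w + (0 : F) • f by simp)).trans ?_
    rw [uni_coords' hF h hv, uni_coords hF h hu, uni_coords' hF h hv, hr, one_pow]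
    simp only [c, r, k]
    match_scalars <;> field_simp <;> rw [hbb] <;> ring
  obtain ⟨ee, ew, ef, we, ww, wf, fe, fw, ff⟩ := frame_vals hF h
  have hnu : herm q (g.1 w) w = (b' / b) ^ 2 := by
    simp only [g, Subgroup.coe_mul, LinearEquiv.mul_apply]
    refine (congrArg (fun z => herm q ((uni hF hv).1 ((uni hF hu).1 ((uni hF hv).1 z))) w)
      (show w = (0 : F) • e + (1 : F) • w + (0 : F) • f by simp)).trans ?_
    rw [uni_coords' hF h hv, uni_coords hF h hu, uni_coords' hF h hv, hr, one_pow]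
    simp only [herm_add_left, herm_smul_left, ew, ww, fw, c, r, k]
    field_simp
    rw [hbb]
    ring
  have hkq : k ^ q = b' / b := by rw [div_pow, hbq]
  have hk2 : k ^ 2 ≠ 1 := by
    intro hk2
    have e1 : g0 ^ (2 * (q - 1)) = 1 := by
      have e2 : g0 ^ (q - 1) = b' / b := by
        simp only [hb'def, b, div_pow, hF.neg_pow, hTq]
        field_simp
        rw [← pow_succ, Nat.sub_add_cancel (by omega)]
      rw [mul_comm, pow_mul, e2]
      have e3 : (b' / b) ^ 2 * k ^ 2 = 1 := by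
        simp only [k]
        field_simp
      rwa [hk2, mul_one] at e3
    have h3 : orderOf γ ∣ 2 * (q - 1) := orderOf_dvd_of_pow_eq_one (Units.ext (by simpa using e1))
    have h4 := Nat.le_of_dvd (by omega) h3
    rw [hord] at h4
    have : (q - 1) * 2 < (q - 1) * (q + 1) := Nat.mul_lt_mul_of_pos_left (by omega) (by omega)
    omega
  refine ⟨b, r, c, k, hv, hu, g, hr, hr0, hgG, ?_, hge, ?_, ?_, fun hk1 => hk2 (by rw [hk1, one_pow]), hk2⟩
  · exact mul_mem (mul_mem (det_uni hF _) (det_uni hF _)) (det_uni hF _)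
  · rw [hnu]
    simp only [k]
    field_simp
  · rw [pow_succ, hkq]
    simp only [k]
    field_simp

end Cfsg.Agent.SUTwoGen
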