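import Cfsg.Agent.SUTwoGen.Five
import Cfsg.Agent.SUTwoGen.Turn

/-!
The radical at the fixed point lies in the group generated by `u` and a unipotent of the middle `SU_3`.
-/

set_option autoImplicit false
set_option maxHeartbeats 1000000

namespace Cfsg.Agent.SUTwoGen

open Cfsg.Agent.Classical.U

universe u

variable {F : Type u} [Field F] {q : ℕ} (hF : SqField F q) {e w f : Fin 3 → F} (h : IsFrame q e w f)
include hF h

/-- Fixed-point freeness. -/
theorem turn_fpf {g : UG 3 F q} {k : F} (hge : g.1 e = k • e) (hnu : herm q (g.1 w) w * k ^ 2 = 1)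
    (hk : k ^ (q + 1) = 1) (hk1 : k ≠ 1) (hk2 : k ^ 2 ≠ 1) : ∀ y : Fin 3 → F, g.1 y = y → y = 0 := by
  obtain ⟨ee, ew, ef, we, ww, wf, fe, fw, ff⟩ := frame_vals hF h
  intro y hy
  have hk0 : k ≠ 0 := by rintro rfl; simp at hk
  have hkq : k ^ q ≠ 1 := by
    intro e1
    rw [pow_succ, e1, one_mul] at hk
    exact hk1 hk
  have hZ : herm q y e = 0 := by
    have := UG_app g y e
    rw [hy, hge, herm_smul_right] at this
    by_contra hne
    exact hkq (mul_eq_right₀ hne |>.1 this)
  have hgw : herm q (g.1 w) e = 0 := by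
    have := UG_app g w e
    rw [hge, herm_smul_right, we, mul_eq_zero] at this
    exact this.resolve_left (pow_ne_zero _ hk0)
  have hy2 := hy
  rw [perp_expand hF h hZ, map_add, map_smul, map_smul, hge] at hy2
  have hW : herm q y w = 0 := by
    have := congrArg (herm q · w) hy2
    simp only [herm_add_left, herm_smul_left, ew, ww, mul_zero, mul_one, add_zero] at this
    by_contra hne
    exact hk2 (by rwa [(mul_eq_left₀ hne).1 this, one_mul] at hnu)
  rw [hW, zero_smul, zero_smul, zero_add, zero_add, smul_smul] at hy2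
  have hE : herm q y f = 0 := by
    by_contra hne
    have := congrArg (herm q · f) hy2
    simp only [herm_smul_left, ef, mul_one] at this
    exact hk1 ((mul_eq_left₀ hne).1 this)
  rw [perp_expand hF h hZ, hW, hE]
  simp

theorem turn_comm {g : UG 3 F q} {k : F} (hge : g.1 e = k • e) (hk : k ^ (q + 1) = 1) {d : F}
    (hd : TrvCond q e d) : g * trv hF hd = trv hF hd * g := by
  have hc : UniCond q (k • e) 0 d := ⟨by rw [← hge, UG_app]; exact hd.1, herm_zero_left _, (hd.uniCond hF).2.2⟩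
  have e1 : g * trv hF hd * g⁻¹ = trv hF hd := by
    rw [trv, uni_conj, uni_congr hF _ hc hge (map_zero _) rfl, uni_smul hF hc (by
      rw [smul_zero, mul_comm k, ← pow_succ, hk, one_mul]; exact hd.uniCond hF)]
    exact uni_congr hF _ _ rfl (smul_zero _) (by rw [mul_comm k, ← pow_succ, hk, one_mul])
  rwa [mul_inv_eq_iff_eq_mul] at e1

/-- Irreducibility of the natural module, `q ≥ 3`. -/
theorem irred_big (hq : 3 ≤ q) (M : AddSubgroup (Fin 3 → F))
    (hst : ∀ k ∈ SUG 3 F q, ∀ z ∈ M, k.1 z ∈ M) {y : Fin 3 → F} (hy : y ∈ M) (hy0 : y ≠ 0) :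
    M = ⊤ := by
  obtain ⟨ee, ew, ef, we, ww, wf, fe, fw, ff⟩ := frame_vals hF h
  have hT := SUG_eq_TG hF (n := 3) (by omega) (by omega)
  obtain ⟨b, hb⟩ := hF.exists_trace (c := -1) (by rw [hF.neg_pow, one_pow])
  obtain ⟨d0, hd0, hd0q⟩ := hF.exists_skew
  set p := e + w + b • f
  have hp : herm q p p = 0 := by
    simp only [p, herm_add_left, hF.herm_add_right, herm_smul_left, herm_smul_right, ee, ew, ef, we, ww, wf,
      fe, fw, ff]
    linear_combination hb
  obtain ⟨z, hz, hyz⟩ : ∃ z, herm q z z = 0 ∧ herm q y z ≠ 0 := by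
    by_contra hcon
    push Not at hcon
    have h1 := hcon e ee
    have h2 := hcon f ff
    have h3 := hcon p hp
    simp only [p, hF.herm_add_right, herm_smul_right, h1, h2, mul_zero, add_zero, zero_add] at h3
    refine hy0 ?_
    rw [expand hF h y, h1, h2, h3]
    simp
  have ht : TrvCond q z d0 := ⟨hz, hd0q⟩
  have hm := M.sub_mem (hst _ (det_uni hF (ht.uniCond hF)) y hy) hy
  rw [show (uni hF (ht.uniCond hF)).1 y = _ from trv_apply hF ht y, add_sub_cancel_left] at hm
  have hz0 : z ≠ 0 := by rintro rfl; exact hyz (hF.herm_zero_right _)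
  have hall : ∀ x : Fin 3 → F, herm q x x = 0 → x ∈ M := by
    intro x hx
    rcases eq_or_ne x 0 with rfl | hx0
    · exact M.zero_mem
    obtain ⟨g, hg, hgx⟩ := TG_transitive_vectors hF le_rfl (hasUni hF le_rfl (by omega))
      (u := (d0 * herm q y z) • z) (v := x)
      (smul_ne_zero (mul_ne_zero hd0 hyz) hz0)
      (by rw [herm_smul_left, herm_smul_right, hz, mul_zero, mul_zero]) hx0 hx
    rw [← hgx]
    exact hst g (hT ▸ hg) _ hm
  have hiso : ∀ (c : F) (x : Fin 3 → F), herm q x x = 0 → c • x ∈ M := fun c x hx =>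
    hall _ (by rw [herm_smul_left, herm_smul_right, hx, mul_zero, mul_zero])
  rw [eq_top_iff]
  intro x _
  rw [expand hF h x]
  refine M.add_mem (M.add_mem (hiso _ _ ee) ?_) (hiso _ _ ff)
  rw [show herm q x w • w = herm q x w • p - (herm q x w • e + (herm q x w * b) • f) by
    simp only [p]; module]
  exact M.sub_mem (hiso _ _ hp) (M.add_mem (hiso _ _ ee) (hiso _ _ ff))

/-- Irreducibility, `q = 2`. -/
theorem irred_two (hq : q = 2) {b r c k : F} (hb : UniCond q f ((1 : F) • w) b)
    (hc : UniCond q e (r • w) c) (hr0 : r ≠ 0) {g : UG 3 F q} (hge : g.1 e = k • e)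
    (hnu : herm q (g.1 w) w * k ^ 2 = 1) (hk : k ^ (q + 1) = 1) (hk1 : k ≠ 1)
    (M : AddSubgroup (Fin 3 → F)) (hU : ∀ z ∈ M, (uni hF hc).1 z ∈ M) (hV : ∀ z ∈ M, (uni hF hb).1 z ∈ M)
    (hg : ∀ z ∈ M, g.1 z ∈ M) {y : Fin 3 → F} (hy : y ∈ M) (hy0 : y ≠ 0) : M = ⊤ := by
  obtain ⟨ee, ew, ef, we, ww, wf, fe, fw, ff⟩ := frame_vals hF h
  subst hq
  obtain ⟨hfin, hcard⟩ := id hF
  have := Fintype.ofFinite F
  have hc4 : Fintype.card F = 4 := by rw [← Nat.card_eq_fintype_card, hcard]; norm_num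
  have h2 : (2 : F) = 0 := by
    have := Nat.cast_card_eq_zero F
    rw [hc4] at this
    have h' : (2 : F) * 2 = 0 := by rw [← this]; norm_num
    exact mul_self_eq_zero.1 h'
  have hk0 : k ≠ 0 := by rintro rfl; simp at hk
  have hk2 : k ^ 2 + k + 1 = 0 := by
    apply mul_left_cancel₀ (sub_ne_zero.2 hk1)
    linear_combination hk
  have hcover : ∀ x : F, x = 0 ∨ x = 1 ∨ x = k ∨ x = k + 1 := by
    intro x
    have h4 := FiniteField.pow_card x
    rw [hc4] at h4
    have : x * (x - 1) * (x - k) * (x - (k + 1)) = 0 := by grind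
    rcases mul_eq_zero.1 this with h5 | h5
    · rcases mul_eq_zero.1 h5 with h6 | h6
      · rcases mul_eq_zero.1 h6 with h7 | h7
        · exact Or.inl h7
        · exact Or.inr (Or.inl (sub_eq_zero.1 h7))
      · exact Or.inr (Or.inr (Or.inl (sub_eq_zero.1 h6)))
    · exact Or.inr (Or.inr (Or.inr (sub_eq_zero.1 h5)))
  have hnu' : herm 2 (g.1 w) w = k := by
    apply mul_right_cancel₀ (pow_ne_zero 2 hk0)
    rw [hnu]
    linear_combination -hk
  have hgw : herm 2 (g.1 w) e = 0 := by
    have := UG_app g w e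
    rw [hge, herm_smul_right, we, mul_eq_zero] at this
    exact this.resolve_left (pow_ne_zero _ hk0)
  have egw := perp_expand hF h hgw
  rw [hnu'] at egw
  have hgf : herm 2 (g.1 f) e = k := by
    have := UG_app g f e
    rw [hge, herm_smul_right, fe] at this
    linear_combination k * this - herm 2 (g.1 f) e * hk
  have egf := expand hF h (g.1 f)
  rw [hgf] at egf
  generalize herm 2 (g.1 w) f = t at egw
  generalize herm 2 (g.1 f) f = α at egf
  generalize herm 2 (g.1 f) w = β at egf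
  have hscal : ∀ z, g.1 (g.1 (g.1 (g.1 z))) = k • z := by
    intro z
    rw [expand hF h z]
    simp only [map_add, map_smul, hge, egw, egf]
    match_scalars <;> grind
  have hsm : ∀ (a : F), ∀ z ∈ M, a • z ∈ M := by
    intro a z hz
    have hkz : k • z ∈ M := hscal z ▸ hg _ (hg _ (hg _ (hg _ hz)))
    rcases hcover a with rfl | rfl | rfl | rfl
    · rw [zero_smul]; exact M.zero_mem
    · rwa [one_smul]
    · exact hkz
    · rw [add_smul, one_smul]; exact M.add_mem hkz hz
  have step : ∀ E W Z : F, E • e + W • w + Z • f ∈ M →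
      (c * Z - W * r ^ 2) • e + (Z * r) • w ∈ M := by
    intro E W Z hm
    have := M.sub_mem (hU _ hm) hm
    rw [uni_coords hF h hc] at this
    convert this using 1
    module
  have hr2 : r ^ 2 ≠ 0 := pow_ne_zero _ hr0
  have he : e ∈ M := by
    have hy' : herm 2 y f • e + herm 2 y w • w + herm 2 y e • f ∈ M := expand hF h y ▸ hy
    by_cases hZ : herm 2 y e = 0
    · rw [hZ] at hy'
      by_cases hW : herm 2 y w = 0
      · rw [hW] at hy'
        have hE : herm 2 y f ≠ 0 := fun hE => hy0 (by rw [expand hF h y, hE, hW, hZ]; simp)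
        have := hsm (herm 2 y f)⁻¹ _ hy'
        simpa [smul_smul, hE] using this
      · have := hsm (-(herm 2 y w * r ^ 2))⁻¹ _ (step _ _ _ hy')
        convert this using 1
        match_scalars <;> field_simp <;> ring
    · have h1 := step _ _ _ hy'
      have h2' := step (c * herm 2 y e - herm 2 y w * r ^ 2) (herm 2 y e * r) 0 (by simpa using h1)
      have := hsm (-(herm 2 y e * r * r ^ 2))⁻¹ _ h2'
      convert this using 1
      match_scalars <;> field_simp <;> ring
  have hwf : w + b • f ∈ M := by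
    have := M.sub_mem (hV _ he) he
    rw [show (uni hF hb).1 e = _ from (congrArg (uni hF hb).1
      (show e = (1 : F) • e + (0 : F) • w + (0 : F) • f by simp)).trans (uni_coords' hF h hb 1 0 0)] at this
    convert this using 1
    module
  have hb0 : b ≠ 0 := by
    rintro rfl
    have := (cond_iff' hF h).1 hb
    simp at this
  have hw : w ∈ M := by
    have h1 := step 0 1 b (by simpa using hwf)
    have h3 := hsm (b * r)⁻¹ _ (M.sub_mem h1 (hsm (c * b - 1 * r ^ 2) _ he))
    convert h3 using 1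
    match_scalars <;> field_simp <;> ring
  have hf : f ∈ M := by
    have := hsm b⁻¹ _ (M.sub_mem hwf hw)
    convert this using 1
    match_scalars <;> first | ring1 | (field_simp; try ring1)
  rw [eq_top_iff]
  intro x _
  rw [expand hF h x]
  exact M.add_mem (M.add_mem (hsm _ _ he) (hsm _ _ hw)) (hsm _ _ hf)

variable {E1 F1 : Fin 5 → F} (ht : IsTop q E1 F1)
include ht

/-- The regular unipotent element of `SU_5`. -/
noncomputable def uFive {r c : F} (hA : UniCond q E1 (emb (-f)) 0) (hc : UniCond q e (r • w) c) : UG 5 F q :=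
  uni hF hA * lift5 F q (uni hF hc)

omit h in
theorem radical_of_modM {G : Subgroup (UG 5 F q)} (h : IsFrame q e w f) (hM : modM hF ht G = ⊤)
    (x : Fin 5 → F) (a : F) (hx : UniCond q E1 x a) : uni hF hx ∈ G := by
  have hall : ∀ y : Fin 3 → F, ∃ (a : F) (hy : UniCond q E1 (emb y) a), uni hF hy ∈ G := by
    intro y
    obtain ⟨a, hy, hyG⟩ : y ∈ modM hF ht G := by rw [hM]; trivial
    exact ⟨a, hy, by simpa using hyG⟩
  have hcen : ∀ (d : F) (hd : UniCond q E1 (emb (0 : Fin 3 → F)) d), uni hF hd ∈ G := by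
    intro d hd
    have hd' : d ^ q = -d := by
      have := (rad_cond hF ht).1 hd
      rw [herm_zero_left] at this
      linear_combination this
    obtain ⟨z, hz⟩ := exists_skew_split hF hd'
    obtain ⟨a, ha, haG⟩ := hall e
    obtain ⟨b, hb, hbG⟩ := hall (z • f)
    obtain ⟨p1, e1⟩ := rad_mul hF ht ha hb
    obtain ⟨p2, e2⟩ := rad_mul hF ht hb ha
    have hG := G.mul_mem (G.mul_mem hbG haG) (G.inv_mem (G.mul_mem haG hbG))
    obtain ⟨p3, e3⟩ := rad_mul hF ht hd p1
    convert hG using 1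
    rw [e1, e2, eq_mul_inv_iff_mul_eq, e3]
    obtain ⟨ee, ew, ef, we, ww, wf, fe, fw, ff⟩ := frame_vals hF h
    refine uni_congr hF _ _ rfl (by rw [zero_add, add_comm]) ?_
    simp only [hF.herm_zero_right, herm_smul_left, herm_smul_right, ef, fe]
    linear_combination -hz
  obtain ⟨y, t, rfl⟩ := perp_decomp hF ht hx.2.1
  have hs : UniCond q E1 (emb y) (a + t - t ^ q) := by
    have := hx.2.2
    rw [rad_cond hF ht, hF.sub_pow, hF.add_pow, hF.pow_pow]
    simp only [herm_add_left, hF.herm_add_right, herm_smul_left, herm_smul_right, (top_emb hF ht y).1,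
      (top_emb hF ht y).2.1, ht.pair.1, herm_emb hF] at this
    linear_combination this
  rw [show uni hF hx = uni hF hs from Subtype.ext (LinearEquiv.ext fun z => by
    rw [uni_apply, uni_apply, hF.herm_add_right, herm_smul_right]
    module)]
  obtain ⟨b, hb, hbG⟩ := hall y
  have hd : UniCond q E1 (emb (0 : Fin 3 → F)) ((a + t - t ^ q) - b) := by
    have h1 := (rad_cond hF ht).1 hs
    have h2 := (rad_cond hF ht).1 hb
    rw [rad_cond hF ht, hF.sub_pow, herm_zero_left]
    linear_combination h1 - h2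
  obtain ⟨p, e1⟩ := rad_mul hF ht hd hb
  convert G.mul_mem (hcen _ hd) hbG using 1
  rw [e1]
  exact uni_congr hF _ _ rfl (by rw [zero_add]) (by rw [hF.herm_zero_right]; ring)

/-- The radical lies in a group containing `u` and the unipotent of the middle. -/
theorem exists_params : ∃ (b r c : F) (hb : UniCond q f ((1 : F) • w) b) (hc : UniCond q e (r • w) c)
    (hA : UniCond q E1 (emb (-f)) 0), r ^ q = r ∧ r ≠ 0 ∧ ∀ G : Subgroup (UG 5 F q),
      uFive hF hA hc ∈ G → lift5 F q (uni hF hb) ∈ G →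
      ∀ (x : Fin 5 → F) (a : F) (hx : UniCond q E1 x a), uni hF hx ∈ G := by
  obtain ⟨ee, ew, ef, we, ww, wf, fe, fw, ff⟩ := frame_vals hF h
  obtain ⟨b0, r0, c0, k, hv0, hu0, g, hr0q, hr00, hgK, hgS, hge, hnu, hk, hk1, hk2⟩ := exists_turn hF h
  have hA : UniCond q E1 (emb (-f)) 0 := by
    rw [rad_cond hF ht, herm_neg_left, hF.herm_neg_right, ff, zero_pow hF.q_ne_zero]; ring
  have hfpf := turn_fpf hF h hge hnu hk hk1 hk2
  have liftU : ∀ {r c : F} (hc : UniCond q e (r • w) c) {G : Subgroup (UG 5 F q)},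
      uFive hF hA hc ∈ G → HasLift hF G E1 (uni hF hc) (-f) := fun hc G hG => ⟨0, hA, hG⟩
  have liftV : ∀ {b : F} (hb : UniCond q f ((1 : F) • w) b) {G : Subgroup (UG 5 F q)},
      lift5 F q (uni hF hb) ∈ G → HasLift hF G E1 (uni hF hb) 0 := by
    intro b hb G hG
    refine ⟨0, by rw [map_zero]; exact uniCond_zero hF ht.pair.1, ?_⟩
    rwa [uni_congr hF _ (uniCond_zero hF ht.pair.1) rfl (map_zero _) rfl, uni_zero hF ht.pair.1, one_mul]
  rcases eq_or_lt_of_le (Nat.succ_le_of_lt hF.one_lt) with hq2 | hq3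
  · -- `q = 2`
    refine ⟨b0, r0, c0, hv0, hu0, hA, hr0q, hr00, fun G hu hv => radical_of_modM hF ht h ?_⟩
    have hq : q = 2 := hq2.symm
    obtain ⟨yg, hgl⟩ := exists_lift hF ht (liftU hu0 hu) (liftV hv0 hv) hgK
    obtain ⟨p, ep⟩ := uni_param_mul hF h hu0 hu0
    have hr2 : r0 + r0 = 0 := by
      obtain ⟨p', k', hp', hchar, hqp⟩ := hF.exists_char
      obtain rfl : p' = 2 := (Nat.prime_dvd_prime_iff_eq hp' Nat.prime_two).1
        (hq ▸ hqp ▸ dvd_pow_self p' (by rintro rfl; simp [hq] at hqp))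
      exact CharTwo.add_self_eq_zero _
    have hd : TrvCond q e (c0 + c0 - r0 * r0 ^ q) := by
      refine ⟨ee, ?_⟩
      have := (cond_iff hF h).1 p
      rw [hr2, zero_pow (by omega)] at this
      linear_combination this
    have hd0 : c0 + c0 - r0 * r0 ^ q ≠ 0 := by
      have hc2 : c0 + c0 = 0 := by
        have : (c0 + c0) * r0 = 0 := by linear_combination c0 * hr2
        exact (mul_eq_zero.1 this).resolve_right hr00
      rw [hc2, zero_sub, neg_ne_zero]
      exact mul_ne_zero hr00 (pow_ne_zero _ hr00)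
    have htl : ∃ y, HasLift hF G E1 (trv hF hd) y := by
      have := HasLift.mul hF ht (liftU hu0 hu) (liftU hu0 hu)
      rw [ep, uni_congr hF p (hd.uniCond hF) rfl (by rw [hr2, zero_smul]) rfl] at this
      exact ⟨_, this⟩
    obtain ⟨yt, htl⟩ := htl
    obtain ⟨y, hy, hy0⟩ := exists_modM_ne_zero hF ht h hu0 (liftU hu0 hu) hgl hfpf hd hd0 htl
      (turn_comm hF h hge hk hd)
    exact irred_two hF h hq hv0 hu0 hr00 hge hnu hk hk1 _ (fun z hz => modM_stable hF ht (liftU hu0 hu) hz)
      (fun z hz => modM_stable hF ht (liftV hv0 hv) hz) (fun z hz => modM_stable hF ht hgl hz) hy hy0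
  · -- `q ≥ 3`
    obtain ⟨b, r, c, hb, hc, hr, hr0, hgen⟩ := exists_genPair hF h hq3
    refine ⟨b, r, c, hb, hc, hA, hr, hr0, fun G hu hv => radical_of_modM hF ht h ?_⟩
    have hlift : ∀ k' ∈ SUG 3 F q, ∃ y, HasLift hF G E1 k' y := fun k' hk' =>
      exists_lift hF ht (liftU hc hu) (liftV hb hv) (hgen hk')
    obtain ⟨yg, hgl⟩ := hlift g hgS
    obtain ⟨d, hd0, hdq⟩ := hF.exists_skew
    have hd : TrvCond q e d := ⟨ee, hdq⟩
    obtain ⟨yt, htl⟩ := hlift (trv hF hd) (det_uni hF _)
    obtain ⟨y, hy, hy0⟩ := exists_modM_ne_zero hF ht h hc (liftU hc hu) hgl hfpf hd hd0 htl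
      (turn_comm hF h hge hk hd)
    exact irred_big hF h hq3 _
      (fun k' hk' z hz => modM_stable hF ht (hlift k' hk').choose_spec hz) hy hy0

end Cfsg.Agent.SUTwoGen
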