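import Cfsg.Agent.SUTwoGen.Core

/-!
The generic pair of conjugate regular unipotent generators of `SU_3(q)`.
-/

set_option autoImplicit false

namespace Cfsg.Agent.SUTwoGen

open Cfsg.Agent.Classical.U

universe u

variable {F : Type u} [Field F] {q : ℕ}

/-- Two conjugate regular unipotent elements generating the special unitary group. -/
def HasPair (F : Type u) [Field F] (q : ℕ) : Prop :=
  ∃ g u : UG 3 F q, g ∈ SUG 3 F q ∧ u ∈ SUG 3 F q ∧
    (∀ z, u.1 (u.1 (u.1 z - z) - (u.1 z - z)) - (u.1 (u.1 z - z) - (u.1 z - z)) = 0) ∧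
    (∃ z, u.1 (u.1 z - z) - (u.1 z - z) ≠ 0) ∧
    SUG 3 F q ≤ Subgroup.closure {u, g * u * g⁻¹}

variable (hF : SqField F q)
include hF

/-- The subfield test: a subfield with `Q` elements and index `d`. -/
theorem subfield_card (K : Subfield F) :
    ∃ Q d : ℕ, 2 ≤ Q ∧ Q ^ d = q ^ 2 ∧ (∀ x ∈ K, x ^ Q = x) ∧ (d = 1 → K = ⊤) := by
  obtain ⟨hfin, hcard⟩ := id hF
  have : Finite K := inferInstance
  refine ⟨Nat.card K, Module.finrank K F, Finite.one_lt_card, ?_, ?_, ?_⟩
  · rw [← Module.natCard_eq_pow_finrank, hcard]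
  · intro x hx
    have := Fintype.ofFinite K
    have h1 := FiniteField.pow_card (⟨x, hx⟩ : K)
    rw [← Nat.card_eq_fintype_card] at h1
    exact congrArg Subtype.val h1
  · intro hd
    have h1 : Nat.card K = Nat.card F := by
      rw [Module.natCard_eq_pow_finrank (K := K) (V := F), hd, pow_one]
    rw [eq_top_iff]
    intro x _
    have : Function.Bijective (Subtype.val : K → F) :=
      (Nat.bijective_iff_injective_and_card _).2 ⟨Subtype.val_injective, h1⟩
    obtain ⟨y, hy⟩ := this.2 x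
    exact hy ▸ y.2

variable {e w f : Fin 3 → F} (h : IsFrame q e w f)
include h

/-- Coordinates of the image under a unipotent element fixing `f`. -/
theorem uni_coords' {x a : F} (hc : UniCond q f (x • w) a) (E W Z : F) :
    (uni hF hc).1 (E • e + W • w + Z • f) =
      E • e + (W + E * x) • w + (Z + a * E - W * x ^ q) • f := by
  have := uni_coords hF (frame_symm hF h) hc Z W E
  rw [show E • e + W • w + Z • f = Z • f + W • w + E • e by abel, this]
  abel

theorem cond_iff' {x a : F} : UniCond q f (x • w) a ↔ a + a ^ q + x ^ (q + 1) = 0 :=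
  cond_iff hF (frame_symm hF h)

/-- The opposite unipotent is conjugate to `u`. -/
theorem exists_conj {b r c : F} (hb : UniCond q f ((1 : F) • w) b) (hc : UniCond q e (r • w) c)
    (hr : r ^ q = r) (hr0 : r ≠ 0) : ∃ g ∈ SUG 3 F q, g * uni hF hb * g⁻¹ = uni hF hc := by
  have hq := hF.q_ne_zero
  obtain ⟨σ, hσ⟩ := hF.exists_norm (c := -(1 + 1)) (by rw [hF.neg_pow, hF.add_pow, one_pow])
  have h1 : UniCond q e (σ • w) 1 := by rw [cond_iff hF h, hσ, one_pow]; ring
  have h2 : UniCond q f ((-σ) • w) 1 := by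
    rw [cond_iff' hF h, one_pow, pow_succ, hF.neg_pow, neg_mul_neg, ← pow_succ, hσ]; ring
  set g1 := uni hF h2 * uni hF h1
  have g1f : g1.1 f = e := by
    rw [Subgroup.coe_mul, LinearEquiv.mul_apply]
    refine (congrArg (fun z => (uni hF h2).1 ((uni hF h1).1 z))
      (show f = (0 : F) • e + (0 : F) • w + (1 : F) • f by simp)).trans ?_
    rw [uni_coords hF h h1, uni_coords' hF h h2]
    rw [pow_succ] at hσ
    rw [hF.neg_pow]
    match_scalars <;> first | ring1 | linear_combination hσ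
  have g1w : g1.1 w = (-1 : F) • w + (-σ ^ q) • e := by
    rw [Subgroup.coe_mul, LinearEquiv.mul_apply]
    refine (congrArg (fun z => (uni hF h2).1 ((uni hF h1).1 z))
      (show w = (0 : F) • e + (1 : F) • w + (0 : F) • f by simp)).trans ?_
    rw [uni_coords hF h h1, uni_coords' hF h h2]
    rw [pow_succ] at hσ
    rw [hF.neg_pow]
    match_scalars <;> first | ring1 | linear_combination hσ
  have hc1 : UniCond q e ((-1 : F) • w + (-σ ^ q) • e) b := by
    have := hb
    rw [one_smul] at this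
    rw [← g1w]
    refine ⟨h.pair.1, ?_, ?_⟩
    · rw [← g1f, UG_app]; exact this.2.1
    · rw [UG_app]; exact this.2.2
  have hc2 : UniCond q e ((-1 : F) • w) (b + -σ ^ q - (-σ ^ q) ^ q) := by
    have hb' := (cond_iff' hF h).1 hb
    rw [cond_iff hF h, hF.sub_pow, hF.add_pow, hF.pow_pow, pow_succ]
    rw [pow_succ] at hb'
    simp only [hF.neg_pow, one_pow, hF.pow_pow] at hb' ⊢
    linear_combination hb'
  have e1 : g1 * uni hF hb * g1⁻¹ = uni hF hc2 := by
    rw [uni_conj, uni_congr hF _ hc1 g1f (by rw [one_smul]; exact g1w) rfl, uni_shift hF hc1 hc2]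
  obtain ⟨g2, hg2, g2e, g2fix⟩ := exists_TG_scale hF h.pair (c := -r) (neg_ne_zero.2 hr0)
    (by rw [hF.neg_pow, hr])
  obtain ⟨a', hc3, e2⟩ := conj_param hF h g2e hc2
  have ex : (-r) ^ q * herm q (g2.1 w) w * (-1) = r := by
    rw [g2fix w h.we h.wf, h.ww, hF.neg_pow, hr]; ring
  have hc4 : UniCond q e (r • w) a' := by rwa [ex] at hc3
  have e2' : g2 * uni hF hc2 * g2⁻¹ = uni hF hc4 :=
    e2.trans (uni_congr hF _ _ rfl (by rw [ex]) rfl)
  obtain ⟨y, hy⟩ := exists_skew_split hF (d := (c - a') / r) (by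
    have a1 := (cond_iff hF h).1 hc4
    have a2 := (cond_iff hF h).1 hc
    rw [div_pow, hF.sub_pow, hr, ← neg_div]
    congr 1
    linear_combination a2 - a1)
  obtain ⟨ay, hay⟩ := hF.exists_trace (c := -(y ^ (q + 1))) (by
    rw [hF.neg_pow, pow_succ, mul_pow, hF.pow_pow, mul_comm])
  have hy' : UniCond q e (y • w) ay := by rw [cond_iff hF h, hay]; ring
  obtain ⟨p1, e3⟩ := uni_param_mul hF h hy' hc4
  obtain ⟨p2, e4⟩ := uni_param_mul hF h hc hy'
  have e5 : uni hF hy' * uni hF hc4 * (uni hF hy')⁻¹ = uni hF hc := by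
    rw [mul_inv_eq_iff_eq_mul, e3, e4]
    refine uni_congr hF _ _ rfl (by rw [add_comm]) ?_
    rw [hr]
    field_simp at hy
    linear_combination hy
  refine ⟨uni hF hy' * g2 * g1, mul_mem (mul_mem (det_uni hF _) (TG_le_SUG hF hg2))
    (mul_mem (det_uni hF _) (det_uni hF _)), ?_⟩
  rw [show uni hF hy' * g2 * g1 * uni hF hb * (uni hF hy' * g2 * g1)⁻¹ =
    uni hF hy' * (g2 * (g1 * uni hF hb * g1⁻¹) * g2⁻¹) * (uni hF hy')⁻¹ by group, e1, e2', e5]

omit hF h in
/-- Opposite regular unipotents in the frame generating the special unitary group. -/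
def GenPair (F : Type u) [Field F] (q : ℕ) (e w f : Fin 3 → F) (hF : SqField F q) : Prop :=
  ∃ (b r c : F) (hb : UniCond q f ((1 : F) • w) b) (hc : UniCond q e (r • w) c),
    r ^ q = r ∧ r ≠ 0 ∧ SUG 3 F q ≤ Subgroup.closure {uni hF hc, uni hF hb}

/-- The pair from an element of the generated group fixing the line of `e`. -/
theorem genPair_of_word (hq : 3 ≤ q) {b r c : F} (hb : UniCond q f ((1 : F) • w) b)
    (hc : UniCond q e (r • w) c) (hr : r ^ q = r) (hr0 : r ≠ 0) {g : UG 3 F q} {lam : F}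
    (hg : g.1 e = lam • e) (hgG : g ∈ Subgroup.closure {uni hF hc, uni hF hb})
    (hgen : ∀ K : Subfield F, lam ^ q * herm q (g.1 w) w ∈ K → K = ⊤) : GenPair F q e w f hF := by
  obtain ⟨ee, ew, ef, we, ww, wf, fe, fw, ff⟩ := frame_vals hF h
  refine ⟨b, r, c, hb, hc, hr, hr0, ?_⟩
  rw [SUG_eq_TG hF (by omega) (by omega)]
  have hvG : uni hF hb ∈ Subgroup.closure {uni hF hc, uni hF hb} :=
    Subgroup.subset_closure (Or.inr rfl)
  refine TG_le_of_root_group hF h _ (root_group_le hF h _ hr0 hc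
    (Subgroup.subset_closure (Or.inl rfl)) hg hgG hgen) hvG ?_
  rw [show (uni hF hb).1 e = _ from (congrArg (uni hF hb).1
    (show e = (1 : F) • e + (0 : F) • w + (0 : F) • f by simp)).trans (uni_coords' hF h hb 1 0 0)]
  simp only [herm_add_left, herm_smul_left, hF.herm_add_right, herm_smul_right, ee, ew, ef, we, ww,
    wf, fe, fw, ff, hF.q_ne_zero, zero_pow, ne_eq, not_false_iff]
  simp only [mul_zero, mul_one, zero_mul, add_zero, zero_add, one_pow, one_mul, sub_zero]
  rintro rfl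
  have := (cond_iff' hF h).1 hb
  simp [hF.q_ne_zero] at this

theorem GenPair.hasPair (hp : GenPair F q e w f hF) : HasPair F q := by
  obtain ⟨b, r, c, hb, hc, hr, hr0, hgen⟩ := hp
  obtain ⟨k, hk, hkv⟩ := exists_conj hF h hb hc hr hr0
  obtain ⟨ee, ew, ef, we, ww, wf, fe, fw, ff⟩ := frame_vals hF h
  have hu : ∀ z, (uni hF hc).1 z - z =
      (c * herm q z e - herm q z w * r ^ q) • e + (herm q z e * r) • w := by
    intro z
    conv_lhs => rw [expand hF h z, uni_coords hF h hc]
    module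
  refine ⟨k⁻¹, uni hF hc, inv_mem hk, det_uni hF _, ?_, ?_, ?_⟩
  · intro z
    simp only [hu, herm_add_left, herm_smul_left, ee, ew, we, ww]
    simp
  · refine ⟨f, ?_⟩
    simp only [hu, herm_add_left, herm_smul_left, ee, ew, we, ww, fe, fw]
    intro hh
    have := congrArg (herm q · f) hh
    simp [herm_add_left, herm_neg_left, herm_smul_left, herm_zero_left, ef, wf, hF.q_ne_zero, hr0] at this
  · have e1 : k⁻¹ * uni hF hc * k⁻¹⁻¹ = uni hF hb := by rw [← hkv]; group
    rw [e1]
    exact hgen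

/-- The generic case. -/
theorem genPair_generic (hq : 3 ≤ q) (h5 : q ≠ 5) (h8 : q ≠ 8) : GenPair F q e w f hF := by
  obtain ⟨hfin, hcard⟩ := id hF
  obtain ⟨γ, hγ⟩ := IsCyclic.exists_generator (α := Fˣ)
  have hord : orderOf γ = (q - 1) * (q + 1) := by
    rw [orderOf_eq_card_of_forall_mem_zpowers hγ, hF.card_units]
  set g0 : F := (γ : F)
  have hg0 : g0 ≠ 0 := γ.ne_zero
  have hT : g0 + g0 ^ q ≠ 0 := by
    intro hh
    have h1 : g0 ^ q = -g0 := by linear_combination hh
    have h2 : g0 ^ (2 * (q - 1)) = 1 := by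
      have h3 : g0 ^ (q - 1) * g0 = -g0 := by rw [← pow_succ, Nat.sub_add_cancel (by omega)]; exact h1
      have h4 : g0 ^ (q - 1) = -1 := mul_right_cancel₀ hg0 (by rw [h3, neg_one_mul])
      rw [mul_comm, pow_mul, h4]; ring
    have h3 : orderOf γ ∣ 2 * (q - 1) := orderOf_dvd_of_pow_eq_one (Units.ext (by simpa using h2))
    have h4 := Nat.le_of_dvd (by omega) h3
    rw [hord] at h4
    have : (q - 1) * 2 < (q - 1) * (q + 1) := Nat.mul_lt_mul_of_pos_left (by omega) (by omega)
    omega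
  set T := g0 + g0 ^ q
  have hTq : T ^ q = T := hF.trace_fixed g0
  set b := -g0 / T
  have hb0 : b ≠ 0 := div_ne_zero (neg_ne_zero.2 hg0) hT
  set b' := b ^ q with hb'def
  have hb'0 : b' ≠ 0 := pow_ne_zero _ hb0
  have hbb : b' = -1 - b := by
    simp only [hb'def, b, div_pow, hF.neg_pow, hTq]
    field_simp
    ring
  have hbq : b' ^ q = b := hF.pow_pow b
  set k := b / b'
  have hk0 : k ≠ 0 := div_ne_zero hb0 hb'0
  set r := 1 / (b * b')
  have hr : r ^ q = r := by
    simp only [r, div_pow, one_pow, mul_pow, hbq, ← hb'def]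
    rw [mul_comm]
  have hr0 : r ≠ 0 := one_div_ne_zero (mul_ne_zero hb0 hb'0)
  set c := (k - 1 + r) / b
  have hv : UniCond q f ((1 : F) • w) b := by
    rw [cond_iff' hF h, one_pow, ← hb'def, hbb]; ring
  have hu : UniCond q e (r • w) c := by
    have hkq : k ^ q = b' / b := by rw [div_pow, hbq]
    rw [cond_iff hF h, pow_succ, hr]
    simp only [c, div_pow, hF.add_pow, hF.sub_pow, one_pow, hr, hkq, ← hb'def]
    simp only [r, k]
    field_simp
    rw [hbb]
    ring
  set G : Subgroup (UG 3 F q) := Subgroup.closure {uni hF hu, uni hF hv}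
  set g := uni hF hv * uni hF hu * uni hF hv
  have hgG : g ∈ G := mul_mem (mul_mem (Subgroup.subset_closure (Or.inr rfl))
    (Subgroup.subset_closure (Or.inl rfl))) (Subgroup.subset_closure (Or.inr rfl))
  have hge : g.1 e = k • e := by
    simp only [g, Subgroup.coe_mul, LinearEquiv.mul_apply]
    refine (congrArg (fun z => (uni hF hv).1 ((uni hF hu).1 ((uni hF hv).1 z)))
      (show e = (1 : F) • e + (0 : F) • w + (0 : F) • f by simp)).trans ?_
    rw [uni_coords' hF h hv, uni_coords hF h hu, uni_coords' hF h hv, hr, one_pow]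
    simp only [c, r, k]
    match_scalars <;> field_simp <;> rw [hbb] <;> ring
  obtain ⟨ee, ew, ef, we, ww, wf, fe, fw, ff⟩ := frame_vals hF h
  have hnu : herm q (g.1 w) w = (b' / b) ^ 2 := by
    simp only [g, Subgroup.coe_mul, LinearEquiv.mul_apply]
    refine (congrArg (fun z => herm q ((uni hF hv).1 ((uni hF hu).1 ((uni hF hv).1 z))) w)
      (show w = (0 : F) • e + (1 : F) • w + (0 : F) • f by simp)).trans ?_
    rw [uni_coords' hF h hv, uni_coords hF h hu, uni_coords' hF h hv, hr, one_pow]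
    simp only [herm_add_left, herm_smul_left, ew, ww, fw, c, r, k]
    field_simp
    rw [hbb]
    ring
  refine genPair_of_word hF h hq hv hu hr hr0 hge hgG ?_
  rw [hnu, show k ^ q * (b' / b) ^ 2 = ((g0 ^ q) / g0) ^ 3 by
    have e1 : b' / b = g0 ^ q / g0 := by
      simp only [hb'def, b, div_pow, hF.neg_pow, hTq]
      field_simp
    rw [div_pow, hbq, ← e1]
    ring]
  intro K hK
  set K0 := g0 ^ q / g0
  have hK0 : ∀ m : ℕ, K0 ^ m = 1 → q + 1 ∣ m := by
    intro m hm
    have h1 : γ ^ ((q - 1) * m) = 1 := Units.ext (by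
      rw [Units.val_pow_eq_pow_val, Units.val_one, pow_mul, show g0 ^ (q - 1) = K0 by
        rw [eq_div_iff hg0, ← pow_succ, Nat.sub_add_cancel (by omega)]]
      exact hm)
    have h2 := orderOf_dvd_of_pow_eq_one h1
    rw [hord] at h2
    exact Nat.dvd_of_mul_dvd_mul_left (by omega) h2
  obtain ⟨Q, d, hQ, hQd, hfix, hd1⟩ := subfield_card hF K
  have hdiv : q + 1 ∣ 3 * (Q - 1) := by
    refine hK0 _ ?_
    have h1 := hfix _ hK
    have h2 : K0 ^ 3 ≠ 0 := pow_ne_zero _ (div_ne_zero (pow_ne_zero _ hg0) hg0)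
    rw [pow_mul]
    apply mul_right_cancel₀ h2
    rw [← pow_succ, Nat.sub_add_cancel (by omega), h1, one_mul]
  rcases lt_trichotomy d 2 with hd | hd | hd
  · interval_cases d
    · rw [pow_zero] at hQd
      nlinarith
    · exact hd1 rfl
  · exfalso
    subst hd
    have hQq : Q = q := Nat.pow_left_injective (by omega) hQd
    rw [hQq] at hdiv
    have h1 : q + 1 ∣ 6 := by
      have h2 : 3 * (q - 1) + 6 = 3 * (q + 1) := by omega
      exact (Nat.dvd_add_right hdiv).1 (h2 ▸ Dvd.intro_left 3 rfl)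
    have := Nat.le_of_dvd (by omega) h1
    have : q ≤ 5 := by omega
    interval_cases q <;> omega
  · exfalso
    have h3 : Q ^ 3 ≤ q ^ 2 := hQd ▸ Nat.pow_le_pow_right (by omega) hd
    have hle := Nat.le_of_dvd (by omega) hdiv
    have hQ5 : Q ≤ 5 := by
      by_contra hQ6
      obtain ⟨m, rfl⟩ : ∃ m, Q = m + 6 := ⟨Q - 6, by omega⟩
      have h4 : (m + 6) ^ 3 ≤ (3 * m + 14) ^ 2 := h3.trans (Nat.pow_le_pow_left (by omega) 2)
      ring_nf at h4
      omega
    have hq11 : q ≤ 11 := by omega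
    have hdle : d < 8 := by
      have : 2 ^ d ≤ Q ^ d := Nat.pow_le_pow_left hQ d
      have : q ^ 2 ≤ 121 := Nat.pow_le_pow_left hq11 2
      by_contra hd8
      have : 2 ^ 8 ≤ 2 ^ d := Nat.pow_le_pow_right (by omega) (by omega)
      omega
    interval_cases Q <;> interval_cases q <;> first | omega | (interval_cases d <;> simp at hQd)

theorem hasPair_generic (hq : 3 ≤ q) (h5 : q ≠ 5) (h8 : q ≠ 8) : HasPair F q :=
  (genPair_generic hF h hq h5 h8).hasPair hF h

end Cfsg.Agent.SUTwoGen
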